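import Cfsg.Agent.H480.FrameSplit
import Cfsg.Agent.Mrg.Omega.ML.Ex.Typ.List

/-!
# Nilpotent minimal covers: root group data with a proper invariant set of nodes (helper480, S3925, S3926)
-/

set_option autoImplicit false
set_option linter.unusedSectionVars false

namespace Cfsg.Agent.H480.Fr

open CoxeterSystem Cfsg.Agent.ChevalleyStructure.CoxeterGeom Cfsg.Agent.Tits.Roots Cfsg.Agent.Tits.Core
  Cfsg.Agent.Tits.RootComb Cfsg.Agent.Nodes.Comb Cfsg.Agent.Nodes.Reps Cfsg.Agent.Nodes.BNOf Cfsg.Agent.FixBN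
  Cfsg.Agent.Omega.ML.Ex.Typ Subgroup Cfsg.Agent.Schreier.BNSch

section

variable {I W Y : Type*} [Fintype I] [DecidableEq I] [Group W] [Group Y] {M : CoxeterMatrix I}
  {cs : CoxeterSystem M W} {A : I → I → ℤ} {h : IsCartan M A} {p : ℕ} {T : Subgroup Y} {n : I → Y}
  {X : (I → ℤ) → Subgroup Y}

/-- the regular unipotent elements -/
theorem exists_regular [Finite W] (R : RGD cs h p T n X) (hgen : RGD.B cs h T X ⊔ NN cs R.nsys = ⊤) :
    ∃ x ∈ RGD.Sup X (RGD.Pos cs h), ∀ i, x ∉ RGD.Sup X (RGD.PosNe cs h i) := by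
  have h1 : ∀ i, ∃ x ∈ X (sr i), x ∉ RGD.Sup X (RGD.PosNe cs h i) := by
    intro i
    by_contra hcon
    push Not at hcon
    obtain ⟨u, hu, huV⟩ := (NodeRGD.node R hgen i).ne
    apply huV
    rw [R.Upos_eq i] at hu
    have h2 : X (sr i) ⊔ RGD.Sup X (RGD.PosNe cs h i) ≤ RGD.Sup X (RGD.PosNe cs h i) := sup_le hcon le_rfl
    exact h2 hu
  choose x hx hxV using h1
  have hle : ∀ i, X (sr i) ≤ RGD.Sup X (RGD.Pos cs h) := fun i =>
    RGD.le_Sup (X := X) (S := RGD.Pos cs h) ⟨isRoot_sr cs h i, sr_nonneg i⟩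
  refine ⟨((Finset.univ : Finset I).toList.map x).prod, ?_, ?_⟩
  · apply list_prod_mem
    intro y hy
    obtain ⟨i, -, rfl⟩ := List.mem_map.1 hy
    exact hle i (hx i)
  · intro i hi
    have hmem : i ∈ (Finset.univ : Finset I).toList := by simp
    have hnd := (Finset.univ : Finset I).nodup_toList
    obtain ⟨l₁, l₂, h2⟩ := List.append_of_mem hmem
    rw [h2] at hi hnd
    have h3 : ∀ j ∈ l₁ ++ l₂, j ≠ i := by
      intro j hj hji
      subst hji
      rw [List.nodup_middle] at hnd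
      exact (List.nodup_cons.1 hnd).1 hj
    have h4 : ∀ j, j ≠ i → x j ∈ RGD.Sup X (RGD.PosNe cs h i) := by
      intro j hj
      have h5 : sr j ∈ RGD.PosNe cs h i := ⟨isRoot_sr cs h j, sr_nonneg j, fun h6 => by
        have h7 := congrFun h6 j
        rw [sr_self] at h7
        have h8 : (sr i : I → ℤ) j = 0 := by
          unfold sr
          exact Pi.single_eq_of_ne hj 1
        rw [h8] at h7
        exact absurd h7 (by decide)⟩
      exact RGD.le_Sup (X := X) (S := RGD.PosNe cs h i) h5 (hx j)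
    have h5 : ∀ l : List I, (∀ j ∈ l, j ≠ i) → (l.map x).prod ∈ RGD.Sup X (RGD.PosNe cs h i) := by
      intro l hl
      apply list_prod_mem
      intro y hy
      obtain ⟨j, hj, rfl⟩ := List.mem_map.1 hy
      exact h4 j (hl j hj)
    have h6 := h5 l₁ (fun j hj => h3 j (List.mem_append_left _ hj))
    have h7 := h5 l₂ (fun j hj => h3 j (List.mem_append_right _ hj))
    rw [List.map_append, List.map_cons, List.prod_append, List.prod_cons] at hi
    apply hxV i
    have h8 := mul_mem (mul_mem (inv_mem h6) hi) (inv_mem h7)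
    have h9 : (l₁.map x).prod⁻¹ * ((l₁.map x).prod * (x i * (l₂.map x).prod)) * (l₂.map x).prod⁻¹ = x i := by
      group
    rwa [h9] at h8

theorem relIndex_le [Finite Y] (R : RGD cs h p T n X) (i : I) :
    (RGD.Sup X (RGD.PosNe cs h i)).relIndex (RGD.Sup X (RGD.Pos cs h)) ≤ Nat.card (X (sr i)) := by
  have hle : X (sr i) ≤ RGD.Sup X (RGD.Pos cs h) :=
    RGD.le_Sup (X := X) (S := RGD.Pos cs h) ⟨isRoot_sr cs h i, sr_nonneg i⟩
  rw [relIndex]
  refine Nat.card_le_card_of_surjective (fun y : X (sr i) => (QuotientGroup.mk (⟨y, hle y.2⟩ :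
    ↥(RGD.Sup X (RGD.Pos cs h))) : _ ⧸ (RGD.Sup X (RGD.PosNe cs h i)).subgroupOf (RGD.Sup X (RGD.Pos cs h)))) ?_
  intro q
  induction q using QuotientGroup.induction_on with
  | _ u =>
  obtain ⟨u, hu⟩ := u
  have h1 : u ∈ X (sr i) ⊔ RGD.Sup X (RGD.PosNe cs h i) := by rw [← R.Upos_eq i]; exact hu
  have h2 : u ∈ ((X (sr i) ⊔ RGD.Sup X (RGD.PosNe cs h i) : Subgroup Y) : Set Y) := h1
  rw [Subgroup.coe_mul_of_left_le_normalizer_right _ _ (R.X_le_normalizer_V i)] at h2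
  obtain ⟨y, hy, v, hv, rfl⟩ := Set.mem_mul.1 h2
  refine ⟨⟨y, hy⟩, ?_⟩
  rw [QuotientGroup.eq, mem_subgroupOf]
  change y⁻¹ * (y * v) ∈ _
  rw [inv_mul_cancel_left]
  exact hv

end

/-- **Root group data with a nonempty proper invariant set of nodes.** -/
theorem not_nmc_of_rgd {H : Type*} [Group H] [Finite H] {K : Subgroup H} (hK : K.Normal) [IsSimpleGroup K] {p : ℕ}
    [hp : Fact p.Prime] {I W : Type*} [Fintype I] [DecidableEq I] [Nonempty I] [Group W] [Finite W]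
    {M : CoxeterMatrix I} {cs : CoxeterSystem M W} {A : I → I → ℤ} {h : IsCartan M A} {T : Subgroup K} {n : I → K}
    {X : (I → ℤ) → Subgroup K} (R : RGD cs h p T n X) (hG1 : Nodes.RGDLib.G1 cs h X = ⊤)
    (J : Set I) (hJn : J.Nonempty) (hJu : J ≠ Set.univ)
    (hJ : ∀ (σ : I → I) (N : I → ℕ), (∀ i j, M (σ i) (σ j) = M i j) → (∀ i, N (σ i) = N i) →
      (∀ i, N i ≤ Nat.card (X (sr i))) →
      (∀ r, (∀ i, N i ≤ r) → ∀ i j, (∀ k, k = i ∨ k = j) → ∀ k, p ^ k ∣ Nat.card K → p ^ k ≤ r ^ M i j) →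
        ∀ i ∈ J, σ i ∈ J)
    {𝓐 : Finset (Subgroup H)} (hA : NMC 𝓐) : False := by
  have hgen : RGD.B cs h T X ⊔ NN cs R.nsys = ⊤ := by
    rw [eq_top_iff, ← hG1]
    exact Nodes.RGDLib.rgd_G1_le R
  obtain ⟨i₀⟩ := (inferInstance : Nonempty I)
  have hne : (R.bnPair hgen).S.Nonempty := ⟨n i₀, i₀, rfl⟩
  have hP := SplitRGD.split_of_rgd hp.1 R hgen (Cfsg.Agent.Tits.OfBN.normalCore_eq_bot (R.bnPair hgen) hne)
  obtain ⟨e, hen, hT⟩ : ∃ e : I ≃ (R.bnPair hgen).S, (∀ i, (e i : K) = n i) ∧ BNType (R.bnPair hgen) M e :=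
    ⟨Equiv.ofInjective n R.n_injective, fun _ => rfl, bnType R hgen⟩
  obtain ⟨x, hx, hxV⟩ := exists_regular R hgen
  have huni : ∀ i, ∀ V : Subgroup K, Node (R.bnPair hgen) (RGD.Sup X (RGD.Pos cs h)) (e i : K) V →
      V = RGD.Sup X (RGD.PosNe cs h i) := by
    intro i V hV
    have h1 := NodeRGD.node R hgen i
    rw [hen] at hV
    apply le_antisymm
    · intro v hv
      exact h1.stab v (hV.le hv) (RGD.U_le_B (hV.le (hV.conj_s v hv)))
    · intro v hv
      exact hV.stab v (h1.le hv) (RGD.U_le_B (h1.le (h1.conj_s v hv)))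
  refine not_nmc_of_split hK hP e hT hx (fun i V hV => by rw [huni i V hV]; exact hxV i) J hJn hJu ?_ hA
  intro σ N h1 h2 h3 h4
  refine hJ σ N h1 h2 (fun i => ?_) h4
  refine (h3 i (RGD.Sup X (RGD.PosNe cs h i)) ?_).trans (relIndex_le R i)
  rw [hen]
  exact NodeRGD.node R hgen i

/-- the nodes with at most one neighbour -/
def Leaf {I : Type*} (M : CoxeterMatrix I) (i : I) : Prop := ∃ j, ∀ k, k ≠ i → M i k ≠ 2 → k = j

theorem Leaf.map {I : Type*} [Finite I] {M : CoxeterMatrix I} {σ : I → I} (hσ : ∀ i j, M (σ i) (σ j) = M i j) {i : I}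
    (hi : Leaf M i) : Leaf M (σ i) := by
  have hinj : Function.Injective σ := by
    intro i j e
    by_contra hij
    have h1 := hσ i j
    rw [e, M.diagonal] at h1
    exact M.off_diagonal i j hij h1.symm
  obtain ⟨j, hj⟩ := hi
  refine ⟨σ j, fun k hk hM => ?_⟩
  obtain ⟨k', rfl⟩ := (Finite.injective_iff_surjective.1 hinj) k
  rw [hσ] at hM
  rw [hj k' (fun h => hk (by rw [h])) hM]

/-- **Rank at least three**: the leaves form a nonempty proper invariant set. -/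
theorem not_nmc_of_hasRGDT {H : Type*} [Group H] [Finite H] {K : Subgroup H} (hK : K.Normal) [IsSimpleGroup K] {p : ℕ}
    [hp : Fact p.Prime] {l : ℕ} {M : CoxeterMatrix (Fin l)} (hR : HasRGDT p M K)
    {i j : Fin l} (hi : Leaf M i) (hj : ¬ Leaf M j)
    {𝓐 : Finset (Subgroup H)} (hA : NMC 𝓐) : False := by
  obtain ⟨A, h, T, n, X, hW, R, hG1⟩ := hR
  have hne : Nonempty (Fin l) := ⟨i⟩
  refine not_nmc_of_rgd hK R hG1 {i | Leaf M i} ⟨i, hi⟩ (fun h => hj ?_) (fun σ N h1 _ _ _ i hi => ?_) hA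
  · have : j ∈ {i | Leaf M i} := by rw [h]; trivial
    exact this
  · exact Leaf.map h1 hi

end Cfsg.Agent.H480.Fr
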