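import Cfsg.Agent.H480.Frame
import Cfsg.Agent.Tits.Generic
import Cfsg.Agent.ChevalleyStructure.CoxeterFaithful

/-!
# Nilpotent minimal covers: split (B,N)-pairs with a proper invariant set of nodes (helper480, S3925, S3926)
-/

set_option autoImplicit false
set_option linter.unusedSectionVars false

namespace Cfsg.Agent.H480.Fr

open Cfsg.Agent.Tits.Core Cfsg.Agent.Tits.Core.Bldg Cfsg.Agent.Tits.Exchange Cfsg.Agent.Tits
open Cfsg.Agent.FixBN Cfsg.Agent.FixBN.Cox Cfsg.Agent.UGT.U2.FOne Cfsg.Agent.ZN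
open Cfsg.Agent.Omega.ML.LieRow Subgroup Cfsg.Agent.Tits.OfBN Cfsg.Agent.Schreier.BNSch
  Cfsg.Agent.LieExceptional.BNPairCore

section Card

variable {I : Type*} {M : CoxeterMatrix I} {W : Type*} [Group W] {cs : CoxeterSystem M W} {C : Type*}
  {Δ : Bldg cs C}

local prefix:100 "ℓ" => cs.length

/-- rank two: the lengths are at most `M i j` -/
theorem length_le_two {i j : I} (hall : ∀ k, k = i ∨ k = j) (hM : M i j ≠ 0) (w : W) :
    ℓ w ≤ M i j := by
  have key : ∀ (a b : I), (∀ k, k = a ∨ k = b) → M a b = M i j → ∀ v : W, ℓ v < ℓ (v * cs.simple a) → v ≠ 1 →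
      ℓ v < M i j := by
    intro a b hab hMab v h1 h2
    obtain ⟨k, hk⟩ := cs.exists_rightDescent_of_ne_one h2
    have hk' : ℓ (v * cs.simple k) < ℓ v := hk
    rcases hab k with rfl | rfl
    · omega
    obtain ⟨v', n, -, h4, -, h5, h6, h7⟩ := ChevalleyStructure.CoxeterFaithful.exists_decomp cs h1 hk'
    have h8 : v' = 1 := by
      by_contra hv
      obtain ⟨k', hk2⟩ := cs.exists_rightDescent_of_ne_one hv
      have hk3 : ℓ (v' * cs.simple k') < ℓ v' := hk2
      rcases hab k' with rfl | rfl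
      · omega
      · omega
    rw [h8, cs.length_one] at h4
    rcases h5 with h5 | h5
    · rw [hMab] at h5; exact absurd h5 hM
    · omega
  by_cases hw : w = 1
  · rw [hw, cs.length_one]; omega
  obtain ⟨k, hk⟩ := cs.exists_rightDescent_of_ne_one hw
  have hk' : ℓ (w * cs.simple k) < ℓ w := hk
  have h1 : ℓ (w * cs.simple k) + 1 = ℓ w := by
    rcases cs.length_mul_simple w k with h | h <;> omega
  by_cases h2 : w * cs.simple k = 1
  · rw [h2, cs.length_one] at h1
    omega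
  have h3 : ℓ (w * cs.simple k) < ℓ (w * cs.simple k * cs.simple k) := by
    rw [mul_assoc, cs.simple_mul_simple_self, mul_one]
    exact hk'
  rcases hall k with rfl | rfl
  · have := key k j hall rfl _ h3 h2
    omega
  · have := key k i (fun k' => (hall k').symm) (M.symmetric _ _) _ h3 h2
    omega

/-- the number of chambers at given distance -/
theorem card_dist_le [Finite C] {r : ℕ} (hr : ∀ i c, Nat.card {y : C // Δ.δ c y = cs.simple i} ≤ r) (c : C) (w : W) :
    Nat.card {y : C // Δ.δ c y = w} ≤ r ^ ℓ w := by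
  have key : ∀ n : ℕ, ∀ w : W, ℓ w = n → Nat.card {y : C // Δ.δ c y = w} ≤ r ^ n := by
    intro n
    induction n with
    | zero =>
      intro w hw
      rw [cs.length_eq_zero_iff] at hw
      subst hw
      have h1 : Subsingleton {y : C // Δ.δ c y = 1} := by
        constructor
        rintro ⟨y, hy⟩ ⟨z, hz⟩
        exact Subtype.ext (((Δ.eq_one c y).1 hy).symm.trans ((Δ.eq_one c z).1 hz))
      rw [pow_zero]
      exact Finite.card_le_one_iff_subsingleton.2 h1
    | succ n ih =>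
      intro w hw
      have hw1 : w ≠ 1 := by
        rintro rfl
        rw [cs.length_one] at hw
        omega
      obtain ⟨i, hi⟩ := cs.exists_rightDescent_of_ne_one hw1
      have hi' : ℓ (w * cs.simple i) < ℓ w := hi
      have h1 : ℓ (w * cs.simple i) = n := by
        rcases cs.length_mul_simple w i with h | h <;> omega
      have h2 := ih _ h1
      have key2 : ∀ y : {y : C // Δ.δ c y = w}, ∃ z : {z : C // Δ.δ c z = w * cs.simple i}, Δ.δ (z : C) y =
          cs.simple i := by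
        rintro ⟨y, hy⟩
        obtain ⟨z, hz1, hz2⟩ := Δ.exists_step c y i
        refine ⟨⟨z, by rw [hz2, hy]⟩, ?_⟩
        rw [Δ.symm y z, hz1, cs.inv_simple]
      choose f hf using key2
      have h3 : Nat.card {y : C // Δ.δ c y = w} ≤
          Nat.card (Σ z : {z : C // Δ.δ c z = w * cs.simple i}, {y : C // Δ.δ (z : C) y = cs.simple i}) := by
        refine Nat.card_le_card_of_injective (fun y => ⟨f y, ⟨y, hf y⟩⟩) ?_
        intro y y' hyy
        have h4 := congrArg (fun q : (Σ z : {z : C // Δ.δ c z = w * cs.simple i},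
          {y : C // Δ.δ (z : C) y = cs.simple i}) => (q.2 : C)) hyy
        exact Subtype.ext h4
      refine h3.trans ?_
      have : Fintype {z : C // Δ.δ c z = w * cs.simple i} := Fintype.ofFinite _
      rw [Nat.card_sigma]
      calc _ ≤ ∑ _z : {z : C // Δ.δ c z = w * cs.simple i}, r := Finset.sum_le_sum fun z _ => hr i z
        _ = Nat.card {z : C // Δ.δ c z = w * cs.simple i} * r := by
          rw [Finset.sum_const, Finset.card_univ, smul_eq_mul, Nat.card_eq_fintype_card]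
        _ ≤ r ^ n * r := Nat.mul_le_mul_right _ h2
        _ = r ^ (n + 1) := (pow_succ r n).symm
  exact key _ w rfl

/-- the order of `U c` -/
theorem card_U_le {G : Type*} [Group G] [MulAction G C] {p : ℕ} (S : Sys Δ G p) [Finite C] {r : ℕ}
    (hr : ∀ i c, Nat.card {y : C // Δ.δ c y = cs.simple i} ≤ r) (c : C) : Nat.card (S.U c) ≤ r ^ ℓ (w0 cs) := by
  obtain ⟨y, hy⟩ := Δ.exists_δ c (w0 cs)
  refine le_trans ?_ (card_dist_le hr c (w0 cs))
  refine Nat.card_le_card_of_injective (fun u : S.U c => (⟨(u : G) • y, ?_⟩ : {y : C // Δ.δ c y = w0 cs})) ?_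
  · have h1 := S.iso (u : G) c y
    rw [S.fix c u u.2, hy] at h1
    exact h1
  · intro u v huv
    have h1 : (u : G) • y = (v : G) • y := congrArg Subtype.val huv
    have h2 : ((v : G)⁻¹ * u) • y = y := by rw [mul_smul, h1, inv_smul_smul]
    have h3 := S.free c y hy _ (mul_mem (inv_mem v.2) u.2) h2
    apply Subtype.ext
    rwa [inv_mul_eq_one, eq_comm] at h3

/-- `U c` is a Sylow subgroup -/
theorem pow_le_card_U {G : Type*} [Group G] [Finite G] [MulAction G C] {p : ℕ} [hp : Fact p.Prime] (S : Sys Δ G p)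
    [F : OppRes.Cox cs] (hth : Δ.Thick) (c : C) {k : ℕ} (hk : p ^ k ∣ Nat.card G) : p ^ k ≤ Nat.card (S.U c) := by
  obtain ⟨V, hV⟩ := Sylow.exists_subgroup_card_pow_prime p hk
  have hVp : IsPGroup p V := IsPGroup.of_card hV
  obtain ⟨d, hd⟩ := S.exists_fix V hVp
  obtain ⟨g, rfl⟩ := exists_smul_top S hth c d
  rw [← hV]
  refine Nat.card_le_card_of_injective (fun v : V => (⟨g⁻¹ * (v : G) * g, ?_⟩ : S.U c)) ?_
  · refine S.max c (V.map (MulAut.conj g⁻¹).toMonoidHom) (hVp.map _) ?_ ?_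
    · rintro _ ⟨v, hv, rfl⟩
      have h1 := hd v hv
      simp only [MulEquiv.coe_toMonoidHom, MulAut.conj_apply, inv_inv]
      rw [mul_smul, mul_smul, h1, inv_smul_smul]
    · exact ⟨v, v.2, by simp⟩
  · intro v w hvw
    have h1 : g⁻¹ * (v : G) * g = g⁻¹ * (w : G) * g := congrArg Subtype.val hvw
    exact Subtype.ext (mul_left_cancel (mul_right_cancel h1))

end Card

/-- **Split (B,N)-pairs with a nonempty proper invariant set of nodes.** -/
theorem not_nmc_of_split {H : Type*} [Group H] [Finite H] {K : Subgroup H} (hK : K.Normal) {p : ℕ} [Fact p.Prime]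
    {P : Cfsg.BNPair K} {U : Subgroup K} (hP : Split P p U) {I : Type*} {M : CoxeterMatrix I} (e : I ≃ P.S)
    (hT : BNType P M e) {x : K} (hx : x ∈ U)
    (hreg : ∀ i, ∀ V : Subgroup K, Node P U (e i : K) V → x ∉ V)
    (J : Set I) (hJn : J.Nonempty) (hJu : J ≠ Set.univ)
    (hJ : ∀ (σ : I → I) (N : I → ℕ), (∀ i j, M (σ i) (σ j) = M i j) → (∀ i, N (σ i) = N i) →
      (∀ i, ∀ V : Subgroup K, Node P U (e i : K) V → N i ≤ V.relIndex U) →
      (∀ r, (∀ i, N i ≤ r) → ∀ i j, (∀ k, k = i ∨ k = j) → ∀ k, p ^ k ∣ Nat.card K → p ^ k ≤ r ^ M i j) →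
        ∀ i ∈ J, σ i ∈ J)
    {𝓐 : Finset (Subgroup H)} (h : NMC 𝓐) : False := by
  obtain ⟨hN, cs, hcs⟩ := hT
  have hI : Finite I := OfBN.finite_I e
  have hth := thick P e cs hcs
  obtain ⟨A⟩ := exists_hact (OfBN.sys e cs hcs hP) hth (fun τ => UGT.U2.FOne.exists_mv hP e cs hcs τ)
  have hUc : (OfBN.sys e cs hcs hP).U (QuotientGroup.mk 1) = U := by
    ext y
    change y ∈ OfBN.UU P U (QuotientGroup.mk 1) ↔ _
    rw [OfBN.mem_UU hP]
    have h1 : (1 : K)⁻¹ * y * 1 = y := by group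
    rw [h1]
  obtain ⟨Δ, hΔ, S, A, hth, hUc⟩ : ∃ (Δ : Bldg cs (K ⧸ P.B)) (_ : Δ = bldg P e cs hcs) (S : Sys Δ K p)
      (_ : HAct Δ K), Δ.Thick ∧ S.U (QuotientGroup.mk 1) = U := ⟨_, rfl, _, A, hth, hUc⟩
  set c : K ⧸ P.B := QuotientGroup.mk 1 with hc
  have hcne : Nonempty (K ⧸ P.B) := ⟨c⟩
  -- the chambers adjacent to `c`
  have hadj : ∀ i y, Δ.δ c y = cs.simple i → ∃ u ∈ U, y = QuotientGroup.mk (u * (e i : K)) := by
    intro i y hy
    induction y using QuotientGroup.induction_on with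
    | _ a =>
    have h1 : wt P a = cs.simple i := by
      rw [hc, hΔ, bldg_δ_mk, inv_one, one_mul] at hy
      exact hy
    rw [hcs] at h1
    obtain ⟨b, hb, b', hb', h2⟩ := mem_C.1 (mem_C_of_wt _ h1)
    obtain ⟨u, hu, t, ht, rfl⟩ := hP.cover' hb
    refine ⟨u, hu, ?_⟩
    have h2' : a = u * t * (e i : K) * b' := h2
    have h3 := P.conj_mem (e i : K)⁻¹ (inv_mem (P.subset (e i).2)) _ ht
    rw [inv_inv] at h3
    have h4 : a = u * (e i : K) * ((e i : K)⁻¹ * t * (e i : K) * b') := by rw [h2']; group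
    rw [h4]
    exact QuotientGroup.mk_mul_of_mem _ (mul_mem h3 hb')
  have hfix : ∀ i, ∀ u ∈ U, ∀ v ∈ U, v • (QuotientGroup.mk (u * (e i : K)) : K ⧸ P.B) =
      QuotientGroup.mk (u * (e i : K)) → ∀ V : Subgroup K, Node P U (e i : K) V → v ∈ V := by
    intro i u hu v hv hfix V hV
    rw [OfBN.smul_mk_eq] at hfix
    have h1 : (e i : K)⁻¹ * (u⁻¹ * v * u) * (e i : K) ∈ P.B := by
      have : (e i : K)⁻¹ * (u⁻¹ * v * u) * (e i : K) = (u * (e i : K))⁻¹ * v * (u * (e i : K)) := by group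
      rwa [this]
    have h2 := hV.stab _ (mul_mem (mul_mem (inv_mem hu) hv) hu) h1
    have h3 := hV.conj_B u (hP.le hu) _ h2
    have : u * (u⁻¹ * v * u) * u⁻¹ = v := by group
    rwa [this] at h3
  have hreg' : ∀ i y, Δ.δ c y = cs.simple i → x • y ≠ y := by
    intro i y hy hxy
    obtain ⟨u, hu, rfl⟩ := hadj i y hy
    obtain ⟨V, hV⟩ := hP.node (e i) (e i).2
    exact hreg i V hV (hfix i u hu x hx hxy V hV)
  have hx' : x ∈ S.U c := by rw [hUc]; exact hx
  -- the numbers of adjacent chambers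
  have hNc : ∀ i d, Nat.card {y // Δ.δ d y = cs.simple i} = Nat.card {y // Δ.δ c y = cs.simple i} := by
    intro i d
    obtain ⟨g, hg⟩ := exists_smul_top S hth d c
    have hiso : ∀ a b, Δ.δ (g • a) (g • b) = Δ.δ a b := fun a b => S.iso g a b
    refine Nat.card_congr (Equiv.subtypeEquiv (MulAction.toPerm g) fun y => ?_)
    rw [MulAction.toPerm_apply, ← hg, hiso]
  refine not_nmc A S hth hx' hreg' (J := J) (fun g i hi => ?_) hJn hJu h
  refine hJ (A.σ g) (fun i => Nat.card {y // Δ.δ c y = cs.simple i}) ?_ ?_ ?_ ?_ i hi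
  · intro i j
    rw [← Generic.orderOf_eq cs, ← Generic.orderOf_eq cs, ← A.φ_simple, ← A.φ_simple, ← map_mul]
    exact MulEquiv.orderOf_eq _ _
  · intro i
    rw [← hNc (A.σ g i) (A.θ g c)]
    refine Nat.card_congr (Equiv.subtypeEquiv (Equiv.mk (A.θ g⁻¹) (A.θ g) (A.θ_θ_inv g) (A.θ_inv_θ g)) fun y => ?_)
    change _ ↔ Δ.δ c (A.θ g⁻¹ y) = _
    have h1 := A.δ_θ g c (A.θ g⁻¹ y)
    rw [A.θ_θ_inv] at h1
    rw [h1, ← A.φ_simple]
    exact (A.φ g).injective.eq_iff
  · intro i V hV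
    have h1 : ∀ y : {y // Δ.δ c y = cs.simple i}, ∃ u ∈ U, (y : K ⧸ P.B) = QuotientGroup.mk (u * (e i : K)) :=
      fun y => hadj i y y.2
    choose f hf1 hf2 using h1
    have h2 : Nat.card {y // Δ.δ c y = cs.simple i} ≤ Nat.card (↥U ⧸ V.subgroupOf U) := by
      refine Nat.card_le_card_of_injective (fun y => (QuotientGroup.mk (⟨f y, hf1 y⟩ : ↥U) : ↥U ⧸ V.subgroupOf U)) ?_
      intro y z hyz
      rw [QuotientGroup.eq, mem_subgroupOf] at hyz
      have h3 : (f y)⁻¹ * f z ∈ V := hyz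
      have h4 := hP.le (hV.le (hV.conj_s _ h3))
      apply Subtype.ext
      rw [hf2 y, hf2 z, OfBN.mk_eq]
      have : (f y * (e i : K))⁻¹ * (f z * (e i : K)) = (e i : K)⁻¹ * ((f y)⁻¹ * f z) * (e i : K) := by group
      rwa [this]
    exact h2
  · intro r hr a b hab k hk
    have h1 := (pow_le_card_U S hth c hk).trans (card_U_le S (r := r) (fun i d => by rw [hNc]; exact hr i) c)
    have h2 : M a b ≠ 0 := by
      rw [← Generic.orderOf_eq cs]
      exact (orderOf_pos _).ne'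
    have h3 := length_le_two (cs := cs) hab h2 (w0 cs)
    refine h1.trans (Nat.pow_le_pow_right ?_ h3)
    obtain ⟨y, -, -, hy, -⟩ := hth c a
    have h4 : 0 < Nat.card {y // Δ.δ c y = cs.simple a} := Nat.card_pos_iff.2 ⟨⟨⟨y, hy⟩⟩, inferInstance⟩
    exact h4.trans_le (hr a)

end Cfsg.Agent.H480.Fr
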