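import Cfsg.Agent.H480.Kill

/-!
# The kill criterion from a homomorphism of the centralizer of an involution (helper480, S3925, S3926)

* `Kill.of_hom` : `C(z) / ⟨z⟩ ≅ X` where `X` has no nontrivial nilpotent normal subgroups and elements of odd prime
  order `q` which commute with no involution;
* `Kill.of_elem` : the same with an explicit element `d` of odd order and a kernel in which `d` commutes only with
  the involution `z`.
-/

set_option autoImplicit false

namespace Cfsg.Agent.H480

open Subgroup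

variable {S : Type*} [Group S]



theorem Kill.of_elem {z d : S} (hz : orderOf z = 2) (hd : Odd (orderOf d)) (hzd : z * d = d * z)
    {X : Type*} [Group X] (φ : ↥(centralizer ({z} : Set S)) →* X)
    (hker : ∀ x : ↥(centralizer ({z} : Set S)), φ x = 1 → (x : S) * x = 1 → (x : S) * d = d * x →
      (x : S) = 1 ∨ (x : S) = z)
    (hC : ∀ b : X, b ∈ φ.range → b * b = 1 →
      b * φ ⟨d, mem_centralizer_singleton_iff.2 hzd.symm⟩ = φ ⟨d, mem_centralizer_singleton_iff.2 hzd.symm⟩ * b →
      b = 1)
    (hnil : ¬ Group.IsNilpotent ↥(closure (cjs (centralizer ({z} : Set S)) d))) : Kill S := by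
  refine Kill.of_inv hz hd hzd ?_ hnil
  intro x hx hxz hxd
  have hxC : x ∈ centralizer ({z} : Set S) := mem_centralizer_singleton_iff.2 hxz
  refine hker ⟨x, hxC⟩ (hC _ ⟨_, rfl⟩ ?_ ?_) hx hxd
  · rw [← map_mul, ← map_one φ]
    exact congrArg φ (Subtype.ext hx)
  · rw [← map_mul, ← map_mul]
    exact congrArg φ (Subtype.ext hxd)

/-- `C(z) / ⟨z⟩ ≅ X` where `X` has no nontrivial nilpotent normal subgroups and elements of odd prime order `q`
which commute with no involution. -/
theorem Kill.of_hom {z : S} (hz : orderOf z = 2) {X : Type*} [Group X] [Finite X]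
    (φ : ↥(centralizer ({z} : Set S)) →* X) (hφ : Function.Surjective φ)
    (hker : ∀ x : ↥(centralizer ({z} : Set S)), φ x = 1 → (x : S) = 1 ∨ (x : S) = z)
    {q : ℕ} (hq : q.Prime) (hq2 : q ≠ 2) (hqX : q ∣ Nat.card X)
    (hC : ∀ a b : X, orderOf a = q → orderOf b = 2 → a * b ≠ b * a)
    (hN : ∀ N : Subgroup X, N.Normal → N ≠ ⊥ → ¬ Group.IsNilpotent ↥N) : Kill S := by
  have hfq : Fact q.Prime := ⟨hq⟩
  obtain ⟨a, ha⟩ := exists_prime_orderOf_dvd_card' (G := X) q hqX
  obtain ⟨⟨c, hc⟩, rfl⟩ := hφ a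
  have hcz : c * z = z * c := mem_centralizer_singleton_iff.1 hc
  have hodd : Odd q := hq.odd_of_ne_two hq2
  -- `d = c ^ 2` has order `q`
  have hcq : c ^ q = 1 ∨ c ^ q = z := by
    have h1 : φ (⟨c, hc⟩ ^ q) = 1 := by rw [map_pow, ← ha, pow_orderOf_eq_one]
    simpa using hker _ h1
  have hzz : z * z = 1 := by rw [← pow_two, ← hz, pow_orderOf_eq_one]
  have hd : (c ^ 2) ^ q = 1 := by
    rw [← pow_mul, mul_comm, pow_mul]
    rcases hcq with h1 | h1
    · rw [h1, one_pow]
    · rw [h1, pow_two, hzz]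
  have hzd : z * c ^ 2 = c ^ 2 * z := ((show Commute z c from hcz.symm).pow_right 2).eq
  have hdodd : Odd (orderOf (c ^ 2)) := by
    rcases (Nat.dvd_prime hq).1 (orderOf_dvd_of_pow_eq_one hd) with h1 | h1
    · rw [h1]
      exact odd_one
    · rw [h1]
      exact hodd
  have hφd : φ ⟨c ^ 2, mem_centralizer_singleton_iff.2 hzd.symm⟩ = φ ⟨c, hc⟩ ^ 2 := by
    rw [← map_pow]
    rfl
  have hord : orderOf (φ ⟨c, hc⟩ ^ 2) = q := by
    have h1 := Nat.Coprime.orderOf_pow (y := φ ⟨c, hc⟩) (m := 2) (by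
      rw [ha]
      exact (Nat.coprime_primes hq Nat.prime_two).2 hq2)
    rw [h1, ha]
  refine Kill.of_elem hz hdodd hzd φ (fun x hx _ _ => hker x hx) ?_ ?_
  · intro b _ hb2 hbd
    rw [hφd] at hbd
    by_contra hb1
    have h1 : orderOf b = 2 := orderOf_eq_prime (by rw [pow_two]; exact hb2) hb1
    exact hC _ _ hord h1 hbd.symm
  · intro hn
    -- the image of the group generated by the conjugates
    set D : Subgroup S := closure (cjs (centralizer ({z} : Set S)) (c ^ 2)) with hD
    have hDC : D ≤ centralizer ({z} : Set S) := by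
      rw [hD, closure_le]
      rintro _ ⟨m, hm, rfl⟩
      exact mul_mem (mul_mem hm (mem_centralizer_singleton_iff.2 hzd.symm)) (inv_mem hm)
    have hN1 := hN ((D.subgroupOf (centralizer ({z} : Set S))).map φ) ?_ ?_
    · refine hN1 ?_
      have h1 : Group.IsNilpotent ↥(D.subgroupOf (centralizer ({z} : Set S))) :=
        Group.nilpotent_of_mulEquiv (_h := hn) (subgroupOfEquivOfLe hDC).symm
      exact Group.nilpotent_of_surjective (h := h1)
        (φ.subgroupMap (D.subgroupOf (centralizer ({z} : Set S))))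
        (φ.subgroupMap_surjective (D.subgroupOf (centralizer ({z} : Set S))))
    · refine ⟨?_⟩
      rintro _ ⟨x, hx, rfl⟩ g
      obtain ⟨y, rfl⟩ := hφ g
      refine ⟨y * x * y⁻¹, ?_, by simp⟩
      have h2 : ∀ x ∈ D, ∀ y ∈ centralizer ({z} : Set S), y * x * y⁻¹ ∈ D := by
        intro x hx y hy
        have h3 : D ≤ D.comap (MulAut.conj y).toMonoidHom := by
          conv_lhs => rw [hD]
          rw [closure_le]
          rintro _ ⟨m, hm, rfl⟩
          refine subset_closure ⟨y * m, mul_mem hy hm, ?_⟩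
          simp [mul_assoc]
        have h4 := h3 hx
        simpa using h4
      exact h2 x hx y y.2
    · intro hb
      have h2 : φ ⟨c ^ 2, mem_centralizer_singleton_iff.2 hzd.symm⟩ ∈
          (D.subgroupOf (centralizer ({z} : Set S))).map φ :=
        ⟨⟨c ^ 2, mem_centralizer_singleton_iff.2 hzd.symm⟩, subset_closure (mem_cjs_self _ _), rfl⟩
      rw [hb, mem_bot, hφd] at h2
      rw [h2, orderOf_one] at hord
      exact hq.one_lt.ne hord

end Cfsg.Agent.H480
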