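import Cfsg.Agent.H480.KillSq
import Cfsg.Agent.Co2Type.Quad
import Cfsg.Agent.H823.Converse
import Cfsg.Agent.S0095

/-!
# Nilpotent minimal covers: involution centralizers with an extraspecial normal subgroup (helper480, S3925, S3926)
-/

set_option autoImplicit false

namespace Cfsg.Agent.H480

open Subgroup Cfsg.Agent.Co2Type.Quad

variable {S : Type*} [Group S]

theorem card_cent_large [Finite S] {Q : Subgroup S} {z : S} (hL : Large Q z) {x : S} (hx : x ∈ Q) (hx1 : x ≠ 1)
    (hxz : x ≠ z) : Nat.card Q = Nat.card ↥(Q ⊓ centralizer ({x} : Set S)) * 2 := by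
  obtain ⟨a, ha, hxa⟩ : ∃ a ∈ Q, x * a ≠ a * x := by
    by_contra hcon
    push Not at hcon
    rcases hL.cent x hx hcon with h | h
    · exact hx1 h
    · exact hxz h
  have hxa' : x * a = a * x * z := (hL.comm x hx a ha).resolve_left hxa
  have hidx : ((Q ⊓ centralizer ({x} : Set S)).subgroupOf Q).index = 2 := by
    rw [Subgroup.index_eq_two_iff]
    refine ⟨⟨a, ha⟩, ?_⟩
    rintro ⟨b, hb⟩
    have e1 : ((⟨b, hb⟩ : ↥Q) * ⟨a, ha⟩ ∈ (Q ⊓ centralizer ({x} : Set S)).subgroupOf Q) ↔ (b * a) * x = x * (b * a) := by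
      rw [mem_subgroupOf, mem_inf, mem_centralizer_singleton_iff]
      exact ⟨fun h => h.2, fun h => ⟨mul_mem hb ha, h⟩⟩
    have e2 : ((⟨b, hb⟩ : ↥Q) ∈ (Q ⊓ centralizer ({x} : Set S)).subgroupOf Q) ↔ b * x = x * b := by
      rw [mem_subgroupOf, mem_inf, mem_centralizer_singleton_iff]
      exact ⟨fun h => h.2, fun h => ⟨hb, h⟩⟩
    rw [e1, e2]
    rcases hL.comm x hx b hb with h | h
    · refine Or.inr ⟨h.symm, ?_⟩
      intro h2
      apply hxa
      have h3 : b * (a * x) = b * (x * a) := by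
        calc b * (a * x) = (b * a) * x := by group
          _ = x * (b * a) := h2
          _ = (x * b) * a := by group
          _ = b * (x * a) := by rw [h]; group
      exact (mul_left_cancel h3).symm
    · refine Or.inl ⟨?_, ?_⟩
      · calc (b * a) * x = b * (a * x * z) * z := by
              rw [mul_assoc (b : S) (a * x * z) z, mul_assoc (a * x) z z, hL.z_sq]; group
          _ = b * (x * a) * z := by rw [hxa']
          _ = b * x * (a * z) := by group
          _ = b * x * (z * a) := by rw [hL.comm_z a ha]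
          _ = (b * x * z) * a := by group
          _ = x * (b * a) := by rw [← h]; group
      · intro h2
        rw [← h2] at h
        have h3 : z = 1 := by
          have : b * x * z = b * x * 1 := by rw [← h, mul_one]
          exact mul_left_cancel this
        exact hL.z_ne h3
  have h1 := Subgroup.card_mul_index ((Q ⊓ centralizer ({x} : Set S)).subgroupOf Q)
  rw [hidx, Nat.card_congr (Subgroup.subgroupOfEquivOfLe inf_le_left).toEquiv] at h1
  exact h1.symm

theorem odd_of_large [Finite S] {Q : Subgroup S} {z : S} (hL : Large Q z) {n p : ℕ} (hp : p.Prime) (hp2 : p ≠ 2)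
    (hQ : Nat.card Q = 2 ^ n) {d : S} (hd : orderOf d = p) (hdz : d * z = z * d) {i : ℕ}
    (hi : Nat.card ↥(Q ⊓ centralizer ({d} : Set S)) = 2 ^ i) : Odd i := by
  have hfp : Fact p.Prime := ⟨hp⟩
  set K := Q ⊓ centralizer ({d} : Set S) with hK
  have hcp : ∀ k : ℕ, ¬ p ∣ 2 ^ k := by
    intro k h
    have := hp.dvd_of_dvd_pow h
    exact hp2 ((Nat.prime_dvd_prime_iff_eq hp Nat.prime_two).1 this)
  have hcen : ∀ x ∈ K, (∀ y ∈ K, x * y = y * x) → x = 1 ∨ x = z := by
    intro x hx hc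
    by_contra hcon
    rw [not_or] at hcon
    have h1 := card_cent_large hL hx.1 hcon.1 hcon.2
    have hxd : x * d = d * x := mem_centralizer_singleton_iff.1 hx.2
    have h2 := BpSpor.Cen.card_fix (N := Q) hd (hL.conj_mem d hdz)
    have h3 := BpSpor.Cen.card_fix (N := Q ⊓ centralizer ({x} : Set S)) hd (by
      rintro y ⟨hy1, hy2'⟩
      have hy2 : y * x = x * y := mem_centralizer_singleton_iff.1 hy2'
      refine ⟨hL.conj_mem d hdz y hy1, mem_centralizer_singleton_iff.2 ?_⟩
      calc d * y * d⁻¹ * x = d * y * (d⁻¹ * x * d) * d⁻¹ := by group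
        _ = d * y * x * d⁻¹ := by
          have : d⁻¹ * x * d = x := by rw [mul_assoc, hxd]; group
          rw [this]
        _ = d * (x * y) * d⁻¹ := by rw [← hy2]; group
        _ = (d * x) * y * d⁻¹ := by group
        _ = x * (d * y * d⁻¹) := by rw [← hxd]; group)
    have h4 : (Q ⊓ centralizer ({x} : Set S)) ⊓ centralizer ({d} : Set S) = K := by
      apply le_antisymm
      · rintro y ⟨⟨h5, -⟩, h6⟩
        exact ⟨h5, h6⟩
      · rintro y hy
        exact ⟨⟨hy.1, mem_centralizer_singleton_iff.2 (hc y hy).symm⟩, hy.2⟩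
    rw [h4] at h3
    have h5 := h2.trans h3.symm
    set m := Nat.card ↥(Q ⊓ centralizer ({x} : Set S)) with hm
    rw [h1] at h5
    have h6 : p ∣ m := by
      have h7 := (Nat.modEq_iff_dvd' (by omega : m ≤ m * 2)).1 h5.symm
      have h8 : m * 2 - m = m := by omega
      rwa [h8] at h7
    have h7 : m ∣ 2 ^ n := by
      rw [← hQ, h1]
      exact Dvd.intro _ rfl
    exact hcp n (h6.trans h7)
  have hzK : z ∈ K := ⟨hL.z_mem, mem_centralizer_singleton_iff.2 hdz.symm⟩
  have hLK : Large (⊤ : Subgroup ↥K) ⟨z, hzK⟩ := by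
    refine ⟨mem_top _, ?_, ?_, ?_, ?_, ?_, ?_, ?_, ?_⟩
    · intro h
      exact hL.z_ne (congrArg Subtype.val h)
    · exact Subtype.ext hL.z_sq
    · intro x _
      exact Subtype.ext (hL.comm_z x x.2.1)
    · intro g _ x _
      exact mem_top _
    · intro x _
      exact (hL.sq x x.2.1).imp (fun h => Subtype.ext h) (fun h => Subtype.ext h)
    · intro x _ y _
      exact (hL.comm x x.2.1 y y.2.1).imp (fun h => Subtype.ext h) (fun h => Subtype.ext h)
    · intro x _ h
      exact (hcen x x.2 (fun y hy => congrArg Subtype.val (h ⟨y, hy⟩ (mem_top _)))).imp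
        (fun h => Subtype.ext h) (fun h => Subtype.ext h)
    · intro g _ _
      exact mem_top _
  have hcardK : Nat.card ↥(⊤ : Subgroup ↥K) = 2 ^ i := by
    rw [Nat.card_congr (Subgroup.topEquiv (G := ↥K)).toEquiv, hi]
  by_cases h2 : Nat.card ↥(⊤ : Subgroup ↥K) = 2
  · have h3 : i = 1 := by
      rw [hcardK] at h2
      exact Nat.pow_right_injective le_rfl (by simpa using h2)
    rw [h3]
    exact odd_one
  · have h3 := Cfsg.Agent.H823.isExtraspecial_of hLK h2
    have : Fact (Nat.Prime 2) := ⟨Nat.prime_two⟩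
    obtain ⟨m, -, hm⟩ := Cfsg.Agent.S0095.result h3
    rw [hcardK] at hm
    have h4 := Nat.pow_right_injective le_rfl hm
    exact ⟨m, h4⟩

/-- **An involution centralizer with an extraspecial normal subgroup.** -/
theorem Kill.of_large {L : Type*} [Group L] [Finite S] {Q : Subgroup S} {z : S} (hL : Large Q z)
    (π : ↥(centralizer ({z} : Set S)) →* L) (hker : ∀ c, π c = 1 ↔ (c : S) ∈ Q) {n p : ℕ} (hp : p.Prime)
    (hp2 : p ≠ 2) (hQ : Nat.card Q = 2 ^ n) {σ : L} (hσ : σ ∈ π.range) (hσp : orderOf σ = p)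
    (hC : ∀ y : L, y ^ 2 = 1 → y * σ = σ * y → y = 1)
    (hnum : ∀ i < n, Odd i → 2 ^ n ≡ 2 ^ i [MOD p] → i ≤ 1) : Kill S := by
  have hfp : Fact p.Prime := ⟨hp⟩
  have hz : orderOf z = 2 := by
    have : Fact (Nat.Prime 2) := ⟨Nat.prime_two⟩
    exact orderOf_eq_prime (by rw [pow_two]; exact hL.z_sq) hL.z_ne
  obtain ⟨d0, hd0⟩ := hσ
  have hQC : Q ≤ centralizer ({z} : Set S) := fun x hx => mem_centralizer_singleton_iff.2 (hL.comm_z x hx)
  have hQp : IsPGroup 2 Q := IsPGroup.of_card hQ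
  -- an element of order `p` above `σ`
  have hcop : p.Coprime (2 ^ n) := (Nat.Coprime.pow_right n ((Nat.coprime_primes hp Nat.prime_two).2 hp2))
  obtain ⟨k, hk1, hk2⟩ := Nat.chineseRemainder hcop 1 0
  have hkσ : π (d0 ^ k) = σ := by
    rw [map_pow, hd0]
    conv_rhs => rw [← pow_one σ]
    refine pow_eq_pow_iff_modEq.2 ?_
    rw [hσp]
    exact hk1
  obtain ⟨d, hd⟩ : ∃ d : ↥(centralizer ({z} : Set S)), d = d0 ^ k := ⟨_, rfl⟩
  rw [← hd] at hkσ
  have hdp : d ^ p = 1 := by
    have h1 : ((d0 ^ p : ↥(centralizer ({z} : Set S))) : S) ∈ Q := by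
      rw [← hker, map_pow, hd0, ← hσp, pow_orderOf_eq_one]
    have h2 : (d0 ^ p) ^ 2 ^ n = 1 := by
      have h3 := pow_card_eq_one' (G := ↥Q) (x := ⟨((d0 ^ p : ↥(centralizer ({z} : Set S))) : S), h1⟩)
      rw [hQ] at h3
      apply Subtype.ext
      simpa using congrArg Subtype.val h3
    obtain ⟨m, hm⟩ := (Nat.modEq_zero_iff_dvd).1 hk2
    rw [hd, ← pow_mul, hm]
    have h4 : 2 ^ n * m * p = p * 2 ^ n * m := by ring
    rw [h4, pow_mul, pow_mul, h2, one_pow]
  have hdo : orderOf d = p := by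
    have h1 : orderOf d ∣ p := orderOf_dvd_of_pow_eq_one hdp
    rcases (Nat.dvd_prime hp).1 h1 with h2 | h2
    · exfalso
      rw [orderOf_eq_one_iff] at h2
      rw [h2, map_one] at hkσ
      rw [← hkσ, orderOf_one] at hσp
      exact hp.one_lt.ne hσp
    · exact h2
  have hdS : orderOf (d : S) = p := by rw [orderOf_coe, hdo]
  have hdz : (d : S) * z = z * d := mem_centralizer_singleton_iff.1 d.2
  have hdN := hL.conj_mem d hdz
  have hodd : Odd (orderOf (d : S)) := by
    rw [hdS]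
    exact hp.odd_of_ne_two hp2
  have hnc : ¬ ∀ y ∈ Q, (d : S) * y = y * d := by
    intro hall
    have h1 : π d = 1 := (hker d).2 (hL.self d hdz hall)
    rw [hkσ] at h1
    rw [h1, orderOf_one] at hσp
    exact hp.one_lt.ne hσp
  obtain ⟨i, hi, hi2, hi3⟩ := BpSpor.Cen.exists_fix hQ hdS hdN hnc
  have hi1 : i ≤ 1 := hnum i hi (odd_of_large hL hp hp2 hQ hdS hdz hi2) hi3
  have hker2 : ∀ x : S, (hx : x ∈ centralizer ({z} : Set S)) → x ^ 2 = 1 → x * d = d * x → x ∈ Q := by
    intro x hx hx2 hxd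
    refine (hker ⟨x, hx⟩).1 ?_
    apply hC
    · rw [← map_pow]
      have h1 : (⟨x, hx⟩ : ↥(centralizer ({z} : Set S))) ^ 2 = 1 := Subtype.ext (by simpa using hx2)
      rw [h1, map_one]
    · rw [← hkσ, ← map_mul, ← map_mul]
      exact congrArg π (Subtype.ext hxd)
  have hzN : z ∈ Q ⊓ centralizer ({(d : S)} : Set S) :=
    ⟨hL.z_mem, mem_centralizer_singleton_iff.2 hdz.symm⟩
  refine ⟨2, z, d, Nat.prime_two, hz, ?_, hdz.symm, ?_, ?_⟩
  · exact hodd.coprime_two_right
  · intro x hx hxz hxd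
    have hx2 : x ^ 2 = 1 := by rw [← hx, pow_orderOf_eq_one]
    have h1 : x ∈ Q ⊓ centralizer ({(d : S)} : Set S) :=
      ⟨hker2 x (mem_centralizer_singleton_iff.2 hxz) hx2 hxd, mem_centralizer_singleton_iff.2 hxd⟩
    have h2 : zpowers z = Q ⊓ centralizer ({(d : S)} : Set S) := by
      refine eq_of_le_of_card_ge (zpowers_le.2 hzN) ?_
      rw [hi2, Nat.card_zpowers, hz]
      exact (Nat.pow_le_pow_right (by norm_num) hi1).trans (by norm_num)
    rw [h2]
    exact h1
  · intro hnl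
    exact hnc fun y hy => (comm_of_nilpotent_cjs hQC hQp hdN hodd hnl hy).symm

end Cfsg.Agent.H480
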