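import Cfsg.Agent.H480.Row
import Cfsg.Agent.H480.FrameRgd

/-!
# Nilpotent minimal covers: groups of Lie type of rank at least three (helper480, S3925, S3926)
-/

set_option autoImplicit false
set_option linter.unusedSectionVars false

namespace Cfsg.Agent.H480.Fr

open Cfsg
open CoxeterSystem Cfsg.Agent.ChevalleyStructure.CoxeterGeom Cfsg.Agent.Tits.Roots Cfsg.Agent.Tits.Core
  Cfsg.Agent.Nodes.Comb Cfsg.Agent.Nodes.Reps Cfsg.Agent.Nodes.BNOf Cfsg.Agent.FixBN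
  Cfsg.Agent.Nodes.RGDLib Cfsg.Agent.Nodes.RGDChev Cfsg.Agent.LieRecognition.BNCox
  Cfsg.Agent.TitsThree Cfsg.Agent.Omega.ML.Ex.Typ

universe u v

/-- the form used below -/
def High (p : ℕ) (S : Type v) [Group S] : Prop :=
  ∃ (l : ℕ) (M : CoxeterMatrix (Fin l)) (i j : Fin l), Leaf M i ∧ ¬ Leaf M j ∧ HasRGDT p M S

theorem High.of_equiv {p : ℕ} {G H : Type*} [Group G] [Group H] (e : G ≃* H) (h : High p G) : High p H := by
  obtain ⟨l, M, i, j, hi, hj, hR⟩ := h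
  exact ⟨l, M, i, j, hi, hj, hR.of_equiv e⟩

theorem High.row {p : ℕ} [Fact p.Prime] {S : Type v} [Group S] (h : High p S) : Row.{u} S := by
  obtain ⟨l, M, i, j, hi, hj, hR⟩ := h
  intro G _ _ K hK hs hna hc hcyc f 𝓐 hA
  exact not_nmc_of_hasRGDT hK (hR.of_equiv f) hi hj hA

theorem not_leaf {I : Type*} {M : CoxeterMatrix I} {i a b : I} (hab : a ≠ b) (ha : a ≠ i) (hb : b ≠ i)
    (h1 : M i a ≠ 2) (h2 : M i b ≠ 2) : ¬ Leaf M i := by
  rintro ⟨j, hj⟩
  exact hab ((hj a ha h1).trans (hj b hb h2).symm)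

/-! ### the diagrams -/

theorem leaf_A {n : ℕ} (hn : 3 ≤ n) : Leaf (cA n) ⟨0, by omega⟩ ∧ ¬ Leaf (cA n) ⟨1, by omega⟩ := by
  constructor
  · refine ⟨⟨1, by omega⟩, fun k hk hM => ?_⟩
    rw [cA_apply] at hM
    unfold LieRecognition.CoxClass.mA at hM
    simp only [Fin.ext_iff, ne_eq] at hk ⊢
    simp only at hM
    by_contra h1
    apply hM
    rw [if_neg (by omega), if_neg (by omega)]
  · refine not_leaf (a := ⟨0, by omega⟩) (b := ⟨2, by omega⟩) ?_ ?_ ?_ ?_ ?_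
    · simp [Fin.ext_iff]
    · simp [Fin.ext_iff]
    · simp [Fin.ext_iff]
    · rw [cA_apply]; simp [LieRecognition.CoxClass.mA]
    · rw [cA_apply]; simp [LieRecognition.CoxClass.mA]

theorem B_apply {n : ℕ} {i j : Fin n} (hij : i ≠ j) : CoxeterMatrix.B n i j =
    if (i : ℕ) = n - 1 ∧ (j : ℕ) = n - 2 ∨ (j : ℕ) = n - 1 ∧ (i : ℕ) = n - 2
      then 4 else (if (j : ℕ) + 1 = i ∨ (i : ℕ) + 1 = j then 3 else 2) := by
  show (if i = j then 1 else _) = _
  rw [if_neg hij]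

theorem leaf_B {n : ℕ} (hn : 3 ≤ n) :
    Leaf (CoxeterMatrix.B n) ⟨0, by omega⟩ ∧ ¬ Leaf (CoxeterMatrix.B n) ⟨1, by omega⟩ := by
  constructor
  · refine ⟨⟨1, by omega⟩, fun k hk hM => ?_⟩
    rw [B_apply (Ne.symm hk)] at hM
    simp only [Fin.ext_iff, ne_eq] at hk ⊢
    simp only at hM
    by_contra h1
    apply hM
    rw [if_neg (by omega), if_neg (by omega)]
  · refine not_leaf (a := ⟨0, by omega⟩) (b := ⟨2, by omega⟩) ?_ ?_ ?_ ?_ ?_
    · simp [Fin.ext_iff]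
    · simp [Fin.ext_iff]
    · simp [Fin.ext_iff]
    · rw [B_apply (by simp [Fin.ext_iff])]
      simp only
      rw [if_neg (by omega), if_pos (Or.inl trivial)]
      decide
    · rw [B_apply (by simp [Fin.ext_iff])]
      simp only
      by_cases h : n = 3
      · rw [if_pos (by omega)]; decide
      · rw [if_neg (by omega), if_pos (Or.inr trivial)]; decide

theorem leaf_D (n : ℕ) : Leaf (Nodes.TypeD.M (n + 2)) ⟨0, by omega⟩ ∧ ¬ Leaf (Nodes.TypeD.M (n + 2)) ⟨1, by omega⟩ := by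
  constructor
  · refine ⟨⟨1, by omega⟩, fun k hk hM => ?_⟩
    by_contra h1
    apply hM
    have hk' : (k : ℕ) ≠ 0 := fun h => hk (Fin.ext h)
    have h1' : (k : ℕ) ≠ 1 := fun h => h1 (Fin.ext h)
    rw [Nodes.TypeD.M_apply, if_neg (fun h => hk h.symm), if_neg (by simp only [Nodes.TypeD.Adj]; omega)]
  · refine not_leaf (a := ⟨0, by omega⟩) (b := ⟨2, by omega⟩) ?_ ?_ ?_ ?_ ?_
    · simp [Fin.ext_iff]
    · simp [Fin.ext_iff]
    · simp [Fin.ext_iff]
    · rw [Nodes.TypeD.M_apply, if_neg (by simp), if_pos (by unfold Nodes.TypeD.Adj; simp)]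
      decide
    · rw [Nodes.TypeD.M_apply, if_neg (by simp), if_pos (by unfold Nodes.TypeD.Adj; simp)]
      decide

set_option backward.isDefEq.respectTransparency false in
theorem leaf_F : Leaf CoxeterMatrix.F₄ 0 ∧ ¬ Leaf CoxeterMatrix.F₄ 1 :=
  ⟨⟨1, by decide +kernel⟩, not_leaf (a := 0) (b := 2) (by decide) (by decide) (by decide) (by decide +kernel)
    (by decide +kernel)⟩

set_option backward.isDefEq.respectTransparency false in
theorem leaf_E6 : Leaf CoxeterMatrix.E₆ 0 ∧ ¬ Leaf CoxeterMatrix.E₆ 2 :=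
  ⟨⟨2, by decide +kernel⟩, not_leaf (a := 0) (b := 3) (by decide) (by decide) (by decide) (by decide +kernel)
    (by decide +kernel)⟩

set_option backward.isDefEq.respectTransparency false in
theorem leaf_E7 : Leaf CoxeterMatrix.E₇ 0 ∧ ¬ Leaf CoxeterMatrix.E₇ 2 :=
  ⟨⟨2, by decide +kernel⟩, not_leaf (a := 0) (b := 3) (by decide) (by decide) (by decide) (by decide +kernel)
    (by decide +kernel)⟩

set_option backward.isDefEq.respectTransparency false in
theorem leaf_E8 : Leaf CoxeterMatrix.E₈ 0 ∧ ¬ Leaf CoxeterMatrix.E₈ 2 :=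
  ⟨⟨2, by decide +kernel⟩, not_leaf (a := 0) (b := 3) (by decide) (by decide) (by decide) (by decide +kernel)
    (by decide +kernel)⟩

theorem high_B {p m : ℕ} {S : Type*} [Group S] (hm : 3 ≤ m) (h : HasRGDT p (CoxeterMatrix.B m) S) : High p S :=
  ⟨m, _, _, _, (leaf_B hm).1, (leaf_B hm).2, h⟩

/-! ### orthogonal groups of odd dimension -/

section Orthogonal

open QuadraticMap
open Cfsg.Agent.LieClassical Cfsg.Agent.LieClassical.OrthCore Cfsg.Agent.LieClassical.OrthTrans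
open Cfsg.Agent.LieClassical.OrthSimple Cfsg.Agent.LieClassical.OrthFinite
open Cfsg.Agent.LieClassical.OrthForms
open Cfsg.Agent.TitsThree.KSideO Cfsg.Agent.TitsThree.StdData
open Cfsg.Agent.Nodes Cfsg.Agent.Nodes.WittAll Cfsg.Agent.Nodes.WittU Cfsg.Agent.Nodes.WittInst
  Cfsg.Agent.TitsThree.Siegel Cfsg.Agent.TitsThree.SiegelGen
  Cfsg.Agent.TitsThree.WittFrame Cfsg.Agent.TitsThree.WBridge Cfsg.Agent.TitsThree.WittWeyl
  Cfsg.Agent.TitsThree.FrameCN

theorem typ_PO_odd (F : Type*) [Field F] [Finite F] (h2 : (2 : F) ≠ 0) {m : ℕ} (hm : 2 ≤ m) {p : ℕ} [Fact p.Prime]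
    [CharP F p] : HasRGDT p (CoxeterMatrix.B m) (Cfsg.POmega F (Cfsg.quadFormOdd m F)) := by
  rw [← coe_oddForm]
  have hG : Good (oddForm m F) := by
    apply good_of_finite (nondeg_oddForm m F h2)
    rw [Module.finrank_fintype_fun_eq_card, Fintype.card_sum, Fintype.card_sum, Fintype.card_fin,
      Fintype.card_unit]
    omega
  have hp : ((embOdd m F).ngt ⟨1, -1 ^ 2, rfl⟩).c ≠ 0 := by
    change (1 : F)⁻¹ * (-1 ^ 2) ≠ 0
    simp
  exact typ_C (model (wodd m F) hG ⟨_, hp⟩) (AmbT.of_amb (amb_O_of_two _ h2) p) hp (by omega)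

end Orthogonal

/-! ### the families -/

theorem high_PSL {F : Type} [Field F] [Finite F] {p : ℕ} [Fact p.Prime] [CharP F p] {n : ℕ} (hn : 4 ≤ n) :
    High p (Matrix.ProjectiveSpecialLinearGroup (Fin n) F) := by
  obtain ⟨n, rfl⟩ : ∃ k, n = k + 1 := ⟨n - 1, by omega⟩
  exact ⟨n, _, _, _, (leaf_A (by omega)).1, (leaf_A (by omega)).2, typ_PSL n⟩

theorem high_PSp {F : Type} [Field F] [Finite F] {p : ℕ} [Fact p.Prime] [CharP F p] {m : ℕ} (hm : 3 ≤ m) :
    High p (PSp m F) := high_B hm (typ_PSp (by omega))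

theorem high_PSU {F : Type} [Field F] [Fintype F] {p : ℕ} [Fact p.Prime] [CharP F p] {n q : ℕ}
    (hF : Fintype.card F = q ^ 2) (hn : 6 ≤ n) : High p (PSU n F q) := by
  obtain ⟨m, hm, h⟩ := typ_PSU (p := p) hF (show 3 ≤ n by omega)
  exact high_B (by omega) h

theorem high_POmegaOdd {p : ℕ} {G : Type*} [Group G] (h : IsPOmegaOddChar p G) : High p G := by
  obtain ⟨F, _, _, _, m, hm, hodd, ⟨e⟩⟩ := h
  have : Fact p.Prime := Nodes.RGDClass.fact_prime (F := F)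
  have h2 : (2 : F) ≠ 0 := by
    intro h0
    have h1 : p ∣ 2 := (CharP.cast_eq_zero_iff F p 2).1 (by exact_mod_cast h0)
    have h3 := (Nat.prime_dvd_prime_iff_eq Fact.out Nat.prime_two).1 h1
    subst h3
    obtain ⟨k, -, hk⟩ := FiniteField.card F 2
    rw [hk] at hodd
    exact absurd hodd (by
      rw [Nat.not_odd_iff_even]
      exact (even_two).pow_of_ne_zero k.ne_zero)
  exact high_B hm ((typ_PO_odd F h2 (by omega)).of_equiv e.symm)

theorem high_POmegaPlus {p : ℕ} {G : Type*} [Group G] (h : IsPOmegaPlusChar p G) : High p G := by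
  obtain ⟨F, _, _, _, m, hm, ⟨e⟩⟩ := h
  have : Fact p.Prime := Nodes.RGDClass.fact_prime (F := F)
  obtain ⟨n, rfl⟩ : ∃ n, m = (n + 1) + 3 := ⟨m - 4, by omega⟩
  exact ⟨_, _, _, _, (leaf_D n).1, (leaf_D n).2, (typ_PO_plus (n + 1)).of_equiv e.symm⟩

theorem high_POmegaMinus {p : ℕ} {G : Type*} [Group G] (h : IsPOmegaMinusChar p G) : High p G := by
  obtain ⟨F, _, _, _, m, a, b, hm, hab, ⟨e⟩⟩ := h
  have : Fact p.Prime := Nodes.RGDClass.fact_prime (F := F)
  exact high_B (by omega) ((typ_PO_minus hab (by omega)).of_equiv e.symm)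

theorem high_exc {p : ℕ} {G : Type*} [Group G] (h : IsExceptionalChevChar p G) :
    HasRGDT p CoxeterMatrix.G₂ G ∨ High p G := by
  rcases typ_of_exc h with h | h | h | h | h
  · exact Or.inl h
  · exact Or.inr ⟨_, _, _, _, leaf_F.1, leaf_F.2, h⟩
  · exact Or.inr ⟨_, _, _, _, leaf_E6.1, leaf_E6.2, h⟩
  · exact Or.inr ⟨_, _, _, _, leaf_E7.1, leaf_E7.2, h⟩
  · exact Or.inr ⟨_, _, _, _, leaf_E8.1, leaf_E8.2, h⟩

theorem high_twE6 {K : Type*} [Field K] [Fintype K] {q : ℕ} (hq : IsPrimePow q) (hK : Fintype.card K = q ^ 2)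
    (p : ℕ) [CharP K p] : High p ↥(Lie.twistedE6 K q) :=
  ⟨_, _, _, _, leaf_F.1, leaf_F.2, typ_twE6 hq hK p⟩

end Cfsg.Agent.H480.Fr
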