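import Cfsg.Agent.H480.Row
import Cfsg.Agent.H480.FrameRgd
import Cfsg.Agent.H341.ThreeList

/-!
# Nilpotent minimal covers: `PSU_4(q)`, `PSU_5(q)` (helper480, S3925, S3926)
-/

set_option autoImplicit false
set_option linter.unusedSectionVars false

namespace Cfsg.Agent.H480.Fr

open Cfsg
open CoxeterSystem Cfsg.Agent.ChevalleyStructure.CoxeterGeom Cfsg.Agent.Tits.Roots Cfsg.Agent.Tits.Core
  Cfsg.Agent.Nodes.Comb Cfsg.Agent.Nodes.Reps Cfsg.Agent.Nodes.BNOf Cfsg.Agent.FixBN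
  Cfsg.Agent.Nodes.RGDLib Cfsg.Agent.Omega.ML.Ex.Typ

universe u v

/-- rank two with different root groups -/
theorem row_of_par {S : Type v} [Group S] {p : ℕ} [hp : Fact p.Prime] {M : CoxeterMatrix (Fin 2)} {i : Fin 2}
    {r k m : ℕ} (hM : M 0 1 = m) (hk : p ^ k ∣ Nat.card S) (hlt : r ^ m < p ^ k) (h : ParT p M i r S) : Row.{u} S := by
  intro G _ _ K hK hs hna hc hcyc f 𝓐 hA
  obtain ⟨A, h, T, n, X, hW, R, hG1, hr⟩ := h.of_equiv f
  refine not_nmc_of_rgd hK R hG1 {i} ⟨i, rfl⟩ ?_ ?_ hA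
  · intro h1
    have h2 : (0 : Fin 2) ∈ ({i} : Set (Fin 2)) := by rw [h1]; trivial
    have h3 : (1 : Fin 2) ∈ ({i} : Set (Fin 2)) := by rw [h1]; trivial
    have h4 : (0 : Fin 2) = 1 := (Set.mem_singleton_iff.1 h2).trans (Set.mem_singleton_iff.1 h3).symm
    exact absurd h4 (by decide)
  · intro σ N h1 h2 h3 h4 j hj
    rw [Set.mem_singleton_iff] at hj ⊢
    subst hj
    by_contra hne
    have h5 : ∀ k, N k ≤ r := by
      intro k
      have h6 : k = j ∨ k = σ j := by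
        have h7 : ∀ a b k : Fin 2, b ≠ a → k = a ∨ k = b := by decide
        exact h7 _ _ _ hne
      rcases h6 with rfl | rfl
      · exact (h3 k).trans hr
      · rw [h2]; exact (h3 j).trans hr
    have h6 := h4 r h5 0 1 (by decide) k (by rw [← Nat.card_congr f.toEquiv]; exact hk)
    have h7 : r ^ M 0 1 = r ^ m := by rw [hM]
    rw [h7] at h6
    omega

section TypeC

open Cfsg.Agent.Nodes.TypeC
open Cfsg.Agent.Nodes Cfsg.Agent.Nodes.WittAll Cfsg.Agent.Nodes.WittU Cfsg.Agent.Nodes.WittInst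
  Cfsg.Agent.Nodes.WittRoot Cfsg.Agent.Nodes.WittRGD
  Cfsg.Agent.TitsThree Cfsg.Agent.TitsThree.Siegel Cfsg.Agent.TitsThree.SiegelGen
  Cfsg.Agent.TitsThree.WittFrame Cfsg.Agent.TitsThree.WBridge Cfsg.Agent.TitsThree.WittWeyl
  Cfsg.Agent.TitsThree.FrameCN

variable {F : Type*} [Field F] {V : Type*} [AddCommGroup V] [Module F V] {H : HForm F V}

/-- the first root group is an image of the field -/
theorem card_first {n : ℕ} (hn : 1 < n) {Fr : Frame H (Fin n)} {K : Type*} [Group K] (M : Model Fr K)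
    [Finite F] : Nat.card (WittModel.X M (sr ⟨0, by omega⟩)) ≤ Nat.card F := by
  have hnx : nx (⟨0, by omega⟩ : Fin n) = (⟨1, hn⟩, false) := by
    unfold nx; rw [dif_pos (by simpa using hn)]
  have hmem : ∀ x ∈ WittModel.X M (sr ⟨0, by omega⟩), ∃ (a : F)
      (ha : Fr.X (⟨0, by omega⟩, true) (⟨1, hn⟩, false) a ∈ M.I), M.φ ⟨_, ha⟩ = x := by
    rintro _ ⟨g, hg, rfl⟩
    obtain ⟨g, hgI⟩ := g
    have h1 : g ∈ rg Fr (sr ⟨0, by omega⟩) := hg
    rw [rg_sr, hnx, PG_ne _ (by simp)] at h1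
    obtain ⟨a, rfl⟩ := h1
    exact ⟨a, hgI, rfl⟩
  choose! f hf using hmem
  refine Nat.card_le_card_of_injective (fun x : WittModel.X M (sr ⟨0, by omega⟩) => f x.1) ?_
  intro x y hxy
  obtain ⟨h1, h2⟩ := hf x.1 x.2
  obtain ⟨h3, h4⟩ := hf y.1 y.2
  apply Subtype.ext
  rw [← h2, ← h4]
  congr 2
  exact congrArg _ hxy

end TypeC

section Unitary

open Cfsg.Agent.LieClassical.HermBasic Cfsg.Agent.TitsThree.KSideU
open Cfsg.Agent.Nodes.TypeC
open Cfsg.Agent.Nodes Cfsg.Agent.Nodes.WittAll Cfsg.Agent.Nodes.WittU Cfsg.Agent.Nodes.WittInst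
  Cfsg.Agent.Nodes.WittRoot Cfsg.Agent.Nodes.WittRGD
  Cfsg.Agent.TitsThree Cfsg.Agent.TitsThree.Siegel Cfsg.Agent.TitsThree.SiegelGen
  Cfsg.Agent.TitsThree.WittFrame Cfsg.Agent.TitsThree.WBridge Cfsg.Agent.TitsThree.WittWeyl
  Cfsg.Agent.TitsThree.FrameCN

variable {F : Type*} [Field F] [Fintype F] {q N : ℕ} (hF : Fintype.card F = q ^ 2)

include hF

theorem par_PSU_five {p : ℕ} [Fact p.Prime] [CharP F p] :
    ParT p (CoxeterMatrix.B 2) 0 (q ^ 2) (PSU 5 F q) := by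
  obtain ⟨W, d, -, hW⟩ := exists_wframe_odd hF (show 5 = 2 * 2 + 1 from rfl)
  obtain ⟨p0, hp0, -⟩ := exists_adm hF W
  have := finite_adm (toFrame W)
  exact ⟨Nodes.TypeC.A 2, Nodes.TypeC.isCartan 2, _, _, _, Nodes.TypeC.finite_W (CoxeterMatrix.B 2).toCoxeterSystem,
    rgdC_model (KInstU.model hF (by omega) W) (AmbT.of_amb (amb_U hF W) p) hp0 _,
    WittModel.G1_eq_top _ (by omega) _, by
      have h1 := card_first (by omega) (KInstU.model hF (by omega) W)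
      rw [Nat.card_eq_fintype_card (α := F), hF] at h1
      exact h1⟩

end Unitary

theorem exists_pow {F : Type*} [Field F] [Fintype F] {q p : ℕ} [hp : Fact p.Prime] [CharP F p]
    (hF : Fintype.card F = q ^ 2) : ∃ a, 0 < a ∧ q = p ^ a := by
  obtain ⟨n, -, hn⟩ := FiniteField.card F p
  rw [hF] at hn
  obtain ⟨a, -, ha⟩ := (Nat.dvd_prime_pow hp.1).1 (show q ∣ p ^ (n : ℕ) by rw [← hn]; exact dvd_pow_self q two_ne_zero)
  refine ⟨a, Nat.pos_of_ne_zero ?_, ha⟩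
  rintro rfl
  rw [ha, pow_zero, one_pow] at hn
  exact (one_lt_pow₀ hp.1.one_lt n.pos.ne').ne hn

/-- the `p`-part of the order of `PSU_n(q)` -/
theorem dvd_card_psu {F : Type} [Field F] [Fintype F] {q n p : ℕ} [hp : Fact p.Prime] (hF : Fintype.card F = q ^ 2)
    (hn : 2 ≤ n) {a : ℕ} (ha : 0 < a) (hq : q = p ^ a) : q ^ (n * (n - 1) / 2) ∣ Nat.card (PSU n F q) := by
  have h1 := H341.ThreeList.card_psu (n := n) hF hn
  have h2 : q ^ (n * (n - 1) / 2) ∣ Nat.gcd n (q + 1) * Nat.card (PSU n F q) := by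
    rw [h1]
    exact Dvd.intro _ rfl
  refine Nat.Coprime.dvd_of_dvd_mul_left (Nat.Coprime.pow_left _ ?_) h2
  refine Nat.Coprime.coprime_dvd_right (Nat.gcd_dvd_right n (q + 1)) ?_
  simp

theorem row_psu_four {F : Type} [Field F] [Fintype F] {q p : ℕ} [hp : Fact p.Prime] [CharP F p]
    (hF : Fintype.card F = q ^ 2) : Row.{u} (PSU 4 F q) := by
  obtain ⟨a, ha, hq⟩ := exists_pow (p := p) hF
  have h1 := dvd_card_psu (n := 4) hF (by omega) ha hq
  have h2 := par_PSU_even hF (show 4 = 2 * 2 from rfl) (by omega) (p := p)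
  have hq2 := two_le_q hF
  refine row_of_par (m := 4) (k := a * 6) ?_ ?_ ?_ h2
  · rfl
  · rw [pow_mul, ← hq]; exact h1
  · rw [pow_mul, ← hq]
    exact Nat.pow_lt_pow_right (by omega) (by omega)

theorem row_psu_five {F : Type} [Field F] [Fintype F] {q p : ℕ} [hp : Fact p.Prime] [CharP F p]
    (hF : Fintype.card F = q ^ 2) : Row.{u} (PSU 5 F q) := by
  obtain ⟨a, ha, hq⟩ := exists_pow (p := p) hF
  have h1 := dvd_card_psu (n := 5) hF (by omega) ha hq
  have hq2 := two_le_q hF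
  refine row_of_par (m := 4) (k := a * 10) ?_ ?_ ?_ (par_PSU_five hF (p := p))
  · rfl
  · rw [pow_mul, ← hq]; exact h1
  · rw [pow_mul, ← hq, ← pow_mul]
    exact Nat.pow_lt_pow_right (by omega) (by omega)

end Cfsg.Agent.H480.Fr
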