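import Cfsg.Agent.H480.RankOne
import Cfsg.Agent.H480.Sl
import Cfsg.Agent.ClassicalGeometry.AutPSL.Main
import Cfsg.Agent.ClassicalGeometry.AutPSL.SylowU

/-!
# Nilpotent minimal covers: `PSL₂(q)`, the Borel subgroup (helper480, S3925, S3926)
-/

set_option autoImplicit false

namespace Cfsg.Agent.H480.PslTwo

open Subgroup Matrix
open Cfsg.Agent.ClassicalGeometry.AutPSL.Root
open Cfsg.Agent.ClassicalGeometry.AutPSL.SylowU

variable {F : Type*} [Field F]

/-- upper unitriangular -/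
def xx (s : F) : Matrix.SpecialLinearGroup (Fin 2) F := ⟨!![1, s; 0, 1], by simp [det_fin_two]⟩
/-- diagonal -/
def dd (a : Fˣ) : Matrix.SpecialLinearGroup (Fin 2) F :=
  ⟨!![(a : F), 0; 0, ((a⁻¹ : Fˣ) : F)], by simp [det_fin_two]⟩

theorem xx_coe (s : F) : ((xx s : Matrix.SpecialLinearGroup (Fin 2) F) : Matrix (Fin 2) (Fin 2) F) =
    !![1, s; 0, 1] := rfl
theorem dd_coe (a : Fˣ) : ((dd a : Matrix.SpecialLinearGroup (Fin 2) F) : Matrix (Fin 2) (Fin 2) F) =
    !![(a : F), 0; 0, ((a⁻¹ : Fˣ) : F)] := rfl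

theorem sl_ext2 {A B : Matrix.SpecialLinearGroup (Fin 2) F} (h00 : A 0 0 = B 0 0) (h01 : A 0 1 = B 0 1)
    (h10 : A 1 0 = B 1 0) (h11 : A 1 1 = B 1 1) : A = B := by
  ext i j
  fin_cases i <;> fin_cases j <;> assumption

theorem det2 (A : Matrix.SpecialLinearGroup (Fin 2) F) : A 0 0 * A 1 1 - A 0 1 * A 1 0 = 1 := by
  rw [← det_fin_two]
  exact A.2

theorem coe_neg' (A : Matrix.SpecialLinearGroup (Fin 2) F) (i j : Fin 2) : (-A) i j = -(A i j) := by
  simp

theorem coe_mul' (A B : Matrix.SpecialLinearGroup (Fin 2) F) (i j : Fin 2) :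
    (A * B) i j = A i 0 * B 0 j + A i 1 * B 1 j := by
  simp [Matrix.mul_apply, Fin.sum_univ_two]

theorem pr_eq_iff {A B : Matrix.SpecialLinearGroup (Fin 2) F} : pr A = pr B ↔ A = B ∨ A = -B := by
  constructor
  · intro h
    obtain ⟨c, hc⟩ := exists_smul_of_pr_eq h
    have h1 : c ^ 2 = 1 := by
      have h2 := B.2
      rw [hc, det_smul, A.2, Fintype.card_fin, mul_one] at h2
      exact h2
    rcases sq_eq_one_iff.1 h1 with h2 | h2
    · left
      apply Subtype.ext
      rw [hc, h2, one_smul]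
    · right
      apply Subtype.ext
      rw [SpecialLinearGroup.coe_neg, hc, h2]
      simp
  · rintro (h | h)
    · rw [h]
    · refine pr_eq_of_smul (c := -1) ?_
      rw [h]
      simp

@[simp] theorem xx00 (s : F) : xx s 0 0 = 1 := rfl
@[simp] theorem xx01 (s : F) : xx s 0 1 = s := rfl
@[simp] theorem xx10 (s : F) : xx s 1 0 = 0 := rfl
@[simp] theorem xx11 (s : F) : xx s 1 1 = 1 := rfl
@[simp] theorem dd00 (a : Fˣ) : dd a 0 0 = a := rfl
@[simp] theorem dd01 (a : Fˣ) : dd a 0 1 = 0 := rfl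
@[simp] theorem dd10 (a : Fˣ) : dd a 1 0 = 0 := rfl
@[simp] theorem dd11 (a : Fˣ) : dd a 1 1 = ((a⁻¹ : Fˣ) : F) := rfl
@[simp] theorem ww00 : ww F 0 0 = 0 := rfl
@[simp] theorem ww01 : ww F 0 1 = 1 := rfl
@[simp] theorem ww10 : ww F 1 0 = -1 := rfl
@[simp] theorem ww11 : ww F 1 1 = 0 := rfl

theorem xx_zero : xx (0 : F) = 1 := sl_ext2 (by simp) (by simp) (by simp) (by simp)

theorem xx_mul (s t : F) : xx s * xx t = xx (s + t) :=
  sl_ext2 (by simp [coe_mul']) (by simp [coe_mul', add_comm]) (by simp [coe_mul']) (by simp [coe_mul'])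

theorem dd_mul (a b : Fˣ) : dd a * dd b = dd (a * b) :=
  sl_ext2 (by simp [coe_mul']) (by simp [coe_mul']) (by simp [coe_mul']) (by simp [coe_mul', mul_comm])

theorem dd_one : dd (1 : Fˣ) = 1 := sl_ext2 (by simp) (by simp) (by simp) (by simp)

theorem dd_pow (a : Fˣ) (n : ℕ) : dd a ^ n = dd (a ^ n) := by
  induction n with
  | zero => rw [pow_zero, pow_zero, dd_one]
  | succ n ih => rw [pow_succ, ih, dd_mul, pow_succ]

theorem dd_inv (a : Fˣ) : (dd a)⁻¹ = dd a⁻¹ := by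
  rw [inv_eq_iff_mul_eq_one, dd_mul, mul_inv_cancel, dd_one]

theorem xx_inv (s : F) : (xx s)⁻¹ = xx (-s) := by
  rw [inv_eq_iff_mul_eq_one, xx_mul, add_neg_cancel, xx_zero]

theorem mem_upper2 [Finite F] {g : Matrix.SpecialLinearGroup (Fin 2) F} : g ∈ upper 2 F ↔ ∃ s, g = xx s := by
  rw [mem_upper]
  constructor
  · intro h
    refine ⟨g 0 1, sl_ext2 ?_ ?_ ?_ ?_⟩
    · simpa using h 0 0 le_rfl
    · rfl
    · simpa using h 1 0 (by decide)
    · simpa using h 1 1 le_rfl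
  · rintro ⟨s, rfl⟩ i j hij
    fin_cases i <;> fin_cases j <;> simp_all

/-- the image of the upper unitriangular group -/
theorem mem_map_upper [Finite F] {x : Matrix.ProjectiveSpecialLinearGroup (Fin 2) F} :
    x ∈ (upper 2 F).map pr ↔ ∃ s : F, x = pr (xx s) := by
  constructor
  · rintro ⟨g, hg, rfl⟩
    obtain ⟨s, rfl⟩ := mem_upper2.1 hg
    exact ⟨s, rfl⟩
  · rintro ⟨s, rfl⟩
    exact ⟨_, mem_upper2.2 ⟨s, rfl⟩, rfl⟩

theorem pr_mem_iff [Finite F] {g : Matrix.SpecialLinearGroup (Fin 2) F} :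
    pr g ∈ (upper 2 F).map pr ↔ ∃ s : F, g = xx s ∨ g = -xx s := by
  rw [mem_map_upper]
  constructor
  · rintro ⟨s, h⟩
    exact ⟨s, pr_eq_iff.1 h⟩
  · rintro ⟨s, h⟩
    exact ⟨s, pr_eq_iff.2 h⟩

/-- the normaliser is the Borel subgroup -/
theorem norm_iff [Finite F] {g : Matrix.SpecialLinearGroup (Fin 2) F} :
    pr g ∈ normalizer (((upper 2 F).map pr : Subgroup (Matrix.ProjectiveSpecialLinearGroup (Fin 2) F)) : Set _) ↔
      g 1 0 = 0 := by
  constructor
  · intro h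
    have h1 := (mem_normalizer_iff.1 h (pr (xx 1))).1 (mem_map_upper.2 ⟨1, rfl⟩)
    rw [← map_inv, ← map_mul, ← map_mul, pr_mem_iff] at h1
    obtain ⟨s, hs⟩ := h1
    have h2 : (g * xx 1 * g⁻¹ : Matrix.SpecialLinearGroup (Fin 2) F) 1 0 = -(g 1 0) ^ 2 := by
      rw [coe_mul', coe_mul', coe_mul']
      simp [adjugate_fin_two]
      ring
    have h3 : (g * xx 1 * g⁻¹ : Matrix.SpecialLinearGroup (Fin 2) F) 1 0 = 0 := by
      rcases hs with h | h
      · rw [h, xx10]
      · rw [h, coe_neg', xx10, neg_zero]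
    rw [h2, neg_eq_zero] at h3
    exact pow_eq_zero_iff (two_ne_zero) |>.1 h3
  · intro h
    have hdet := det2 g
    rw [h, mul_zero, sub_zero] at hdet
    have key : ∀ x ∈ (upper 2 F).map pr, ∀ g : Matrix.SpecialLinearGroup (Fin 2) F, g 1 0 = 0 →
        pr g * x * (pr g)⁻¹ ∈ (upper 2 F).map pr := by
      intro x hx g h
      have hdet := det2 g
      rw [h, mul_zero, sub_zero] at hdet
      obtain ⟨s, rfl⟩ := mem_map_upper.1 hx
      refine mem_map_upper.2 ⟨g 0 0 ^ 2 * s, ?_⟩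
      rw [← map_inv, ← map_mul, ← map_mul]
      congr 1
      rw [mul_inv_eq_iff_eq_mul]
      refine sl_ext2 ?_ ?_ ?_ ?_
      · simp [coe_mul', h]
      · simp only [coe_mul', xx01, xx11, xx00]
        linear_combination -(g 0 0 * s) * hdet
      · simp [coe_mul', h]
      · simp [coe_mul', h]
    rw [mem_normalizer_iff]
    intro x
    constructor
    · intro hx
      exact key x hx g h
    · intro hx
      have h1 := key _ hx g⁻¹ (by simp [adjugate_fin_two, h])
      rw [map_inv] at h1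
      have h2 : (pr g)⁻¹ * (pr g * x * (pr g)⁻¹) * (pr g)⁻¹⁻¹ = x := by group
      rwa [h2] at h1

/-- the diagonal subgroup -/
def TT (F : Type*) [Field F] : Subgroup (Matrix.ProjectiveSpecialLinearGroup (Fin 2) F) where
  carrier := {x | ∃ a : Fˣ, x = pr (dd a)}
  mul_mem' := by
    rintro _ _ ⟨a, rfl⟩ ⟨b, rfl⟩
    exact ⟨a * b, by rw [← map_mul, dd_mul]⟩
  one_mem' := ⟨1, by rw [dd_one, map_one]⟩
  inv_mem' := by
    rintro _ ⟨a, rfl⟩
    exact ⟨a⁻¹, by rw [← map_inv, dd_inv]⟩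

theorem bruhat (g : Matrix.SpecialLinearGroup (Fin 2) F) :
    (∃ s a, g = xx s * dd a) ∨ (∃ s t a, g = xx s * ww F * (xx t * dd a)) := by
  have hdet := det2 g
  by_cases h : g 1 0 = 0
  · left
    rw [h, mul_zero, sub_zero] at hdet
    have h0 : g 0 0 ≠ 0 := left_ne_zero_of_mul_eq_one hdet
    have h1 : g 1 1 = (g 0 0)⁻¹ := eq_inv_of_mul_eq_one_right hdet
    refine ⟨g 0 1 * g 0 0, Units.mk0 _ h0, sl_ext2 ?_ ?_ ?_ ?_⟩
    · simp [coe_mul']
    · simp [coe_mul', h0]
    · simp [coe_mul', h]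
    · simp [coe_mul', h1]
  · right
    refine ⟨g 0 0 / g 1 0, g 1 1 * g 1 0, Units.mk0 (-(g 1 0)) (neg_ne_zero.2 h), sl_ext2 ?_ ?_ ?_ ?_⟩
    · simp [coe_mul', h]
    · simp only [coe_mul', xx00, xx01, xx10, xx11, ww00, ww01, ww10, ww11, dd01, dd11]
      simp
      field_simp
      linear_combination -hdet
    · simp [coe_mul']
    · simp [coe_mul', h]

theorem inv00 (g : Matrix.SpecialLinearGroup (Fin 2) F) : g⁻¹ 0 0 = g 1 1 := by simp [adjugate_fin_two]
theorem inv01 (g : Matrix.SpecialLinearGroup (Fin 2) F) : g⁻¹ 0 1 = -g 0 1 := by simp [adjugate_fin_two]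
theorem inv10 (g : Matrix.SpecialLinearGroup (Fin 2) F) : g⁻¹ 1 0 = -g 1 0 := by simp [adjugate_fin_two]
theorem inv11 (g : Matrix.SpecialLinearGroup (Fin 2) F) : g⁻¹ 1 1 = g 0 0 := by simp [adjugate_fin_two]

theorem tr_conj (g A : Matrix.SpecialLinearGroup (Fin 2) F) :
    (g * A * g⁻¹ : Matrix.SpecialLinearGroup (Fin 2) F) 0 0 + (g * A * g⁻¹ : Matrix.SpecialLinearGroup (Fin 2) F) 1 1 =
      A 0 0 + A 1 1 := by
  have hdet := det2 g
  simp only [coe_mul', inv00, inv01, inv10, inv11]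
  linear_combination (A 0 0 + A 1 1) * hdet

/-- elements of the Borel subgroup commuting with a unipotent element -/
theorem comm_xx {s : F} (hs : s ≠ 0) {g : Matrix.SpecialLinearGroup (Fin 2) F}
    (h : pr g * pr (xx s) = pr (xx s) * pr g) : ∃ t, pr g = pr (xx t) := by
  rw [← map_mul, ← map_mul, pr_eq_iff] at h
  have hdet := det2 g
  have key : g * xx s = xx s * g → ∃ t, pr g = pr (xx t) := by
    intro h
    have e10 := congrArg (fun A : Matrix.SpecialLinearGroup (Fin 2) F => A 0 0) h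
    have e01 := congrArg (fun A : Matrix.SpecialLinearGroup (Fin 2) F => A 0 1) h
    simp only [coe_mul', xx00, xx01, xx10, xx11] at e10 e01
    have h10 : g 1 0 = 0 := by
      have : s * g 1 0 = 0 := by linear_combination -e10
      exact (mul_eq_zero.1 this).resolve_left hs
    have h11 : g 0 0 = g 1 1 := by
      have : s * (g 0 0 - g 1 1) = 0 := by linear_combination e01
      exact sub_eq_zero.1 ((mul_eq_zero.1 this).resolve_left hs)
    have hsq : g 0 0 = 1 ∨ g 0 0 = -1 := by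
      rw [← sq_eq_one_iff]
      linear_combination hdet - g 0 0 * (h11.symm.trans rfl) + g 0 1 * h10
    rcases hsq with h1 | h1
    · refine ⟨g 0 1, pr_eq_iff.2 (Or.inl (sl_ext2 ?_ ?_ ?_ ?_))⟩
      · rw [h1, xx00]
      · rw [xx01]
      · rw [h10, xx10]
      · rw [← h11, h1, xx11]
    · refine ⟨-g 0 1, pr_eq_iff.2 (Or.inr (sl_ext2 ?_ ?_ ?_ ?_))⟩
      · rw [h1, coe_neg', xx00]
      · rw [coe_neg', xx01, neg_neg]
      · rw [h10, coe_neg', xx10, neg_zero]
      · rw [← h11, h1, coe_neg', xx11]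
  rcases h with h | h
  · exact key h
  · -- the trace
    have h1 : g * xx s * g⁻¹ = -xx s := by
      rw [h, neg_mul, mul_inv_cancel_right]
    have h2 := tr_conj g (xx s)
    rw [h1] at h2
    simp only [coe_neg', xx00, xx11] at h2
    have h4 : (2 : F) * 2 = 0 := by
      linear_combination -h2
    have h5 : (2 : F) = 0 := by simpa using h4
    have hneg : ∀ A : Matrix.SpecialLinearGroup (Fin 2) F, -A = A := by
      intro A
      refine sl_ext2 ?_ ?_ ?_ ?_ <;> rw [coe_neg'] <;> linear_combination (-A _ _) * h5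
    rw [hneg] at h
    exact key h

/-- elements of the Borel subgroup commuting with a torus element -/
theorem comm_dd {s : F} {a : Fˣ} (ha : a ^ 2 ≠ 1) (h : pr (dd a) * pr (xx s) = pr (xx s) * pr (dd a)) : s = 0 := by
  rw [← map_mul, ← map_mul, pr_eq_iff] at h
  have ha0 : (a : F) ≠ 0 := a.ne_zero
  have hinv : (a : F) * ((a⁻¹ : Fˣ) : F) = 1 := by simp
  have key : ∀ e : F, e * e = 1 → (a : F) = e * a → (a : F) * s = e * (s * ((a⁻¹ : Fˣ) : F)) → s = 0 := by
    intro e _ h1 h2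
    have h3 : e = 1 := by
      have : (e - 1) * a = 0 := by linear_combination -h1
      exact sub_eq_zero.1 ((mul_eq_zero.1 this).resolve_right ha0)
    subst h3
    by_contra hs
    apply ha
    apply Units.ext
    have h4 : s * ((a : F) ^ 2 - 1) = 0 := by linear_combination (a : F) * h2 + s * hinv
    have h5 := sub_eq_zero.1 ((mul_eq_zero.1 h4).resolve_left hs)
    simpa using h5
  rcases h with h | h
  · have e00 := congrArg (fun A : Matrix.SpecialLinearGroup (Fin 2) F => A 0 0) h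
    have e01 := congrArg (fun A : Matrix.SpecialLinearGroup (Fin 2) F => A 0 1) h
    simp only [coe_mul', xx00, xx01, xx10, xx11, dd00, dd01, dd10, dd11] at e00 e01
    exact key 1 (by ring) (by ring) (by linear_combination e01)
  · have e00 := congrArg (fun A : Matrix.SpecialLinearGroup (Fin 2) F => A 0 0) h
    have e01 := congrArg (fun A : Matrix.SpecialLinearGroup (Fin 2) F => A 0 1) h
    simp only [coe_neg', coe_mul', xx00, xx01, xx10, xx11, dd00, dd01, dd10, dd11] at e00 e01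
    exact key (-1) (by ring) (by linear_combination e00) (by linear_combination e01)

theorem ww_dd (a : Fˣ) : (ww F)⁻¹ * dd a * ww F = dd a⁻¹ := by
  rw [mul_assoc, inv_mul_eq_iff_eq_mul]
  exact sl_ext2 (by simp [coe_mul']) (by simp [coe_mul']) (by simp [coe_mul']) (by simp [coe_mul'])

theorem pair_psl [Finite F] (p : ℕ) [hp : Fact p.Prime] [CharP F p] {r : ℕ} [hr : Fact r.Prime] (hr2 : r ≠ 2)
    (hrd : r ∣ Nat.card Fˣ) : Pair p r (Matrix.ProjectiveSpecialLinearGroup (Fin 2) F) := by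
  have := Fintype.ofFinite F
  obtain ⟨P, hP⟩ := exists_sylow (F := F) 2 p
  obtain ⟨ζ, hζ⟩ := exists_prime_orderOf_dvd_card' r hrd
  have hpow : ∀ n : ℕ, ζ ^ n = 1 ↔ r ∣ n := by
    intro n
    rw [← hζ]
    exact orderOf_dvd_iff_pow_eq_one.symm
  have h2 : ζ ^ 2 ≠ 1 := by
    rw [Ne, hpow]
    exact fun h => hr2 ((Nat.prime_dvd_prime_iff_eq hr.1 Nat.prime_two).1 h)
  have h4 : ζ ^ 4 ≠ 1 := by
    rw [Ne, hpow]
    exact fun h => hr2 ((Nat.prime_dvd_prime_iff_eq hr.1 Nat.prime_two).1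
      (hr.1.dvd_of_dvd_pow (show r ∣ 2 ^ 2 from h)))
  have hrp : r ≠ p := by
    rintro rfl
    have hF := FiniteField.card F r
    obtain ⟨n, -, hn⟩ := hF
    rw [Nat.card_units, Nat.card_eq_fintype_card, hn] at hrd
    have h5 : r ∣ r ^ (n : ℕ) := dvd_pow_self r n.ne_zero
    have h6 := (Nat.dvd_sub_iff_right (Nat.one_le_pow _ _ hr.1.pos) h5).1 hrd
    exact hr.1.one_lt.ne' (Nat.dvd_one.1 h6)
  have hddn : ∀ a b : Fˣ, pr (dd a) = pr (dd b) → (a * b⁻¹) ^ 2 = 1 := by
    intro a b h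
    have hb0 : (b : F) ≠ 0 := b.ne_zero
    apply Units.ext
    rcases pr_eq_iff.1 h with h | h
    · have e := congrArg (fun A : Matrix.SpecialLinearGroup (Fin 2) F => A 0 0) h
      simp only [dd00] at e
      simp [e]
    · have e := congrArg (fun A : Matrix.SpecialLinearGroup (Fin 2) F => A 0 0) h
      simp only [coe_neg', dd00] at e
      simp [e]
  refine pair_of_bn P (TT F) (pr (ww F)) (pr (dd ζ)) ?_ ?_ ?_ ?_ ?_ ?_ ?_ hr2 hrp ⟨ζ, rfl⟩ ?_ ?_ ?_ ?_
  · rintro _ ⟨a, rfl⟩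
    rw [hP, norm_iff, dd10]
  · rintro _ ⟨a, rfl⟩ ha
    rw [hP, pr_mem_iff] at ha
    obtain ⟨s, h | h⟩ := ha
    · have e := congrArg (fun A : Matrix.SpecialLinearGroup (Fin 2) F => A 0 0) h
      simp only [dd00, xx00] at e
      have e1 : a = 1 := Units.ext e
      rw [e1, dd_one, map_one]
    · have e := congrArg (fun A : Matrix.SpecialLinearGroup (Fin 2) F => A 0 0) h
      simp only [coe_neg', dd00, xx00] at e
      have e1 : a = -1 := Units.ext (by simpa using e)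
      rw [← map_one pr, pr_eq_iff]
      right
      rw [e1]
      exact sl_ext2 (by simp) (by simp) (by simp) (by simp)
  · intro g
    obtain ⟨g, rfl⟩ := pr_surjective g
    rcases bruhat g with ⟨s, a, rfl⟩ | ⟨s, t, a, rfl⟩
    · left
      exact ⟨pr (xx s), by rw [hP]; exact mem_map_upper.2 ⟨s, rfl⟩, pr (dd a), ⟨a, rfl⟩, map_mul _ _ _⟩
    · right
      exact ⟨pr (xx s), by rw [hP]; exact mem_map_upper.2 ⟨s, rfl⟩, pr (xx t),
        by rw [hP]; exact mem_map_upper.2 ⟨t, rfl⟩, pr (dd a), ⟨a, rfl⟩, by simp only [map_mul]⟩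
  · intro x hx hw
    rw [hP] at hx hw
    obtain ⟨s, rfl⟩ := mem_map_upper.1 hx
    rw [← map_inv, ← map_mul, ← map_mul, norm_iff] at hw
    simp only [coe_mul', inv10, inv11, ww00, ww10, xx00, xx01, xx10, xx11] at hw
    have hs : s = 0 := by linear_combination -hw
    rw [hs, xx_zero, map_one]
  · rw [← map_inv, ← map_mul, ← map_mul, ww_dd]
    exact ⟨_, rfl⟩
  · rw [hP, norm_iff, ww10]
    exact neg_ne_zero.2 one_ne_zero
  · refine orderOf_eq_prime ?_ ?_
    · rw [← map_pow, dd_pow, ← hζ, pow_orderOf_eq_one, dd_one, map_one]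
    · intro h
      rw [← map_one pr, ← dd_one] at h
      have := hddn _ _ h
      rw [inv_one, mul_one] at this
      exact h2 this
  · rintro _ ⟨a, rfl⟩
    rw [← map_mul, ← map_mul, dd_mul, dd_mul, mul_comm]
  · intro a ha h
    rw [hP] at ha
    obtain ⟨s, rfl⟩ := mem_map_upper.1 ha
    rw [comm_dd h2 h, xx_zero, map_one]
  · rw [← map_inv, ← map_mul, ← map_mul, ww_dd]
    intro h
    have h5 := hddn _ _ h
    apply h4
    have h6 : (ζ⁻¹ * ζ⁻¹) ^ 2 = (ζ ^ 4)⁻¹ := by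
      rw [← pow_two, ← pow_mul, inv_pow]
    rw [h6, inv_eq_one] at h5
    exact h5
  · refine ⟨pr (xx 1), by rw [hP]; exact mem_map_upper.2 ⟨1, rfl⟩, ?_⟩
    rw [← map_one pr, Ne, pr_eq_iff]
    rintro (h | h)
    · have e := congrArg (fun A : Matrix.SpecialLinearGroup (Fin 2) F => A 0 1) h
      simp at e
    · have e := congrArg (fun A : Matrix.SpecialLinearGroup (Fin 2) F => A 0 1) h
      simp at e

end Cfsg.Agent.H480.PslTwo
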