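import Cfsg.Agent.H480.PslTwo
import Cfsg.Agent.H480.Conj
import Cfsg.Agent.Schreier.ClassPSL
import Cfsg.Agent.ClassicalGeometry.PSLTorus
import Cfsg.Agent.ClassicalGeometry.DicksonSubfield
import Cfsg.Agent.Lib.FieldAutCard

/-!
# Nilpotent minimal covers: `PSL₂(q)`, outer automorphisms of even order (helper480, S3925, S3926)
-/

set_option autoImplicit false

namespace Cfsg.Agent.H480.PslTwo

open Subgroup Matrix
open Cfsg.Agent.ClassicalGeometry.AutPSL.Root Cfsg.Agent.ClassicalGeometry.AutPSL.Auto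
  Cfsg.Agent.ClassicalGeometry.AutPSL.Main
open Cfsg.Agent.ClassicalGeometry.AutPSL.SylowU

universe u v

variable {F : Type v} [Field F]

/-- conjugation with a matrix whose determinant is a square is inner -/
theorem inner_of_sq (A : GL (Fin 2) F) (hA : IsSquare (A : Matrix (Fin 2) (Fin 2) F).det) :
    ∃ B : Matrix.SpecialLinearGroup (Fin 2) F, lift (cj A) = MulAut.conj (pr B) := by
  obtain ⟨c, hc⟩ := hA
  have hd : (A : Matrix (Fin 2) (Fin 2) F).det ≠ 0 := by
    have h1 := (Matrix.isUnit_iff_isUnit_det _).1 A.isUnit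
    exact h1.ne_zero
  have hc0 : c ≠ 0 := by
    rintro rfl
    rw [mul_zero] at hc
    exact hd hc
  have hdet : (c⁻¹ • (A : Matrix (Fin 2) (Fin 2) F)).det = 1 := by
    rw [det_smul, hc, Fintype.card_fin]
    field_simp
  obtain ⟨B, hB⟩ : ∃ B : Matrix.SpecialLinearGroup (Fin 2) F, B.1 = c⁻¹ • (A : Matrix (Fin 2) (Fin 2) F) :=
    ⟨⟨_, hdet⟩, rfl⟩
  refine ⟨B, ?_⟩
  apply MulEquiv.ext
  intro x
  obtain ⟨x, rfl⟩ := pr_surjective x
  rw [lift_pr, MulAut.conj_apply, ← map_inv, ← map_mul, ← map_mul]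
  congr 1
  rw [eq_mul_inv_iff_mul_eq]
  apply Subtype.ext
  change (A : Matrix (Fin 2) (Fin 2) F) * x.1 * ((A⁻¹ : GL (Fin 2) F) : Matrix (Fin 2) (Fin 2) F) * B.1 =
    B.1 * x.1
  rw [hB, mul_smul_comm, smul_mul_assoc, mul_assoc, ← Units.val_mul, inv_mul_cancel, Units.val_one, mul_one]

/-- inner automorphisms -/
theorem conj_pr (B : Matrix.SpecialLinearGroup (Fin 2) F) :
    MulAut.conj (pr B) = lift (cj (Matrix.SpecialLinearGroup.toGL B)) := by
  apply MulEquiv.ext
  intro x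
  obtain ⟨x, rfl⟩ := pr_surjective x
  rw [lift_pr, MulAut.conj_apply, ← map_inv, ← map_mul, ← map_mul]
  congr 1

theorem cj_fld_eq {A B : GL (Fin 2) F} {σ τ : F ≃+* F} (h : lift (cj A * fld σ) = lift (cj B * fld τ)) :
    σ = τ ∧ ∃ r : F, (A : Matrix (Fin 2) (Fin 2) F) = r • (B : Matrix (Fin 2) (Fin 2) F) := by
  have h1 : lift (cj (B⁻¹ * A) * fld σ) = lift (fld τ) := by
    rw [map_mul cj, mul_assoc, map_mul, h, ← map_mul, ← mul_assoc, ← map_mul, inv_mul_cancel, map_one, one_mul]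
  obtain ⟨⟨r, hr⟩, h2⟩ := injective_aux h1
  refine ⟨h2, r, ?_⟩
  have h3 : (A : Matrix (Fin 2) (Fin 2) F) = (B : Matrix (Fin 2) (Fin 2) F) * ((B⁻¹ * A : GL (Fin 2) F) : Matrix (Fin 2) (Fin 2) F) := by
    rw [← Units.val_mul, mul_inv_cancel_left]
  rw [h3, ← hr, scalar_apply, ← smul_eq_mul_diagonal]

/-- the determinant of the semilinear matrix modulo squares -/
theorem sq_of_eq {A B : GL (Fin 2) F} {σ τ : F ≃+* F} (h : lift (cj A * fld σ) = lift (cj B * fld τ)) :
    IsSquare (A : Matrix (Fin 2) (Fin 2) F).det ↔ IsSquare (B : Matrix (Fin 2) (Fin 2) F).det := by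
  have key : ∀ {A B : GL (Fin 2) F} {σ τ : F ≃+* F}, lift (cj A * fld σ) = lift (cj B * fld τ) →
      IsSquare (B : Matrix (Fin 2) (Fin 2) F).det → IsSquare (A : Matrix (Fin 2) (Fin 2) F).det := by
    intro A B σ τ h hB
    obtain ⟨-, r, hr⟩ := cj_fld_eq h
    rw [hr, det_smul, Fintype.card_fin, pow_two]
    exact (IsSquare.mul_self r).mul hB
  exact ⟨key h.symm, key h⟩

theorem cj_fld_mul (A B : GL (Fin 2) F) (σ τ : F ≃+* F) :
    lift (cj A * fld σ) * lift (cj B * fld τ) =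
      lift (cj (A * Matrix.GeneralLinearGroup.map (σ : F →+* F) B) * fld (σ * τ)) := by
  rw [← map_mul, map_mul cj, map_mul fld]
  congr 1
  rw [mul_assoc, ← mul_assoc (fld σ), Schreier.ClassPSL.fld_mul_cj]
  simp only [mul_assoc]

theorem det_mul_map (A B : GL (Fin 2) F) (σ : F ≃+* F) :
    ((A * Matrix.GeneralLinearGroup.map (σ : F →+* F) B : GL (Fin 2) F) : Matrix (Fin 2) (Fin 2) F).det =
      (A : Matrix (Fin 2) (Fin 2) F).det * σ ((B : Matrix (Fin 2) (Fin 2) F).det) := by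
  rw [Units.val_mul, det_mul]
  congr 1
  have h : ((Matrix.GeneralLinearGroup.map (σ : F →+* F) B : GL (Fin 2) F) : Matrix (Fin 2) (Fin 2) F) =
    (B : Matrix (Fin 2) (Fin 2) F).map (σ : F →+* F) := rfl
  rw [h, ← RingHom.mapMatrix_apply, ← RingHom.map_det]
  rfl

theorem isSquare_map (σ : F ≃+* F) {a : F} : IsSquare (σ a) ↔ IsSquare a := by
  constructor
  · rintro ⟨c, hc⟩
    refine ⟨σ.symm c, ?_⟩
    rw [← map_mul, ← hc, RingEquiv.symm_apply_apply]
  · rintro ⟨c, rfl⟩
    exact ⟨σ c, map_mul _ _ _⟩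

/-- the semilinear automorphisms with square determinant -/
def PS (F : Type v) [Field F] : Subgroup (MulAut (Matrix.ProjectiveSpecialLinearGroup (Fin 2) F)) where
  carrier := {α | ∃ (A : GL (Fin 2) F) (σ : F ≃+* F), IsSquare (A : Matrix (Fin 2) (Fin 2) F).det ∧
    α = lift (cj A * fld σ)}
  mul_mem' := by
    rintro _ _ ⟨A, σ, hA, rfl⟩ ⟨B, τ, hB, rfl⟩
    refine ⟨_, _, ?_, cj_fld_mul A B σ τ⟩
    rw [det_mul_map]
    exact hA.mul ((isSquare_map σ).2 hB)
  one_mem' := ⟨1, 1, by rw [Units.val_one, det_one]; exact ⟨1, by ring⟩, by simp⟩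
  inv_mem' := by
    rintro _ ⟨A, σ, hA, rfl⟩
    refine ⟨Matrix.GeneralLinearGroup.map ((σ⁻¹ : F ≃+* F) : F →+* F) A⁻¹, σ⁻¹, ?_, ?_⟩
    · have h := det_mul_map 1 A⁻¹ σ⁻¹
      rw [one_mul, Units.val_one, det_one, one_mul] at h
      rw [h, isSquare_map]
      have h1 : (A : Matrix (Fin 2) (Fin 2) F).det * ((A⁻¹ : GL (Fin 2) F) : Matrix (Fin 2) (Fin 2) F).det = 1 := by
        rw [← det_mul, ← Units.val_mul, mul_inv_cancel, Units.val_one, det_one]
      obtain ⟨c, hc⟩ := hA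
      have hc0 : c ≠ 0 := by
        rintro rfl
        rw [hc, mul_zero, zero_mul] at h1
        exact zero_ne_one h1
      refine ⟨c⁻¹, ?_⟩
      rw [hc] at h1
      have h2 : c * c ≠ 0 := mul_ne_zero hc0 hc0
      apply mul_left_cancel₀ h2
      rw [h1]
      field_simp
    · rw [inv_eq_iff_mul_eq_one, cj_fld_mul, mul_inv_cancel, map_one, mul_one]
      have h : Matrix.GeneralLinearGroup.map (σ : F →+* F)
          (Matrix.GeneralLinearGroup.map ((σ⁻¹ : F ≃+* F) : F →+* F) A⁻¹) = A⁻¹ := by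
        ext i j
        change σ (σ.symm _) = _
        exact σ.apply_symm_apply _
      rw [h, mul_inv_cancel, map_one, map_one]

theorem mem_PS {A : GL (Fin 2) F} {σ : F ≃+* F} :
    lift (cj A * fld σ) ∈ PS F ↔ IsSquare (A : Matrix (Fin 2) (Fin 2) F).det := by
  constructor
  · rintro ⟨B, τ, hB, h⟩
    exact (sq_of_eq h).2 hB
  · intro h
    exact ⟨A, σ, h, rfl⟩

/-- the trace is invariant -/
theorem tr_cj (A : GL (Fin 2) F) (x : Matrix.SpecialLinearGroup (Fin 2) F) :
    (cj A x) 0 0 + (cj A x) 1 1 = x 0 0 + x 1 1 := by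
  have h1 : Matrix.trace (cj A x).1 = Matrix.trace x.1 := by
    change Matrix.trace ((A : Matrix (Fin 2) (Fin 2) F) * x.1 * ((A⁻¹ : GL (Fin 2) F) : Matrix (Fin 2) (Fin 2) F)) = _
    rw [Matrix.trace_mul_comm, ← mul_assoc, ← Units.val_mul, inv_mul_cancel, Units.val_one, one_mul]
  rw [trace_fin_two, trace_fin_two] at h1
  exact h1

/-- **No diagonal automorphism.** -/
theorem no_diag [Finite F] (p : ℕ) [hp : Fact p.Prime] [CharP F p] {G : Type u} [Group G] [Finite G] {K : Subgroup G}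
    [hK : K.Normal] (hs : IsSimpleGroup ↥K) (hna : ¬ IsMulCommutative ↥K) (hc : centralizer (K : Set G) = ⊥)
    (f : Matrix.ProjectiveSpecialLinearGroup (Fin 2) F ≃* ↥K) {𝓐 : Finset (Subgroup G)} (hA : NMC 𝓐) {g : G}
    {A : GL (Fin 2) F} (hg : act f g = lift (cj A)) : g ∈ K := by
  have := Fintype.ofFinite F
  by_contra hgK
  have hsq : ¬ IsSquare (A : Matrix (Fin 2) (Fin 2) F).det := by
    intro h
    obtain ⟨B, hB⟩ := inner_of_sq A h
    exact hgK (act_mem f hc (hg.trans hB))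
  have hg' : act f g = lift (cj A * fld 1) := by rw [hg, map_one, mul_one]
  have hodd : p ≠ 2 := by
    rintro rfl
    apply hsq
    exact FiniteField.isSquare_of_char_two (ringChar.eq F 2) _
  have h2 : (2 : F) ≠ 0 := by
    intro h
    have h1 : ((2 : ℕ) : F) = 0 := by exact_mod_cast h
    rw [CharP.cast_eq_zero_iff F p] at h1
    exact hodd ((Nat.prime_dvd_prime_iff_eq hp.1 Nat.prime_two).1 h1)
  set N : Subgroup G := (PS F).comap (act f) with hN
  have hi : N.index = 2 := by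
    rw [index_eq_two_iff]
    refine ⟨g, fun b => ?_⟩
    obtain ⟨B, τ, hB⟩ := surj_two p (act f b)
    have h1 : b ∈ N ↔ IsSquare (B : Matrix (Fin 2) (Fin 2) F).det := by
      rw [hN, mem_comap, hB, mem_PS]
    have h3 : b * g ∈ N ↔ IsSquare ((B : Matrix (Fin 2) (Fin 2) F).det * τ ((A : Matrix (Fin 2) (Fin 2) F).det)) := by
      rw [hN, mem_comap, map_mul, hB, hg', cj_fld_mul, mem_PS, det_mul_map]
    rw [h1, h3]
    by_cases h4 : IsSquare (B : Matrix (Fin 2) (Fin 2) F).det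
    · right
      refine ⟨h4, fun h5 => ?_⟩
      apply hsq
      rw [← isSquare_map τ]
      obtain ⟨c, hc⟩ := h4
      obtain ⟨d, hd⟩ := h5
      have hB0 : (B : Matrix (Fin 2) (Fin 2) F).det ≠ 0 := ((Matrix.isUnit_iff_isUnit_det _).1 B.isUnit).ne_zero
      have hc0 : c ≠ 0 := by
        rintro rfl
        rw [mul_zero] at hc
        exact hB0 hc
      refine ⟨d / c, ?_⟩
      rw [hc] at hd
      field_simp
      linear_combination hd
    · left
      refine ⟨ClassicalGeometry.DicksonSubfield.isSquare_mul_of_not h4 ?_, h4⟩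
      rw [isSquare_map]
      exact hsq
  have hNn : N.Normal := normal_of_index_eq_two hi
  have hx1 : pr (xx (1 : F)) ≠ 1 := by
    rw [← map_one pr, Ne, pr_eq_iff]
    rintro (h | h)
    · have e := congrArg (fun A : Matrix.SpecialLinearGroup (Fin 2) F => A 0 1) h
      simp at e
    · have e := congrArg (fun A : Matrix.SpecialLinearGroup (Fin 2) F => A 0 1) h
      simp at e
  have hxp : pr (xx (1 : F)) ^ p = 1 := by
    have h1 : ∀ n : ℕ, xx (1 : F) ^ n = xx (n : F) := by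
      intro n
      induction n with
      | zero => rw [pow_zero, Nat.cast_zero, xx_zero]
      | succ n ih => rw [pow_succ, ih, xx_mul, Nat.cast_succ]
    rw [← map_pow, h1, CharP.cast_eq_zero, xx_zero, map_one]
  obtain ⟨h, hhN, -, hh⟩ := hA.exists_outside (no_nilpotent_normal K hs hna hc) N Nat.prime_two hi
    (y := (f (pr (xx (1 : F))) : G)) (by
      intro h
      apply hx1
      apply f.injective
      apply Subtype.ext
      rw [h, map_one, coe_one]) (by
      refine Nat.Coprime.coprime_dvd_left (orderOf_dvd_of_pow_eq_one (n := p) ?_) ?_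
      · rw [← SubgroupClass.coe_pow, ← map_pow, hxp, map_one, coe_one]
      · exact (Nat.coprime_primes hp.1 Nat.prime_two).2 hodd)
  apply hhN
  obtain ⟨B, τ, hB⟩ := surj_two p (act f h)
  rw [hN, mem_comap, hB, mem_PS]
  have h3 := act_comm f hh
  rw [hB, lift_pr, MulAut.mul_apply] at h3
  have h4 : fld τ (xx (1 : F)) = xx 1 := by
    ext i j
    rw [coe_fld_apply]
    fin_cases i <;> fin_cases j <;> simp
  rw [h4, pr_eq_iff] at h3
  have h5 : cj B (xx 1) = xx 1 := by
    rcases h3 with h3 | h3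
    · exact h3
    · exfalso
      have h6 := tr_cj B (xx 1)
      rw [h3] at h6
      simp only [coe_neg', xx00, xx11] at h6
      have h7 : (2 : F) * 2 = 0 := by linear_combination -h6
      rcases mul_eq_zero.1 h7 with h7 | h7
      · exact h2 h7
      · exact h2 h7
  have h6 : (B : Matrix (Fin 2) (Fin 2) F) * (xx (1 : F)).1 = (xx (1 : F)).1 * (B : Matrix (Fin 2) (Fin 2) F) := by
    have h7 : (B : Matrix (Fin 2) (Fin 2) F) * (xx (1 : F)).1 * ((B⁻¹ : GL (Fin 2) F) : Matrix (Fin 2) (Fin 2) F) =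
      (xx (1 : F)).1 := congrArg Subtype.val h5
    rw [← h7, mul_assoc _ _ (B : Matrix (Fin 2) (Fin 2) F), ← Units.val_mul, inv_mul_cancel, Units.val_one, mul_one, h7]
  have e00 := congrFun (congrFun h6 0) 0
  have e01 := congrFun (congrFun h6 0) 1
  simp only [Matrix.mul_apply, Fin.sum_univ_two] at e00 e01
  have v00 : (xx (1 : F)).1 0 0 = 1 := rfl
  have v01 : (xx (1 : F)).1 0 1 = 1 := rfl
  have v10 : (xx (1 : F)).1 1 0 = 0 := rfl
  have v11 : (xx (1 : F)).1 1 1 = 1 := rfl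
  rw [v00, v01, v10] at e00
  rw [v00, v01, v11] at e01
  rw [det_fin_two]
  have e10 : (B : Matrix (Fin 2) (Fin 2) F) 1 0 = 0 := by linear_combination -e00
  have e11 : (B : Matrix (Fin 2) (Fin 2) F) 1 1 = (B : Matrix (Fin 2) (Fin 2) F) 0 0 := by linear_combination -e01
  rw [e10, e11, mul_zero, sub_zero]
  exact ⟨_, rfl⟩

/-- the fixed field of a nontrivial automorphism is small -/
theorem card_fixed_sq_le [Finite F] {σ : F ≃+* F} (hσ : σ ≠ 1) :
    Nat.card {x : F // σ x = x} ^ 2 ≤ Nat.card F := by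
  let F₀ : Subfield F := RingHom.eqLocusField (σ : F →+* F) (RingHom.id F)
  have h0 : Nat.card {x : F // σ x = x} = Nat.card F₀ := rfl
  have h1 : Nat.card F = Nat.card F₀ ^ Module.finrank F₀ F := Module.natCard_eq_pow_finrank
  have hF₀ : F₀ ≠ ⊤ := by
    intro h
    apply hσ
    ext x
    have h2 : x ∈ F₀ := by rw [h]; exact Subfield.mem_top x
    exact h2
  have h2 : 2 ≤ Module.finrank F₀ F := by
    have h3 : 0 < Module.finrank F₀ F := Module.finrank_pos
    by_contra h4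
    have h5 : Module.finrank F₀ F = 1 := by omega
    rw [h5, pow_one] at h1
    apply hF₀
    rw [eq_top_iff]
    intro x _
    have h6 : Function.Surjective (Subtype.val : F₀ → F) := by
      have := (Nat.bijective_iff_injective_and_card (Subtype.val : F₀ → F)).2 ⟨Subtype.val_injective, h1.symm⟩
      exact this.2
    obtain ⟨y, rfl⟩ := h6 x
    exact y.2
  rw [h0]
  conv_rhs => rw [h1]
  exact Nat.pow_le_pow_right Nat.card_pos h2

/-- a cyclic group of order `q + 1` is not in a proper subfield -/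
theorem trace_not_fixed [Finite F] {σ : F ≃+* F} (hσ : σ ≠ 1) {a y : Matrix.SpecialLinearGroup (Fin 2) F}
    (ha : orderOf a = Nat.card F + 1) (hy : a ∈ zpowers y ∨ -a ∈ zpowers y) :
    σ (y 0 0 + y 1 1) ≠ y 0 0 + y 1 1 := by
  intro hfix
  let W : Set (Matrix (Fin 2) (Fin 2) F) :=
    Set.range (fun u : {x : F // σ x = x} × {x : F // σ x = x} =>
      (u.1.1 • (1 : Matrix (Fin 2) (Fin 2) F) + u.2.1 • y.1))
  have hW1 : W.ncard ≤ Nat.card F := by
    have h1 : W.ncard ≤ Nat.card ({x : F // σ x = x} × {x : F // σ x = x}) := by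
      have h2 := Finite.card_range_le (fun u : {x : F // σ x = x} × {x : F // σ x = x} =>
        (u.1.1 • (1 : Matrix (Fin 2) (Fin 2) F) + u.2.1 • y.1))
      exact h2
    rw [Nat.card_prod, ← pow_two] at h1
    exact h1.trans (card_fixed_sq_le hσ)
  have hneg : ∀ M ∈ W, -M ∈ W := by
    rintro _ ⟨⟨⟨u, hu⟩, ⟨v, hv⟩⟩, rfl⟩
    refine ⟨⟨⟨-u, by rw [map_neg, hu]⟩, ⟨-v, by rw [map_neg, hv]⟩⟩, ?_⟩
    simp only [neg_smul, neg_add]
  have hdet := det2 y
  have hCH : y.1 * y.1 = (y 0 0 + y 1 1) • y.1 - 1 := by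
    ext i j
    fin_cases i <;> fin_cases j <;>
      simp [Matrix.mul_apply, Fin.sum_univ_two] <;> first | linear_combination -hdet | ring
  have hpow : ∀ n : ℕ, (y ^ n).1 ∈ W := by
    intro n
    induction n with
    | zero => exact ⟨⟨⟨1, map_one σ⟩, ⟨0, map_zero σ⟩⟩, by simp⟩
    | succ n ih =>
      obtain ⟨⟨⟨u, hu⟩, ⟨v, hv⟩⟩, h⟩ := ih
      refine ⟨⟨⟨-v, by rw [map_neg, hv]⟩, ⟨u + v * (y 0 0 + y 1 1), by rw [map_add, map_mul, hu, hv, hfix]⟩⟩, ?_⟩
      have h1 : (y ^ (n + 1)).1 = (y ^ n).1 * y.1 := by rw [pow_succ]; rfl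
      rw [h1, ← h]
      change -v • (1 : Matrix (Fin 2) (Fin 2) F) + (u + v * (y 0 0 + y 1 1)) • y.1 = (u • 1 + v • y.1) * y.1
      rw [add_mul, smul_mul_assoc, smul_mul_assoc, one_mul, hCH, smul_sub, smul_smul, add_smul, neg_smul]
      abel
  have hzp : ∀ z ∈ zpowers y, z.1 ∈ W := by
    intro z hz
    obtain ⟨n, rfl⟩ := mem_powers_iff_mem_zpowers.2 hz
    exact hpow n
  have hall : ∀ z ∈ zpowers a, z.1 ∈ W := by
    intro z hz
    obtain ⟨n, rfl⟩ := mem_powers_iff_mem_zpowers.2 hz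
    rcases hy with h | h
    · exact hzp _ (pow_mem h n)
    · have h1 := hzp _ (pow_mem h n)
      rcases Nat.even_or_odd n with h2 | h2
      · rw [h2.neg_pow] at h1
        exact h1
      · rw [h2.neg_pow] at h1
        have h3 := hneg _ h1
        have h4 : -(-a ^ n : Matrix.SpecialLinearGroup (Fin 2) F).1 = (a ^ n).1 := by
          rw [show (-a ^ n : Matrix.SpecialLinearGroup (Fin 2) F).1 = -(a ^ n).1 from rfl, neg_neg]
        rw [h4] at h3
        exact h3
  have h1 : Nat.card (zpowers a) ≤ W.ncard := by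
    have h2 : ((fun z : Matrix.SpecialLinearGroup (Fin 2) F => z.1) ''
        (zpowers a : Set (Matrix.SpecialLinearGroup (Fin 2) F))).ncard ≤ W.ncard := by
      refine Set.ncard_le_ncard ?_ (Set.toFinite _)
      rintro _ ⟨z, hz, rfl⟩
      exact hall z hz
    have hinj : Function.Injective (fun z : Matrix.SpecialLinearGroup (Fin 2) F => z.1) :=
      fun _ _ h => Subtype.ext h
    rw [Set.ncard_image_of_injective _ hinj] at h2
    exact h2
  rw [Nat.card_zpowers, ha] at h1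
  omega

/-- **No field automorphism of even order.** -/
theorem no_field [Finite F] (h4 : 4 ≤ Nat.card F) {G : Type u} [Group G] [Finite G]
    {K : Subgroup G} [hK : K.Normal] (hs : IsSimpleGroup ↥K) (hna : ¬ IsMulCommutative ↥K)
    (hc : centralizer (K : Set G) = ⊥) (hcyc : IsCyclic (G ⧸ K))
    (f : Matrix.ProjectiveSpecialLinearGroup (Fin 2) F ≃* ↥K) {𝓐 : Finset (Subgroup G)} (hA : NMC 𝓐) :
    Odd K.index := by
  have := Fintype.ofFinite F
  obtain ⟨p, hp⟩ := CharP.exists F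
  have hpf : Fact p.Prime := ⟨CharP.char_is_prime F p⟩
  by_contra hodd
  rw [Nat.not_odd_iff_even, even_iff_two_dvd] at hodd
  obtain ⟨N, hN, hKN, hi⟩ := exists_index_of_cyclic K hcyc Nat.prime_two hodd
  obtain ⟨a, -, ha, -, -, hneg, -, -⟩ := ClassicalGeometry.NonsplitTorus.exists_torus_TI F
  have hne : ∀ {g : G} {A : GL (Fin 2) F} {σ : F ≃+* F}, g ∉ K → act f g = lift (cj A * fld σ) → σ ≠ 1 := by
    rintro g A σ hg h rfl
    rw [map_one, mul_one] at h
    exact hg (no_diag p hs hna hc f hA h)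
  -- the field is a square
  have hsq : ∃ m, Nat.card F = m ^ 2 := by
    have h2f : Fact (Nat.Prime 2) := ⟨Nat.prime_two⟩
    obtain ⟨x, hx⟩ := exists_prime_orderOf_dvd_card' (G := G ⧸ K) 2 hodd
    obtain ⟨g, rfl⟩ := QuotientGroup.mk_surjective x
    have hg : g ∉ K := by
      intro h
      rw [(QuotientGroup.eq_one_iff g).2 h, orderOf_one] at hx
      omega
    have hg2 : g * g ∈ K := by
      have h1 : ((g : G) : G ⧸ K) ^ 2 = 1 := by rw [← hx, pow_orderOf_eq_one]
      rw [← QuotientGroup.mk_pow, QuotientGroup.eq_one_iff, pow_two] at h1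
      exact h1
    obtain ⟨A, σ, hAσ⟩ := surj_two p (act f g)
    have hσ := hne hg hAσ
    obtain ⟨s, hs'⟩ := (act_mem_iff f hc).1 hg2
    obtain ⟨s, rfl⟩ := pr_surjective s
    have h1 : lift (cj (A * Matrix.GeneralLinearGroup.map (σ : F →+* F) A) * fld (σ * σ)) =
        lift (cj (Matrix.SpecialLinearGroup.toGL s) * fld 1) := by
      rw [← cj_fld_mul, ← hAσ, ← map_mul, hs', conj_pr, map_one, mul_one]
    have h2 : σ ^ 2 = 1 := by rw [pow_two]; exact (cj_fld_eq h1).1
    have h3 : orderOf σ = 2 := orderOf_eq_prime h2 hσ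
    obtain ⟨n, -, hn⟩ := FiniteField.card F p
    have h5 := Lib.FieldAutCard.card_ringAut n.pos hn
    have h6 : 2 ∣ (n : ℕ) := by
      rw [← h5, ← h3]
      exact orderOf_dvd_natCard σ
    obtain ⟨m, hm⟩ := h6
    refine ⟨p ^ m, ?_⟩
    rw [Nat.card_eq_fintype_card, hn, hm, ← pow_mul, mul_comm]
  have hcard : Nat.card F = Fintype.card F := Nat.card_eq_fintype_card
  -- the torus
  have hy : (a ∈ zpowers (a ^ 2) ∨ -a ∈ zpowers (a ^ 2)) ∧ ∃ n, Odd n ∧ (a ^ 2) ^ n = 1 := by
    by_cases h2 : (2 : F) = 0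
    · have h3 : ¬ Odd (Fintype.card F) := fun h => (ClassicalGeometry.PSLTorus.two_ne_zero_iff_odd F).2 h h2
      rw [Nat.not_odd_iff_even] at h3
      refine ⟨Or.inl ?_, Fintype.card F + 1, h3.add_one, ?_⟩
      · obtain ⟨k, hk⟩ := h3
        have h5 : a = (a ^ 2) ^ (k + 1) := by
          rw [← pow_mul, show 2 * (k + 1) = orderOf a + 1 by rw [ha]; omega, pow_succ, pow_orderOf_eq_one, one_mul]
        rw [h5]
        exact pow_mem (by
          rw [← h5]
          exact mem_zpowers _) _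
      · rw [← pow_mul, mul_comm, pow_mul, ← ha, pow_orderOf_eq_one, one_pow]
    · have h3 : Odd (Fintype.card F) := (ClassicalGeometry.PSLTorus.two_ne_zero_iff_odd F).1 h2
      obtain ⟨m, hm⟩ := hsq
      rw [hcard] at hm
      have hmo : Odd m := by
        rw [hm] at h3
        exact (Nat.odd_pow_iff two_ne_zero).1 h3
      obtain ⟨k, rfl⟩ := hmo
      have h5 : Fintype.card F + 1 = 2 * (2 * (k * k + k) + 1) := by rw [hm]; ring
      have h6 := ClassicalGeometry.PSLTorus.pow_half h2 a (2 * (k * k + k) + 1) (by rw [ha, h5]) hneg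
      have h7 : -a = (a ^ 2) ^ (k * k + k + 1) := by
        rw [← pow_mul, show 2 * (k * k + k + 1) = (2 * (k * k + k) + 1) + 1 by ring, pow_succ, h6, neg_one_mul]
      refine ⟨Or.inr ?_, 2 * (k * k + k) + 1, ⟨_, rfl⟩, ?_⟩
      · rw [h7]
        exact pow_mem (mem_zpowers _) _
      · rw [← pow_mul, ← h5, ← ha, pow_orderOf_eq_one]
  obtain ⟨hy, n, hn, hyn⟩ := hy
  have hy1 : pr (a ^ 2) ≠ 1 := by
    rw [← map_one pr, Ne, pr_eq_iff]
    intro h
    have h1 : a ^ 4 = 1 := by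
      rw [show 4 = 2 * 2 from rfl, pow_mul]
      rcases h with h | h
      · rw [h, one_pow]
      · rw [h, neg_one_sq]
    have h2 := Nat.le_of_dvd (by norm_num) (orderOf_dvd_of_pow_eq_one h1)
    rw [ha] at h2
    omega
  obtain ⟨h, hhN, -, hh⟩ := hA.exists_outside (no_nilpotent_normal K hs hna hc) N Nat.prime_two hi
    (y := (f (pr (a ^ 2)) : G)) (by
      intro h
      apply hy1
      apply f.injective
      apply Subtype.ext
      rw [h, map_one, coe_one]) (by
      refine Nat.Coprime.coprime_dvd_left (orderOf_dvd_of_pow_eq_one (n := n) ?_) hn.coprime_two_right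
      rw [← SubgroupClass.coe_pow, ← map_pow, ← map_pow, hyn, map_one, map_one, coe_one])
  obtain ⟨B, τ, hB⟩ := surj_two p (act f h)
  have hτ := hne (fun h1 => hhN (hKN h1)) hB
  have h3 := act_comm f hh
  rw [hB, lift_pr, MulAut.mul_apply, pr_eq_iff] at h3
  have h5 : cj B (fld τ (a ^ 2)) = a ^ 2 := by
    rcases h3 with h3 | h3
    · exact h3
    · have h6 : (cj B (fld τ (a ^ 2))) ^ n = 1 := by rw [← map_pow, ← map_pow, hyn, map_one, map_one]
      rw [h3, hn.neg_pow, hyn] at h6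
      rw [h3]
      calc -(a ^ 2) = (-1) * (a ^ 2) := by rw [neg_one_mul]
        _ = a ^ 2 := by rw [h6, one_mul]
  refine trace_not_fixed hτ (by rw [ha, hcard]) hy ?_
  have h6 := tr_cj B (fld τ (a ^ 2))
  rw [h5] at h6
  rw [map_add, h6]
  rfl

end Cfsg.Agent.H480.PslTwo
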