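import Cfsg.Agent.H480.PslTwoC

/-!
# Nilpotent minimal covers: the row `PSL₂(q)` (helper480, S3925, S3926)
-/

set_option autoImplicit false

namespace Cfsg.Agent.H480.PslTwo

open Subgroup Matrix
open Cfsg.Agent.ClassicalGeometry.AutPSL.Root Cfsg.Agent.ClassicalGeometry.AutPSL.Auto
  Cfsg.Agent.ClassicalGeometry.AutPSL.Main
open Cfsg.Agent.ClassicalGeometry.AutPSL.SylowU

universe u v

/-- `p ^ n - 1` a power of two: `n` is a power of two -/
theorem exp_two {p n k : ℕ} (hp : 1 < p) (hn : n ≠ 0) (h : p ^ n - 1 = 2 ^ k) (hk : k ≠ 0) : ∃ j, n = 2 ^ j := by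
  refine ⟨_, Nat.eq_prime_pow_of_unique_prime_dvd hn ?_⟩
  intro r hr hrn
  by_contra hr2
  obtain ⟨m, rfl⟩ := hrn
  have hm : m ≠ 0 := by
    rintro rfl
    exact hn (mul_zero _)
  have hr1 : Odd r := hr.odd_of_ne_two hr2
  have h1 : (p ^ m - 1) ∣ p ^ (r * m) - 1 := by
    rw [mul_comm, pow_mul]
    exact Nat.sub_one_dvd_pow_sub_one _ _
  have h2 : (∑ i ∈ Finset.range r, (p ^ m) ^ i) * (p ^ m - 1) = p ^ (r * m) - 1 := by
    have h3 := Nat.geomSum_eq (m := p ^ m) (Nat.le_self_pow hm p |>.trans' hp) r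
    rw [h3, mul_comm r m, pow_mul]
    refine Nat.div_mul_cancel (Nat.sub_one_dvd_pow_sub_one _ _)
  have hP : 1 < p ^ m := Nat.one_lt_pow hm hp
  have hPo : Odd (p ^ m) := by
    have h4 : Odd (p ^ (r * m)) := by
      have h5 : p ^ (r * m) = 2 ^ k + 1 := by
        have := Nat.one_le_pow (r * m) p (by omega)
        omega
      rw [h5]
      exact (Nat.even_pow.2 ⟨even_two, hk⟩).add_one
    have h6 := (Nat.odd_pow_iff hn).1 h4
    exact h6.pow
  have hodd : Odd (∑ i ∈ Finset.range r, (p ^ m) ^ i) := by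
    rw [Finset.odd_sum_iff_odd_card_odd, Finset.filter_true_of_mem, Finset.card_range]
    · exact hr1
    · intro i _
      exact hPo.pow
  have h7 : (∑ i ∈ Finset.range r, (p ^ m) ^ i) ∣ 2 ^ k := ⟨_, by rw [h2, h]⟩
  obtain ⟨i, -, hi⟩ := (Nat.dvd_prime_pow Nat.prime_two).1 h7
  have hi0 : i = 0 := by
    by_contra h8
    rw [hi] at hodd
    exact absurd hodd (Nat.not_odd_iff_even.2 (Nat.even_pow.2 ⟨even_two, h8⟩))
  rw [hi0, pow_zero] at hi
  have h9 : 1 < ∑ i ∈ Finset.range r, (p ^ m) ^ i := by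
    have h10 : (p ^ m) ^ 1 ≤ ∑ i ∈ Finset.range r, (p ^ m) ^ i :=
      Finset.single_le_sum (f := fun i => (p ^ m) ^ i) (fun _ _ => Nat.zero_le _)
        (Finset.mem_range.2 hr.one_lt)
    rw [pow_one] at h10
    omega
  omega

variable {F : Type v} [Field F]

theorem row_psl_two [Finite F] (h4 : 4 ≤ Nat.card F) : Row.{u} (Matrix.ProjectiveSpecialLinearGroup (Fin 2) F) := by
  intro G _ _ K hK hs hna hc hcyc f 𝓐 hA
  have := Fintype.ofFinite F
  obtain ⟨p, hp⟩ := CharP.exists F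
  have hpf : Fact p.Prime := ⟨CharP.char_is_prime F p⟩
  have hodd := no_field h4 hs hna hc hcyc f hA
  have hcop : ∀ g : G, (∃ k : ℕ, g ^ 2 ^ k ∈ K) → g ∈ K := by
    rintro g ⟨k, hk⟩
    have h1 : ((g : G) : G ⧸ K) ^ 2 ^ k = 1 := by
      rw [← QuotientGroup.mk_pow]
      exact (QuotientGroup.eq_one_iff _).2 hk
    have h2 : ((g : G) : G ⧸ K) ^ K.index = 1 := by
      rw [Subgroup.index]
      exact pow_card_eq_one'
    have h3 := Nat.dvd_gcd (orderOf_dvd_of_pow_eq_one h1) (orderOf_dvd_of_pow_eq_one h2)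
    rw [Nat.Coprime.gcd_eq_one (Nat.Coprime.pow_left k hodd.coprime_two_left)] at h3
    exact (QuotientGroup.eq_one_iff g).1 (orderOf_eq_one_iff.1 (Nat.dvd_one.1 h3))
  by_cases hr : ∃ r : ℕ, r.Prime ∧ r ≠ 2 ∧ r ∣ Nat.card Fˣ
  · obtain ⟨r, hr, hr2, hrd⟩ := hr
    have hfr : Fact r.Prime := ⟨hr⟩
    refine (pair_psl p hr2 hrd).not_nmc f ?_ hA
    rintro g ⟨k, hk⟩
    exact hcop g ⟨k, by rw [hk]; exact K.one_mem⟩
  · have hcard : Nat.card Fˣ = Nat.card F - 1 := Nat.card_units F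
    have hFF : Nat.card F = Fintype.card F := Nat.card_eq_fintype_card
    obtain ⟨k, hk⟩ : ∃ k, Nat.card Fˣ = 2 ^ k := by
      refine ⟨_, Nat.eq_prime_pow_of_unique_prime_dvd ?_ ?_⟩
      · omega
      · intro d hd hdd
        by_contra hd2
        exact hr ⟨d, hd, hd2, hdd⟩
    have hk0 : k ≠ 0 := by
      rintro rfl
      rw [pow_zero] at hk
      omega
    have hF5 : 5 ≤ Fintype.card F := by
      by_contra h5
      have h6 : Nat.card F = 4 := by omega
      rw [hcard, h6] at hk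
      have h7 : Even (2 ^ k) := Nat.even_pow.2 ⟨even_two, hk0⟩
      rw [← hk] at h7
      exact absurd h7 (by decide)
    have hkF : Fintype.card F - 1 = 2 ^ k := by rw [← hFF, ← hcard, hk]
    obtain ⟨n, -, hn⟩ := FiniteField.card F p
    obtain ⟨j, hj⟩ := exp_two hpf.1.one_lt n.pos.ne' (hn ▸ hkF) hk0
    have hKt : ∀ g : G, g ∈ K := by
      intro g
      obtain ⟨A, σ, hAσ⟩ := surj_two p (act f g)
      have h1 : ∀ m : ℕ, ∃ B : GL (Fin 2) F, act f (g ^ m) = lift (cj B * fld (σ ^ m)) := by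
        intro m
        induction m with
        | zero => exact ⟨1, by simp⟩
        | succ m ih =>
          obtain ⟨B, hB⟩ := ih
          exact ⟨_, by rw [pow_succ, map_mul, hB, hAσ, cj_fld_mul, pow_succ]⟩
      obtain ⟨B, hB⟩ := h1 n
      have h2 : σ ^ (n : ℕ) = 1 := by
        have h5 := Lib.FieldAutCard.card_ringAut n.pos hn
        rw [← h5]
        exact pow_card_eq_one'
      rw [h2, map_one, mul_one] at hB
      have h3 := no_diag p hs hna hc f hA hB
      exact hcop g ⟨j, by rw [← hj]; exact h3⟩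
    have hKT : K = ⊤ := by
      rw [eq_top_iff]
      intro g _
      exact hKt g
    obtain ⟨𝓑, hB⟩ := hA.congr ((Subgroup.topEquiv.symm.trans (MulEquiv.subgroupCongr hKT.symm)).trans f.symm)
    exact not_nmc_psl hkF hF5 hB

end Cfsg.Agent.H480.PslTwo
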