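import Cfsg.Agent.H480.Prime
import Cfsg.Agent.H480.RowPslTwo
import Cfsg.Agent.H480.Three
import Cfsg.Agent.S0255
import Cfsg.Agent.ClassicalGeometry.PSL2Basic
import Cfsg.Agent.Lib.FieldAutCard

/-!
# Nilpotent minimal covers: `PSL₃(q)` (helper480, S3925, S3926)
-/

set_option autoImplicit false

namespace Cfsg.Agent.H480.PslThree

open Subgroup Matrix
open Cfsg.Agent.ClassicalGeometry.AutPSL.Root Cfsg.Agent.ClassicalGeometry.AutPSL.Auto
  Cfsg.Agent.ClassicalGeometry.AutPSL.Main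

universe u v

variable {F : Type v} [Field F]

/-- block matrices -/
def bl (Z : Matrix (Fin 2) (Fin 2) F) : Matrix (Fin 3) (Fin 3) F := !![Z 0 0, Z 0 1, 0; Z 1 0, Z 1 1, 0; 0, 0, 1]

theorem bl_mul (Z W : Matrix (Fin 2) (Fin 2) F) : bl Z * bl W = bl (Z * W) := by
  ext i j
  fin_cases i <;> fin_cases j <;> simp [bl, Matrix.mul_apply, Fin.sum_univ_three, Fin.sum_univ_two]

theorem bl_one : bl (1 : Matrix (Fin 2) (Fin 2) F) = 1 := by
  ext i j
  fin_cases i <;> fin_cases j <;> simp [bl]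

theorem det_bl (Z : Matrix (Fin 2) (Fin 2) F) : (bl Z).det = Z.det := by
  rw [det_fin_three, det_fin_two]
  simp [bl]

/-- the block embedding -/
def blh : Matrix.SpecialLinearGroup (Fin 2) F →* Matrix.SpecialLinearGroup (Fin 3) F where
  toFun Z := ⟨bl Z.1, by rw [det_bl]; exact Z.2⟩
  map_one' := Subtype.ext bl_one
  map_mul' Z W := Subtype.ext (bl_mul Z.1 W.1).symm

theorem blh_coe (Z : Matrix.SpecialLinearGroup (Fin 2) F) : (blh Z).1 = bl Z.1 := rfl

/-- matrices intertwining block matrices are block matrices -/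
theorem block_of_comm {A : Matrix (Fin 3) (Fin 3) F} {X X' : Matrix (Fin 2) (Fin 2) F}
    (hX : (X 0 0 - 1) * (X 1 1 - 1) - X 0 1 * X 1 0 ≠ 0) (hX' : (X' 0 0 - 1) * (X' 1 1 - 1) - X' 0 1 * X' 1 0 ≠ 0)
    (h : A * bl X' = bl X * A) : A 0 2 = 0 ∧ A 1 2 = 0 ∧ A 2 0 = 0 ∧ A 2 1 = 0 := by
  have h' := fun i j => congrFun (congrFun h i) j
  simp only [bl, Matrix.mul_apply, Fin.sum_univ_three] at h'
  have h02 := h' 0 2
  have h12 := h' 1 2
  have h20 := h' 2 0
  have h21 := h' 2 1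
  simp at h02 h12 h20 h21
  refine ⟨?_, ?_, ?_, ?_⟩
  · refine (mul_eq_zero.1 (?_ : ((X 0 0 - 1) * (X 1 1 - 1) - X 0 1 * X 1 0) * A 0 2 = 0)).resolve_left hX
    linear_combination -(X 1 1 - 1) * h02 + X 0 1 * h12
  · refine (mul_eq_zero.1 (?_ : ((X 0 0 - 1) * (X 1 1 - 1) - X 0 1 * X 1 0) * A 1 2 = 0)).resolve_left hX
    linear_combination -(X 0 0 - 1) * h12 + X 1 0 * h02
  · refine (mul_eq_zero.1 (?_ : ((X' 0 0 - 1) * (X' 1 1 - 1) - X' 0 1 * X' 1 0) * A 2 0 = 0)).resolve_left hX'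
    linear_combination (X' 1 1 - 1) * h20 - X' 1 0 * h21
  · refine (mul_eq_zero.1 (?_ : ((X' 0 0 - 1) * (X' 1 1 - 1) - X' 0 1 * X' 1 0) * A 2 1 = 0)).resolve_left hX'
    linear_combination (X' 0 0 - 1) * h21 - X' 0 1 * h20

/-- conjugates of block matrices -/
theorem mem_range_of_block {A : GL (Fin 3) F} {Z : Matrix.SpecialLinearGroup (Fin 2) F}
    (h : A 0 2 = 0 ∧ A 1 2 = 0 ∧ A 2 0 = 0 ∧ A 2 1 = 0) : cj A (blh Z) ∈ (blh (F := F)).range := by
  obtain ⟨h02, h12, h20, h21⟩ := h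
  have hdet : (A : Matrix (Fin 3) (Fin 3) F).det ≠ 0 := ((Matrix.isUnit_iff_isUnit_det _).1 A.isUnit).ne_zero
  rw [det_fin_three] at hdet
  have h22 : A 2 2 ≠ 0 := by
    intro h
    apply hdet
    rw [h, h20, h21]
    ring
  set W := cj A (blh Z) with hW
  have h1 : W.1 * (A : Matrix (Fin 3) (Fin 3) F) = (A : Matrix (Fin 3) (Fin 3) F) * bl Z.1 := by
    have h2 : W.1 = (A : Matrix (Fin 3) (Fin 3) F) * bl Z.1 * ((A⁻¹ : GL (Fin 3) F) : Matrix (Fin 3) (Fin 3) F) := rfl
    rw [h2, mul_assoc _ _ (A : Matrix (Fin 3) (Fin 3) F), ← Units.val_mul, inv_mul_cancel, Units.val_one, mul_one]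
  have h' := fun i j => congrFun (congrFun h1 i) j
  simp only [bl, Matrix.mul_apply, Fin.sum_univ_three] at h'
  have k02 := h' 0 2
  have k12 := h' 1 2
  have k22 := h' 2 2
  have k20 := h' 2 0
  have k21 := h' 2 1
  simp [h02, h12, h20, h21] at k02 k12 k22 k20 k21
  have w02 : W.1 0 2 = 0 := k02.resolve_right h22
  have w12 : W.1 1 2 = 0 := k12.resolve_right h22
  have w22 : W.1 2 2 = 1 := by
    have : (W.1 2 2 - 1) * A 2 2 = 0 := by linear_combination k22
    exact sub_eq_zero.1 ((mul_eq_zero.1 this).resolve_right h22)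
  have hd : A 0 0 * A 1 1 - A 0 1 * A 1 0 ≠ 0 := by
    intro h
    apply hdet
    rw [h02, h12, h20, h21]
    linear_combination A 2 2 * h
  have w20 : W.1 2 0 = 0 := by
    have : (A 0 0 * A 1 1 - A 0 1 * A 1 0) * W.1 2 0 = 0 := by linear_combination A 1 1 * k20 - A 1 0 * k21
    exact (mul_eq_zero.1 this).resolve_left hd
  have w21 : W.1 2 1 = 0 := by
    have : (A 0 0 * A 1 1 - A 0 1 * A 1 0) * W.1 2 1 = 0 := by linear_combination A 0 0 * k21 - A 0 1 * k20
    exact (mul_eq_zero.1 this).resolve_left hd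
  have hb : W.1 = bl !![W.1 0 0, W.1 0 1; W.1 1 0, W.1 1 1] := by
    ext i j
    fin_cases i <;> fin_cases j <;> simp [bl, w02, w12, w20, w21, w22]
  refine ⟨⟨!![W.1 0 0, W.1 0 1; W.1 1 0, W.1 1 1], ?_⟩, Subtype.ext hb.symm⟩
  rw [← det_bl, ← hb]
  exact W.2

/-- automorphisms fixing an element of order five in the block subgroup leave the block subgroup invariant -/
theorem aut_inv [Fintype F] {X : Matrix.SpecialLinearGroup (Fin 2) F} (hX5 : X ^ 5 = 1)
    (hX : X 0 0 + X 1 1 ≠ 2) (α : MulAut (Matrix.ProjectiveSpecialLinearGroup (Fin 3) F))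
    (hα : α (pr (blh X)) = pr (blh X)) : ∀ y ∈ (pr.comp (blh (F := F))).range, α y ∈ (pr.comp (blh (F := F))).range := by
  obtain ⟨p, hp⟩ := CharP.exists F
  have hpf : Fact p.Prime := ⟨CharP.char_is_prime F p⟩
  -- the common argument
  have key : ∀ (A : GL (Fin 3) F) (τ : MulAut (Matrix.SpecialLinearGroup (Fin 2) F)),
      (∀ Z, (τ Z) 0 0 + (τ Z) 1 1 ≠ 2 ↔ Z 0 0 + Z 1 1 ≠ 2) → pr (cj A (blh (τ X))) = pr (blh X) →
      ∀ Z, pr (cj A (blh (τ Z))) ∈ (pr.comp (blh (F := F))).range := by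
    intro A τ hτ h Z
    obtain ⟨c, hc⟩ := exists_smul_of_pr_eq h
    have hc3 : c ^ 3 = 1 := by
      have h2 := (blh X).2
      rw [hc, det_smul, (cj A (blh (τ X))).2, Fintype.card_fin, mul_one] at h2
      exact h2
    have hc5 : c ^ 5 = 1 := by
      have h1 : (blh X) ^ 5 = 1 := by rw [← map_pow, hX5, map_one]
      have h2 : (cj A (blh (τ X))) ^ 5 = 1 := by
        rw [← map_pow, ← map_pow, ← map_pow, hX5, map_one, map_one, map_one]
      have h3 : (blh X).1 ^ 5 = 1 := by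
        rw [← Matrix.SpecialLinearGroup.coe_pow (blh X) 5, h1]
        rfl
      have h4 : (cj A (blh (τ X))).1 ^ 5 = 1 := by
        rw [← Matrix.SpecialLinearGroup.coe_pow (cj A (blh (τ X))) 5, h2]
        rfl
      rw [hc, smul_pow, h4] at h3
      have h5 := congrFun (congrFun h3 0) 0
      simpa using h5
    have hc1 : c = 1 := by
      have h6 : c ^ 6 = 1 := by rw [show 6 = 3 * 2 from rfl, pow_mul, hc3, one_pow]
      rw [pow_succ, hc5, one_mul] at h6
      exact h6
    rw [hc1, one_smul] at hc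
    have h1 : (A : Matrix (Fin 3) (Fin 3) F) * bl (τ X).1 = bl X.1 * (A : Matrix (Fin 3) (Fin 3) F) := by
      have h2 : (cj A (blh (τ X))).1 = (A : Matrix (Fin 3) (Fin 3) F) * bl (τ X).1 *
        ((A⁻¹ : GL (Fin 3) F) : Matrix (Fin 3) (Fin 3) F) := rfl
      have h3 : (blh X).1 = bl X.1 := rfl
      rw [← h3, hc, h2, mul_assoc _ _ (A : Matrix (Fin 3) (Fin 3) F), ← Units.val_mul, inv_mul_cancel,
        Units.val_one, mul_one]
    have hdet : ∀ Z : Matrix.SpecialLinearGroup (Fin 2) F, Z 0 0 + Z 1 1 ≠ 2 →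
        (Z.1 0 0 - 1) * (Z.1 1 1 - 1) - Z.1 0 1 * Z.1 1 0 ≠ 0 := by
      intro Z hZ h
      apply hZ
      have h2 := PslTwo.det2 Z
      linear_combination h2 - h
    obtain ⟨W, hW⟩ := mem_range_of_block (Z := τ Z) (block_of_comm (hdet X hX) (hdet (τ X) ((hτ X).2 hX)) h1)
    exact ⟨W, by rw [MonoidHom.comp_apply, hW]⟩
  rintro _ ⟨Z, rfl⟩
  rw [MonoidHom.comp_apply]
  have hfld : ∀ (σ : F ≃+* F) (Z : Matrix.SpecialLinearGroup (Fin 2) F), fld σ (blh Z) = blh (fld σ Z) := by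
    intro σ Z
    ext i j
    change σ (bl Z.1 i j) = bl (fld σ Z).1 i j
    have h1 : ∀ i j, (fld σ Z).1 i j = σ (Z.1 i j) := fun i j => rfl
    fin_cases i <;> fin_cases j <;> simp [bl, h1]
  have hitr : ∀ (Z : Matrix.SpecialLinearGroup (Fin 2) F), itr (blh Z) = blh (itr Z) := by
    intro Z
    apply Subtype.ext
    rw [coe_itr, ← map_inv]
    ext i j
    change bl (Z⁻¹).1 j i = bl (itr Z).1 i j
    have h1 : ∀ i j, (itr Z).1 i j = (Z⁻¹).1 j i := fun i j => rfl
    fin_cases i <;> fin_cases j <;> simp [bl, h1]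
  rcases surj_three p le_rfl α with ⟨A, σ, rfl⟩ | ⟨A, σ, rfl⟩
  · rw [lift_pr, MulAut.mul_apply, hfld] at hα ⊢
    refine key A (fld σ) ?_ hα Z
    intro Z
    rw [coe_fld_apply, coe_fld_apply, ← map_add, Ne, Ne, not_iff_not]
    constructor
    · intro h
      apply σ.injective
      rw [h, map_ofNat]
    · intro h
      rw [h, map_ofNat]
  · rw [lift_pr, MulAut.mul_apply, MulAut.mul_apply, hitr, hfld] at hα ⊢
    obtain ⟨τ, hτ⟩ : ∃ τ : MulAut (Matrix.SpecialLinearGroup (Fin 2) F), ∀ Z, τ Z = fld σ (itr Z) :=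
      ⟨fld σ * itr, fun Z => rfl⟩
    rw [← hτ] at hα ⊢
    refine key A τ ?_ hα Z
    intro Z
    rw [hτ, coe_fld_apply, coe_fld_apply, ← map_add, Ne, Ne, not_iff_not, coe_itr]
    have h1 : (Z⁻¹ : Matrix.SpecialLinearGroup (Fin 2) F).1ᵀ 0 0 + (Z⁻¹ : Matrix.SpecialLinearGroup (Fin 2) F).1ᵀ 1 1 =
        Z 0 0 + Z 1 1 := by
      rw [transpose_apply, transpose_apply]
      have h2 := PslTwo.inv00 Z
      have h3 := PslTwo.inv11 Z
      rw [h2, h3, add_comm]
    rw [h1]
    constructor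
    · intro h
      apply σ.injective
      rw [h, map_ofNat]
    · intro h
      rw [h, map_ofNat]

theorem row_four [Fintype F] (hF : Fintype.card F = 4) : Row.{u} (Matrix.ProjectiveSpecialLinearGroup (Fin 3) F) := by
  intro G _ _ K hK hs hna hc hcyc f 𝓐 hA
  have hf2 : Fact (Nat.Prime 2) := ⟨Nat.prime_two⟩
  have hch : CharP F 2 := by
    obtain ⟨p, hp⟩ := CharP.exists F
    have hpf : p.Prime := CharP.char_is_prime F p
    obtain ⟨n, -, hn⟩ := FiniteField.card F p
    have h1 : p ∣ 4 := by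
      rw [← hF, hn]
      exact dvd_pow_self p n.pos.ne'
    have h2 : p = 2 := (Nat.prime_dvd_prime_iff_eq hpf Nat.prime_two).1 (hpf.dvd_of_dvd_pow (show p ∣ 2 ^ 2 from h1))
    rw [← h2]
    exact hp
  have h2 : (2 : F) = 0 := CharTwo.two_eq_zero
  have hneg : (-1 : F) = 1 := by linear_combination -h2
  -- a cube root of unity
  obtain ⟨w, hw⟩ : ∃ w : F, w ^ 2 = w + 1 := by
    obtain ⟨w, hw⟩ := exists_prime_orderOf_dvd_card' (G := Fˣ) 3 (by
      rw [Nat.card_units, Nat.card_eq_fintype_card, hF])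
    have h3 : (w : F) ^ 3 = 1 := by
      rw [← Units.val_pow_eq_pow_val, ← hw, pow_orderOf_eq_one, Units.val_one]
    have h1 : (w : F) ≠ 1 := by
      intro h
      have hw1 : w = 1 := Units.ext h
      rw [hw1, orderOf_one] at hw
      omega
    refine ⟨w, ?_⟩
    have h4 : ((w : F) - 1) * ((w : F) ^ 2 + w + 1) = 0 := by linear_combination h3
    have h5 := (mul_eq_zero.1 h4).resolve_left (sub_ne_zero.2 h1)
    linear_combination h5 - (w + 1) * h2
  have hw0 : w ≠ 0 := by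
    rintro rfl
    apply one_ne_zero (α := F)
    linear_combination -hw
  have hw1 : w ≠ 1 := by
    rintro rfl
    apply one_ne_zero (α := F)
    linear_combination -hw
  obtain ⟨X, hX⟩ : ∃ X : Matrix.SpecialLinearGroup (Fin 2) F, X.1 = !![0, 1; 1, w] :=
    ⟨⟨!![0, 1; 1, w], by rw [det_fin_two]; simp [hneg]⟩, rfl⟩
  have hX2 : (X ^ 2).1 = !![1, w; w, w] := by
    have h3 : (X ^ 2).1 = X.1 * X.1 := by rw [pow_two]; rfl
    rw [h3, hX]
    ext i j
    fin_cases i <;> fin_cases j <;> simp [Matrix.mul_apply, Fin.sum_univ_two]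
    linear_combination hw + h2
  have hX3 : (X ^ 3).1 = !![w, w; w, 1] := by
    have h3 : (X ^ 3).1 = (X ^ 2).1 * X.1 := by rw [pow_succ]; rfl
    rw [h3, hX2, hX]
    ext i j
    fin_cases i <;> fin_cases j <;> simp [Matrix.mul_apply, Fin.sum_univ_two]
    · linear_combination hw + h2
    · linear_combination hw + w * h2
  have hX4 : (X ^ 4).1 = !![w, 1; 1, 0] := by
    have h3 : (X ^ 4).1 = (X ^ 3).1 * X.1 := by rw [pow_succ]; rfl
    rw [h3, hX3, hX]
    ext i j
    fin_cases i <;> fin_cases j <;> simp [Matrix.mul_apply, Fin.sum_univ_two]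
    · linear_combination hw + w * h2
    · linear_combination w * h2
  have hX5 : X ^ 5 = 1 := by
    apply Subtype.ext
    have h3 : (X ^ 5).1 = (X ^ 4).1 * X.1 := by rw [pow_succ]; rfl
    rw [h3, hX4, hX]
    ext i j
    fin_cases i <;> fin_cases j <;> simp [Matrix.mul_apply, Fin.sum_univ_two]
    linear_combination w * h2
  set θ : Matrix.SpecialLinearGroup (Fin 2) F →* Matrix.ProjectiveSpecialLinearGroup (Fin 3) F := pr.comp blh with hθ
  have hθi : ∀ A B : Matrix.SpecialLinearGroup (Fin 2) F, θ A = θ B → A.1 = B.1 := by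
    intro A B h
    obtain ⟨c, hc⟩ := exists_smul_of_pr_eq h
    have h22 := congrFun (congrFun hc 2) 2
    rw [blh_coe, blh_coe] at hc
    have k22 := congrFun (congrFun hc 2) 2
    simp [bl] at k22
    rw [← k22, one_smul] at hc
    ext i j
    fin_cases i <;> fin_cases j
    · simpa [bl] using (congrFun (congrFun hc 0) 0).symm
    · simpa [bl] using (congrFun (congrFun hc 0) 1).symm
    · simpa [bl] using (congrFun (congrFun hc 1) 0).symm
    · simpa [bl] using (congrFun (congrFun hc 1) 1).symm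
  have hx : orderOf (θ X) = 5 := by
    have h5 : Nat.Prime 5 := by norm_num
    have : Fact (Nat.Prime 5) := ⟨h5⟩
    refine orderOf_eq_prime ?_ ?_
    · rw [← map_pow, hX5, map_one]
    · intro h
      have h3 := hθi X 1 (by rw [h, map_one])
      rw [hX] at h3
      have h4 := congrFun (congrFun h3 0) 0
      simp at h4
  refine hA.not_of_prime_aut hs hc f (p := 5) (by norm_num) hx ?_ θ.range ?_ (fun α hα => aut_inv hX5 ?_ α hα)
    (m := θ (uu F)) ⟨_, rfl⟩ ?_
  · rw [card_three 2 le_rfl, Lib.FieldAutCard.card_ringAut (p := 2) (f := 2) (by norm_num) (by rw [hF]; norm_num)]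
    have h3 := ClassicalGeometry.PSL2Basic.card_PGL_mul (Fin 3) F
    rw [Matrix.card_GL_field, hF, Fin.prod_univ_three] at h3
    norm_num at h3
    have h4 : Nat.card (Matrix.ProjGenLinGroup (Fin 3) F) = 60480 := by omega
    rw [h4]
    norm_num
  · intro h
    obtain ⟨T, hT⟩ : ∃ T : Matrix.SpecialLinearGroup (Fin 3) F, T.1 = !![1, 0, 1; 0, 1, 0; 0, 0, 1] :=
      ⟨⟨!![1, 0, 1; 0, 1, 0; 0, 0, 1], by rw [det_fin_three]; simp⟩, rfl⟩
    have h3 : pr T ∈ θ.range := by rw [h]; exact mem_top _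
    obtain ⟨Z, hZ⟩ := h3
    obtain ⟨c, hc⟩ := exists_smul_of_pr_eq hZ
    rw [hT, blh_coe] at hc
    have h4 := congrFun (congrFun hc 0) 2
    simp [bl] at h4
  · have h3 : X 0 0 = 0 := by
      rw [hX]; simp
    have h4 : X 1 1 = w := by
      rw [hX]; simp
    rw [h3, h4, zero_add, h2]
    exact hw0
  · rw [← map_inv, ← map_mul, ← map_mul]
    intro h
    obtain ⟨k, hk⟩ := mem_powers_iff_mem_zpowers.2 h
    have hk' : θ (X ^ (k % 5)) = θ (uu F * X * (uu F)⁻¹) := by
      rw [← hk]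
      have h3 : X ^ (k % 5) = X ^ k := by
        conv_rhs => rw [← Nat.div_add_mod k 5, pow_add, pow_mul, hX5, one_pow, one_mul]
      rw [h3, map_pow]
    have h3 := hθi _ _ hk'
    have h4 : (uu F * X * (uu F)⁻¹).1 = !![1, w; 1, 1 + w] := by
      have h5 : (uu F * X * (uu F)⁻¹).1 = !![1, 1; 0, 1] * X.1 * (uu F)⁻¹.1 := rfl
      have h6 : (uu F)⁻¹.1 = !![1, -1; 0, 1] := by
        rw [Matrix.SpecialLinearGroup.coe_inv, uu_coe, adjugate_fin_two]
        simp
      rw [h5, hX, h6, hneg]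
      ext i j
      fin_cases i <;> fin_cases j <;> simp [Matrix.mul_apply, Fin.sum_univ_two]
      linear_combination h2
    rw [h4] at h3
    have h5 : k % 5 < 5 := Nat.mod_lt _ (by norm_num)
    interval_cases k % 5
    · rw [pow_zero] at h3
      have h6 := congrFun (congrFun h3 1) 0
      simp at h6
    · rw [pow_one, hX] at h3
      have h6 := congrFun (congrFun h3 0) 0
      simp at h6
    · rw [hX2] at h3
      have h6 := congrFun (congrFun h3 1) 0
      simp at h6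
      exact hw1 h6
    · rw [hX3] at h3
      have h6 := congrFun (congrFun h3 1) 0
      simp at h6
      exact hw1 h6
    · rw [hX4] at h3
      have h6 := congrFun (congrFun h3 0) 0
      simp at h6
      exact hw1 h6

theorem row_psl_three [Finite F] : Row.{u} (Matrix.ProjectiveSpecialLinearGroup (Fin 3) F) := by
  have := Fintype.ofFinite F
  obtain ⟨p, hp⟩ := CharP.exists F
  have hpf : Fact p.Prime := ⟨CharP.char_is_prime F p⟩
  have hFF : Nat.card F = Fintype.card F := Nat.card_eq_fintype_card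
  by_cases h : 1 < (Nat.card F - 1) / Nat.gcd (Nat.card F - 1) 3
  · exact Row.of_kill (Three.kill_PSL p h)
  · have h1 : 1 < Fintype.card F := Fintype.one_lt_card
    have h2 : Nat.gcd (Nat.card F - 1) 3 ∣ 3 := Nat.gcd_dvd_right _ _
    have h3 : Nat.card F = 2 ∨ Nat.card F = 4 := by
      rcases (Nat.dvd_prime Nat.prime_three).1 h2 with h4 | h4
      · rw [h4, Nat.div_one] at h
        omega
      · obtain ⟨c, hc⟩ : 3 ∣ Nat.card F - 1 := by
          rw [← h4]
          exact Nat.gcd_dvd_left _ _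
        rw [h4, hc, Nat.mul_div_cancel_left _ (by norm_num)] at h
        omega
    rcases h3 with h3 | h3
    · have h7 : Fact (Nat.Prime 7) := ⟨by norm_num⟩
      obtain ⟨e⟩ := S0255.result (F := ZMod 7) (K := F) (by simp [ZMod.card]) (by rw [← hFF, h3])
      exact Row.congr e (PslTwo.row_psl_two (by rw [Nat.card_zmod]; norm_num))
    · exact row_four (by rw [← hFF, h3])

end Cfsg.Agent.H480.PslThree
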