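import Cfsg.Agent.H480.Row
import Cfsg.Agent.H480.KillHom
import Cfsg.Agent.LieRecognition.ReeFinal
import Cfsg.Agent.H363.PSL2Spec
import Cfsg.Agent.TwoFusion.SLTwoFacts

/-!
# Nilpotent minimal covers: the small Ree groups (helper480, S3925, S3926)
-/

set_option autoImplicit false

namespace Cfsg.Agent.H480

open Subgroup Cfsg.Agent.LieRecognition

universe u v

/-- simple nonabelian groups have no nontrivial nilpotent normal subgroups -/
theorem not_nilpotent_of_simple {X : Type*} [Group X] [IsSimpleGroup X] (h : ∃ a b : X, a * b ≠ b * a)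
    (N : Subgroup X) (hN : N.Normal) (h1 : N ≠ ⊥) : ¬ Group.IsNilpotent ↥N := by
  intro hn
  have h2 : N = ⊤ := (hN.eq_bot_or_eq_top).resolve_left h1
  subst h2
  have h3 : Group.IsNilpotent X := Group.nilpotent_of_mulEquiv (_h := hn) Subgroup.topEquiv
  obtain ⟨a, b, hab⟩ := h
  exact hab (IsSimpleGroup.comm_iff_isSolvable.2 inferInstance a b)

theorem kill_ree {K : Type*} [Field K] [Fintype K] {m : ℕ} (hm : 1 ≤ m) (hK : Fintype.card K = 3 ^ (2 * m + 1)) :
    Kill ↥(Cfsg.Lie.twistedG2 K (3 ^ m)) := by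
  have hch : CharP K 3 := ReeAbs.charP_three hK
  have hf3 : Fact (Nat.Prime 3) := ⟨Nat.prime_three⟩
  have D := ReeFinal.data hK
  obtain ⟨e⟩ := D.centralizer_iso hK
  have hz1 := D.inv_ne_one hK
  have hz2 := D.inv_sq
  have hz : orderOf (ReeData.h hK (-1)) = 2 := orderOf_eq_prime (by rw [pow_two]; exact hz2) hz1
  -- the field
  have hmod := ReeAbs.card_mod_four hK
  have h27 : 27 ≤ Fintype.card K := by
    rw [hK]
    calc 27 = 3 ^ 3 := by norm_num
      _ ≤ 3 ^ (2 * m + 1) := Nat.pow_le_pow_right (by norm_num) (by omega)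
  obtain ⟨r, hr, hrd⟩ := Nat.exists_prime_and_dvd (n := (Fintype.card K - 1) / 2) (by omega)
  have hro : r ≠ 2 := by
    rintro rfl
    omega
  have hfr : Fact r.Prime := ⟨hr⟩
  have hgcd : Nat.gcd 2 (Fintype.card K - 1) = 2 := Nat.gcd_eq_left (by omega)
  have hs := TwoFusion.SLTwoFacts.isSimpleGroup_psl (F := K) (by omega)
  obtain ⟨g0, hg0⟩ := H363.PSL2Spec.exists_split (F := K) rfl
  rw [hgcd] at hg0
  have hrX : r ∣ Nat.card (Matrix.ProjectiveSpecialLinearGroup (Fin 2) K) :=
    (hrd.trans (by rw [← hg0])).trans (orderOf_dvd_natCard g0)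
  have hC : ∀ a b : Matrix.ProjectiveSpecialLinearGroup (Fin 2) K, orderOf a = r → orderOf b = 2 →
      a * b ≠ b * a := by
    intro a b ha hb hab
    have h1 : orderOf (a * b) = r * 2 := by
      rw [(show Commute a b from hab).orderOf_mul_eq_mul_orderOf_of_coprime, ha, hb]
      rw [ha, hb]
      exact (Nat.coprime_primes hr Nat.prime_two).2 hro
    rcases H363.PSL2Spec.orderOf_cases (F := K) rfl 3 (a * b) with h2 | h2 | h2
    · rw [h1, hgcd] at h2
      have h3 : r ∣ (Fintype.card K + 1) := by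
        have h4 : r ∣ (Fintype.card K + 1) / 2 := (Dvd.intro _ rfl).trans h2
        exact h4.trans (Nat.div_dvd_of_dvd (by omega))
      have h4 : r ∣ Fintype.card K - 1 := hrd.trans (Nat.div_dvd_of_dvd (by omega))
      have h5 : r ∣ (Fintype.card K + 1) - (Fintype.card K - 1) := Nat.dvd_sub h3 h4
      have h6 : (Fintype.card K + 1) - (Fintype.card K - 1) = 2 := by omega
      rw [h6] at h5
      exact hro ((Nat.prime_dvd_prime_iff_eq hr Nat.prime_two).1 h5)
    · rw [h1, hgcd] at h2
      have h3 : 2 ∣ (Fintype.card K - 1) / 2 := (Dvd.intro_left _ rfl).trans h2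
      omega
    · rw [h1] at h2
      have h3 : 2 ∣ 3 := (Dvd.intro_left _ rfl).trans h2
      omega
  have hab : ∃ a b : Matrix.ProjectiveSpecialLinearGroup (Fin 2) K, a * b ≠ b * a := by
    obtain ⟨a, ha⟩ := exists_prime_orderOf_dvd_card' (G := Matrix.ProjectiveSpecialLinearGroup (Fin 2) K) r hrX
    by_contra hno
    push Not at hno
    -- an involution
    have h2 : 2 ∣ Nat.card (Matrix.ProjectiveSpecialLinearGroup (Fin 2) K) := by
      obtain ⟨g1, hg1⟩ := H363.PSL2Spec.exists_nonsplit (F := K) rfl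
      rw [hgcd] at hg1
      refine Dvd.dvd.trans ?_ (orderOf_dvd_natCard g1)
      rw [hg1]
      omega
    have hf2 : Fact (Nat.Prime 2) := ⟨Nat.prime_two⟩
    obtain ⟨b, hb⟩ := exists_prime_orderOf_dvd_card' (G := Matrix.ProjectiveSpecialLinearGroup (Fin 2) K) 2 h2
    exact hC a b ha hb (hno a b)
  have hcen : center (Matrix.ProjectiveSpecialLinearGroup (Fin 2) K) = ⊥ := by
    rcases (inferInstance : (center (Matrix.ProjectiveSpecialLinearGroup (Fin 2) K)).Normal).eq_bot_or_eq_top with
      h | h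
    · exact h
    · exfalso
      obtain ⟨a, b, hab'⟩ := hab
      apply hab'
      have h6 : b ∈ center (Matrix.ProjectiveSpecialLinearGroup (Fin 2) K) := by rw [h]; exact mem_top b
      exact mem_center_iff.1 h6 a
  let φ : ↥(centralizer ({ReeData.h hK (-1)} : Set ↥(Cfsg.Lie.twistedG2 K (3 ^ m)))) →*
      Matrix.ProjectiveSpecialLinearGroup (Fin 2) K := (MonoidHom.snd _ _).comp e.toMonoidHom
  refine Kill.of_hom hz φ ?_ ?_ hr hro hrX hC (fun N hN h1 => not_nilpotent_of_simple hab N hN h1)
  · intro y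
    exact ⟨e.symm (1, y), by simp [φ]⟩
  · intro x hx
    set zc : ↥(centralizer ({ReeData.h hK (-1)} : Set ↥(Cfsg.Lie.twistedG2 K (3 ^ m)))) :=
      ⟨ReeData.h hK (-1), D.inv_mem_centralizer⟩ with hzc
    have h1 : (e zc).2 = 1 := by
      have h2 : (e zc).2 ∈ center (Matrix.ProjectiveSpecialLinearGroup (Fin 2) K) := by
        rw [mem_center_iff]
        intro g
        have h3 : e.symm (1, g) * zc = zc * e.symm (1, g) := by
          apply Subtype.ext
          exact mem_centralizer_singleton_iff.1 (e.symm (1, g)).2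
        have h4 := congrArg (fun t => (e t).2) h3
        simpa using h4
      rw [hcen, mem_bot] at h2
      exact h2
    have hx2 : (e x).2 = 1 := hx
    have hzc1 : zc ≠ 1 := fun h => hz1 (congrArg Subtype.val h)
    have h5 : (e zc).1 ≠ 1 := by
      intro h
      apply hzc1
      apply e.injective
      rw [map_one]
      exact Prod.ext h h1
    by_cases h6 : (e x).1 = 1
    · left
      have h7 : x = 1 := by
        apply e.injective
        rw [map_one]
        exact Prod.ext h6 hx2
      rw [h7]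
      rfl
    · right
      have h7 : (e x).1 = (e zc).1 := by
        have h8 : ∀ i j : Multiplicative (ZMod 2), i ≠ 1 → j ≠ 1 → i = j := by decide
        exact h8 _ _ h6 h5
      have h8 : x = zc := e.injective (Prod.ext h7 (hx2.trans h1.symm))
      rw [h8]

theorem row_ree {S : Type v} [Group S] (h : Cfsg.Lie.IsoRee S) : Row.{u} S := by
  obtain ⟨K, i1, i2, m, hm, hK, ⟨e⟩⟩ := h
  exact Row.of_kill ((kill_ree hm hK).congr e.symm)

end Cfsg.Agent.H480
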