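import Cfsg.Agent.H480.RowPslTwo
import Cfsg.Agent.H480.RowPslThree
import Cfsg.Agent.H480.LieHigh
import Cfsg.Agent.H480.LieTwo
import Cfsg.Agent.H480.SpFour
import Cfsg.Agent.H480.UThree
import Cfsg.Agent.H480.TwD4
import Cfsg.Agent.H480.TwF4
import Cfsg.Agent.H480.RowSz
import Cfsg.Agent.H480.RowRee
import Cfsg.Agent.H480.RowGTwo
import Cfsg.Prelude.Def_LieTypeChar

/-!
# Nilpotent minimal covers: the groups of Lie type (helper480, S3925, S3926)
-/

set_option autoImplicit false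

namespace Cfsg.Agent.H480

open Cfsg
open Cfsg.Agent.H480.Fr
open Cfsg.Agent.Omega.ML.Ex.Typ Cfsg.Agent.Nodes.RGDChev

universe u v

theorem row_psl {p : ℕ} (hp : p.Prime) {S : Type v} [Group S] (h : IsPSLChar p S) : Row.{u} S := by
  obtain ⟨F, _, _, _, n, h2, h4, ⟨e⟩⟩ := h
  have hfp : Fact p.Prime := ⟨hp⟩
  rcases Nat.lt_or_ge n 4 with hn | hn
  · obtain rfl | rfl : n = 2 ∨ n = 3 := by omega
    · exact Row.congr e.symm (PslTwo.row_psl_two (by rw [Nat.card_eq_fintype_card]; exact h4 rfl))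
    · exact Row.congr e.symm PslThree.row_psl_three
  · exact High.row ((high_PSL (p := p) hn).of_equiv e.symm)

theorem row_psp {p : ℕ} (hp : p.Prime) {S : Type v} [Group S] (h : IsPSpChar p S) : Row.{u} S := by
  obtain ⟨F, _, _, _, m, h2, h3, ⟨e⟩⟩ := h
  have hfp : Fact p.Prime := ⟨hp⟩
  rcases Nat.lt_or_ge m 3 with hm | hm
  · obtain rfl : m = 2 := by omega
    exact Row.of_kill (Kill.congr e.symm (SpFour.kill p (h3 rfl)))
  · exact High.row ((high_PSp (p := p) hm).of_equiv e.symm)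

theorem row_psu {p : ℕ} (hp : p.Prime) {S : Type v} [Group S] (h : IsPSUChar p S) : Row.{u} S := by
  obtain ⟨F, _, _, _, n, q, hF, h3, hn3, ⟨e⟩⟩ := h
  have hfp : Fact p.Prime := ⟨hp⟩
  have hq2 : 2 ≤ q := by
    by_contra hlt
    have h1 : 1 < Fintype.card F := Fintype.one_lt_card
    have h4 : q ^ 2 ≤ 1 := by
      have : q ≤ 1 := by omega
      calc q ^ 2 ≤ 1 ^ 2 := Nat.pow_le_pow_left this 2
        _ = 1 := one_pow 2
    omega
  rcases Nat.lt_or_ge n 6 with hn | hn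
  · obtain rfl | rfl | rfl : n = 3 ∨ n = 4 ∨ n = 5 := by omega
    · have hq3 : 3 ≤ q := by
        rcases Nat.lt_or_ge q 3 with h | h
        · exact absurd ⟨rfl, by omega⟩ hn3
        · exact h
      exact Row.of_kill (Kill.congr e.symm (Three.kill_PSU hF hq3))
    · exact Row.congr e.symm (row_psu_four (p := p) hF)
    · exact Row.congr e.symm (row_psu_five (p := p) hF)
  · exact High.row ((high_PSU (p := p) hF hn).of_equiv e.symm)

theorem row_exc {p : ℕ} (hp : p.Prime) {S : Type v} [Group S] (h : IsExceptionalChevChar p S) : Row.{u} S := by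
  have hfp : Fact p.Prime := ⟨hp⟩
  obtain ⟨F, _, _, _, ⟨-, ⟨e⟩⟩ | ⟨⟨e⟩⟩ | ⟨⟨e⟩⟩ | ⟨⟨e⟩⟩ | ⟨⟨e⟩⟩⟩ := h
  · exact Row.congr e.symm (GTwo.row_g2 (p := p) F)
  · exact High.row (p := p) ⟨_, _, _, _, leaf_F.1, leaf_F.2, (typ_group (by simp [IsType, typeList]) F p).of_equiv e.symm⟩
  · exact High.row (p := p) ⟨_, _, _, _, leaf_E6.1, leaf_E6.2, (typ_group (by simp [IsType, typeList]) F p).of_equiv e.symm⟩
  · exact High.row (p := p) ⟨_, _, _, _, leaf_E7.1, leaf_E7.2, (typ_group (by simp [IsType, typeList]) F p).of_equiv e.symm⟩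
  · exact High.row (p := p) ⟨_, _, _, _, leaf_E8.1, leaf_E8.2, (typ_group (by simp [IsType, typeList]) F p).of_equiv e.symm⟩

theorem row_tw {p : ℕ} (hp : p.Prime) {S : Type v} [Group S] (h : IsTwistedE6D4Char p S) : Row.{u} S := by
  have hfp : Fact p.Prime := ⟨hp⟩
  obtain ⟨K, _, _, _, q, hq, ⟨hK, ⟨e⟩⟩ | ⟨hK, ⟨e⟩⟩⟩ := h
  · exact High.row ((high_twE6 hq hK p).of_equiv e.symm)
  · exact Row.congr e.symm (row_twD4 hq hK p)

/-- **groups of Lie type** -/
theorem row_lie {p : ℕ} (hp : p.Prime) {S : Type v} [Group S] [Finite S] (h : IsLieTypeChar p S) : Row.{u} S := by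
  have hfp : Fact p.Prime := ⟨hp⟩
  rcases h with h | h | h | h | h | h | h | h | ⟨-, h⟩ | ⟨-, h⟩ | ⟨-, h⟩
  · exact row_psl hp h
  · exact row_psp hp h
  · exact row_psu hp h
  · exact High.row (high_POmegaOdd h)
  · exact High.row (high_POmegaPlus h)
  · exact High.row (high_POmegaMinus h)
  · exact row_exc hp h
  · exact row_tw hp h
  · exact row_sz h
  · obtain ⟨K, _, _, m, hm, hK, ⟨e⟩⟩ := h
    exact Row.congr e.symm (row_twistedF4 hm hK)
  · exact row_ree h

end Cfsg.Agent.H480
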