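import Cfsg.Agent.H480.SporTools
import Cfsg.Agent.S1603
import Cfsg.Agent.S0387
import Cfsg.Agent.CoThreeStd.M12.Model
import Cfsg.Prelude.Def_Spor_Mathieu

/-!
# Nilpotent minimal covers: `M11` (helper480, S3925, S3926)
-/

set_option autoImplicit false

namespace Cfsg.Agent.H480

open Subgroup
open scoped Pointwise

/-- the centralizer of `z` is isomorphic to `H` -/
theorem Kill.of_cent_iso {S H : Type*} [Group S] [Group H] {r : ℕ} (hr : r.Prime) {z : S} (hz : orderOf z = r)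
    (e : ↥(centralizer ({z} : Set S)) ≃* H)
    (hH : ∀ w : H, orderOf w = r → (∀ g, g * w = w * g) → ∃ d : H, (orderOf d).Coprime r ∧
      (∀ x : H, orderOf x = r → x * d = d * x → x ∈ zpowers w) ∧
      ∃ q : H, (orderOf (q * d * q⁻¹ * d⁻¹)).Coprime (orderOf d) ∧
        (q * d * q⁻¹ * d⁻¹) * d ≠ d * (q * d * q⁻¹ * d⁻¹)) : Kill S := by
  have hz0 : z ∈ centralizer ({z} : Set S) := mem_centralizer_singleton_iff.2 rfl
  obtain ⟨w, hw⟩ : ∃ w : ↥(centralizer ({z} : Set S)), w = ⟨z, hz0⟩ := ⟨_, rfl⟩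
  have hwo : orderOf (e w) = r := by
    rw [MulEquiv.orderOf_eq, ← orderOf_coe, hw]
    exact hz
  obtain ⟨d, hd, hx, q, hq1, hq2⟩ := hH (e w) hwo (fun g => by
    apply e.symm.injective
    rw [map_mul, map_mul, MulEquiv.symm_apply_apply, hw]
    exact Subtype.ext (mem_centralizer_singleton_iff.1 (e.symm g).2))
  refine ⟨r, z, (e.symm d : ↥(centralizer ({z} : Set S))), hr, hz, ?_, ?_, ?_, ?_⟩
  · rw [orderOf_coe, MulEquiv.orderOf_eq]
    exact hd
  · exact (mem_centralizer_singleton_iff.1 (e.symm d).2).symm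
  · intro x hxr hxz hxd
    have hxC : x ∈ centralizer ({z} : Set S) := mem_centralizer_singleton_iff.2 hxz
    have h1 := hx (e ⟨x, hxC⟩) (by rw [MulEquiv.orderOf_eq, ← orderOf_coe]; exact hxr) (by
      apply e.symm.injective
      rw [map_mul, map_mul, MulEquiv.symm_apply_apply]
      exact Subtype.ext hxd)
    obtain ⟨i, hi⟩ := mem_zpowers_iff.1 h1
    refine mem_zpowers_iff.2 ⟨i, ?_⟩
    rw [← map_zpow] at hi
    have h2 := congrArg Subtype.val (e.injective hi)
    rw [hw] at h2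
    exact h2
  · refine not_nilpotent_of_commutator (q := (e.symm q : ↥(centralizer ({z} : Set S)))) (e.symm q).2 ?_ ?_
    · have h1 : ((e.symm q : ↥(centralizer ({z} : Set S))) : S) * (e.symm d : ↥(centralizer ({z} : Set S))) *
          ((e.symm q : ↥(centralizer ({z} : Set S))) : S)⁻¹ * ((e.symm d : ↥(centralizer ({z} : Set S))) : S)⁻¹ =
          ((e.symm (q * d * q⁻¹ * d⁻¹) : ↥(centralizer ({z} : Set S))) : S) := by
        rw [map_mul, map_mul, map_mul, map_inv, map_inv]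
        rfl
      rw [h1, orderOf_coe, orderOf_coe, MulEquiv.orderOf_eq, MulEquiv.orderOf_eq]
      exact hq1
    · intro h
      apply hq2
      apply e.symm.injective
      simp only [map_mul, map_inv]
      exact Subtype.ext h

/-- the two descriptions of `M11` -/
def equivM11 : ↥(MulAction.stabilizer Cfsg.M24 Cfsg.Spor.squareDodecad ⊓
    MulAction.stabilizer Cfsg.M24 (some 0 : Cfsg.GolayPt)) ≃* ↥Cfsg.Spor.M11 where
  toFun g := ⟨((g : Cfsg.M24) : Equiv.Perm Cfsg.GolayPt), ⟨(g : Cfsg.M24).2, g.2.1⟩, g.2.2⟩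
  invFun g := ⟨⟨(g : Equiv.Perm Cfsg.GolayPt), g.2.1.1⟩, g.2.1.2, g.2.2⟩
  left_inv _ := rfl
  right_inv _ := rfl
  map_mul' _ _ := rfl

/-- matrices of order 3 and 4 of `GL₂(3)` -/
def glD : GL (Fin 2) (ZMod 3) := ⟨!![1, 1; 0, 1], !![1, 2; 0, 1], by decide, by decide⟩
def glQ : GL (Fin 2) (ZMod 3) := ⟨!![0, 1; 2, 0], !![0, 2; 1, 0], by decide, by decide⟩

theorem gl_key : ∀ M : Matrix (Fin 2) (Fin 2) (ZMod 3), M * !![1, 1; 0, 1] = !![1, 1; 0, 1] * M → M * M = 1 →
    M = 1 ∨ M = !![2, 0; 0, 2] := by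
  decide +kernel

theorem gl_cases {w : GL (Fin 2) (ZMod 3)} (hw : orderOf w = 2) (hd : w * glD = glD * w) :
    (w : Matrix (Fin 2) (Fin 2) (ZMod 3)) = !![2, 0; 0, 2] := by
  have h1 : w * w = 1 := by
    have h0 := pow_orderOf_eq_one w
    rw [hw, pow_two] at h0
    exact h0
  rcases gl_key w (congrArg Units.val hd) (congrArg Units.val h1) with h | h
  · exfalso
    have h2 : w = 1 := Units.ext h
    rw [h2, orderOf_one] at hw
    exact absurd hw (by norm_num)
  · exact h

theorem kill_m11 : Kill ↥Cfsg.Spor.M11 := by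
  have hf2 : Fact (Nat.Prime 2) := ⟨Nat.prime_two⟩
  have hcard := Cfsg.Agent.S0387.result _ CoThreeStd.M12.dodecad_mem (some 0) (by decide +kernel)
  have hfin : Finite ↥(MulAction.stabilizer Cfsg.M24 Cfsg.Spor.squareDodecad ⊓
    MulAction.stabilizer Cfsg.M24 (some 0 : Cfsg.GolayPt)) := inferInstance
  obtain ⟨x, hx⟩ := exists_prime_orderOf_dvd_card' (G := ↥(MulAction.stabilizer Cfsg.M24 Cfsg.Spor.squareDodecad ⊓
    MulAction.stabilizer Cfsg.M24 (some 0 : Cfsg.GolayPt))) 2 (by rw [hcard]; norm_num)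
  obtain ⟨e⟩ := Cfsg.Agent.S1603.result _ CoThreeStd.M12.dodecad_mem (some 0) (by decide +kernel) x hx
  refine Kill.congr equivM11 (Kill.of_cent_iso Nat.prime_two hx e ?_)
  intro w hw hwc
  have hD : orderOf glD = 3 := by
    have hf3 : Fact (Nat.Prime 3) := ⟨by norm_num⟩
    exact orderOf_eq_prime (Units.ext (by decide)) (fun h => absurd (congrArg Units.val h) (by decide))
  refine ⟨glD, by rw [hD]; norm_num, ?_, glQ, ?_, ?_⟩
  · intro y hy hyd
    have h1 : y = w := Units.ext ((gl_cases hy hyd).trans (gl_cases hw (hwc glD).symm).symm)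
    rw [h1]
    exact mem_zpowers w
  · have h4 : orderOf (glQ * glD * glQ⁻¹ * glD⁻¹) = 2 ^ (1 + 1) := by
      refine orderOf_eq_prime_pow (p := 2) (n := 1) ?_ ?_
      · intro h
        exact absurd (congrArg Units.val h) (by decide)
      · exact Units.ext (by decide)
    rw [h4, hD]
    norm_num
  · intro h
    exact absurd (congrArg Units.val h) (by decide)

end Cfsg.Agent.H480
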