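import Cfsg.Agent.H480.RowRee
import Cfsg.Agent.BpMon.Thirteen
import Cfsg.Agent.KFacts.MonsterE

/-!
# Nilpotent minimal covers: the Monster (helper480, S3925, S3926)
-/

set_option autoImplicit false

namespace Cfsg.Agent.H480

open Subgroup

theorem not_nilpotent_of_hom {S L : Type*} [Group S] [Group L] {C : Subgroup S} (π : ↥C →* L) (hs : IsSimpleGroup L)
    (hna : ∃ a b : L, a * b ≠ b * a) (hsurj : Function.Surjective π) {d : S} (hd : d ∈ C) (hd1 : π ⟨d, hd⟩ ≠ 1) :
    ¬ Group.IsNilpotent ↥(closure (cjs C d)) := by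
  intro hnil
  set D := closure (cjs C d) with hD
  have hDC : D ≤ C := by
    rw [hD, closure_le]
    rintro _ ⟨m, hm, rfl⟩
    exact mul_mem (mul_mem hm hd) (inv_mem hm)
  have hinv : ∀ c ∈ C, ∀ x ∈ D, c * x * c⁻¹ ∈ D := by
    intro c hc x hx
    rw [hD] at hx ⊢
    induction hx using closure_induction with
    | mem x hx =>
      obtain ⟨m, hm, rfl⟩ := hx
      refine subset_closure ⟨c * m, mul_mem hc hm, ?_⟩
      group
    | one => rw [mul_one, mul_inv_cancel]; exact one_mem _
    | mul a b _ _ ha hb =>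
      have e : c * (a * b) * c⁻¹ = c * a * c⁻¹ * (c * b * c⁻¹) := by group
      rw [e]
      exact mul_mem ha hb
    | inv a _ ha =>
      have e : c * a⁻¹ * c⁻¹ = (c * a * c⁻¹)⁻¹ := by group
      rw [e]
      exact inv_mem ha
  let g : ↥D →* L := π.comp (Subgroup.inclusion hDC)
  have hn : g.range.Normal := by
    refine ⟨?_⟩
    rintro _ ⟨x, rfl⟩ l
    obtain ⟨c, rfl⟩ := hsurj l
    refine ⟨⟨c * x * c⁻¹, hinv c c.2 x x.2⟩, ?_⟩
    change π _ = π c * π _ * (π c)⁻¹
    rw [← map_inv, ← map_mul, ← map_mul]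
    rfl
  have hnb : g.range ≠ ⊥ := by
    intro hb
    have h1 : g ⟨d, subset_closure (mem_cjs_self C d)⟩ ∈ g.range := ⟨_, rfl⟩
    rw [hb, mem_bot] at h1
    exact hd1 h1
  exact not_nilpotent_of_simple hna g.range hn hnb
    (Group.nilpotent_of_surjective (h := hnil) g.rangeRestrict g.rangeRestrict_surjective)

/-- **A unique involution of `C(z) ∩ C(d)`.** -/
theorem Kill.of_two_hom {S L : Type*} [Group S] [Group L] {z d : S} (hz : orderOf z = 2)
    (π : ↥(centralizer ({z} : Set S)) →* L) (hs : IsSimpleGroup L)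
    (hna : ∃ a b : L, a * b ≠ b * a) (hsurj : Function.Surjective π) (hd : d ∈ centralizer ({z} : Set S))
    (hd1 : π ⟨d, hd⟩ ≠ 1) (hodd : Odd (orderOf d))
    (hu : ∀ x : S, x * x = 1 → x ≠ 1 → x * z = z * x → x * d = d * x → x = z) : Kill S := by
  refine ⟨2, z, d, Nat.prime_two, hz, hodd.coprime_two_right, (mem_centralizer_singleton_iff.1 hd).symm, ?_,
    not_nilpotent_of_hom π hs hna hsurj hd hd1⟩
  intro x hx hxz hxd
  have h1 : x * x = 1 := by
    have h0 := pow_orderOf_eq_one x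
    rwa [hx, pow_two] at h0
  have h2 : x ≠ 1 := by
    rintro rfl
    rw [orderOf_one] at hx
    norm_num at hx
  rw [hu x h1 h2 hxz hxd]
  exact mem_zpowers z

open Cfsg Cfsg.Agent.MonsterX Cfsg.Agent.MonsterX.InstData Cfsg.Spor in
/-- **The Monster** -/
theorem kill_m : Kill Cfsg.Spor.Monster := by
  obtain ⟨f⟩ := Cfsg.Agent.MonsterP.Equiv.equiv
  refine Kill.congr f.symm ?_
  have hfin := MFive.Row.finite_model
  have h := LThreeMB.KChart.chart KDone.lft MFive.Row.hc
  have hf13 : Fact (Nat.Prime 13) := ⟨by norm_num⟩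
  have hco := Cfsg.Agent.MonsterU.CoFrameF.card_Co1
  have hs := Cfsg.Agent.KFacts.MonsterE.simple_Co1
  -- an element of order 13
  obtain ⟨x, hx⟩ := exists_prime_orderOf_dvd_card' (G := ↥(centralizer ({KDone.K.z} : Set ↥InstData.M.G))) 13 (by
    refine dvd_trans ?_ (Subgroup.card_dvd_of_surjective _ h.pi_surj)
    rw [hco]
    norm_num)
  have hz2 : orderOf KDone.K.z = 2 := by
    have : Fact (Nat.Prime 2) := ⟨Nat.prime_two⟩
    exact orderOf_eq_prime (by rw [pow_two]; exact h.large.z_sq) h.large.z_ne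
  refine Kill.of_two_hom hz2 (LThreeMB.KChart.pi MFive.Row.hc) hs ?_ h.pi_surj x.2 ?_ ?_ ?_
  · by_contra hcon
    push Not at hcon
    let _ : CommGroup Co1 := { (inferInstance : Group Co1) with mul_comm := hcon }
    have hfc : Finite Co1 := Nat.finite_of_card_ne_zero (by rw [hco]; norm_num)
    have h2 : (Nat.card Co1).Prime := IsSimpleGroup.prime_card
    rw [hco] at h2
    revert h2
    norm_num
  · intro h1
    have h2 := MFive.orderOf_pi h (by norm_num) (by decide) hx
    rw [h1, orderOf_one] at h2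
    norm_num at h2
  · rw [orderOf_coe, hx]
    decide
  · intro t htt ht1 htz htx
    exact BpMon.Thirteen.only_inv KDone.lft MFive.Row.hc (x := x) (t := ⟨t, mem_centralizer_singleton_iff.2 htz⟩) hx
      (Subtype.ext htt) (fun h1 => ht1 (congrArg Subtype.val h1)) (Subtype.ext htx.symm)

end Cfsg.Agent.H480
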