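import Cfsg.Agent.H480.SporTools
import Cfsg.Agent.CoThreeStd.M12.Out
import Cfsg.Agent.CTwoTab.Co3

/-!
# Nilpotent minimal covers: `M12`, `Co3` (helper480, S3925, S3926)
-/

set_option autoImplicit false

namespace Cfsg.Agent.H480

open Subgroup
open Cfsg.Agent.CoThreeStd.M12 Cfsg.Agent.CoThreeStd.M12.Out

theorem kill_g12 : Kill ↥G12 := by
  have hf5 : Fact (Nat.Prime 5) := ⟨by norm_num⟩
  have hn5 : orderOf n = 5 := orderOf_eq_prime n_pow n_ne
  have hy1 : y ≠ 1 := by
    intro h
    have h1 := y0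
    rw [h] at h1
    exact absurd h1 (by decide)
  have hc3 : orderOf (lt 1 * n * (lt 1)⁻¹ * n⁻¹) = 3 := by
    have hf3 : Fact (Nat.Prime 3) := ⟨by norm_num⟩
    have h1 : lt 1 * n * (lt 1)⁻¹ * n⁻¹ = el ([1] ++ wn ++ [1] ++ wn.reverse) := by
      rw [el_append, el_append, el_append, el_reverse, el_single, n,
        inv_eq_of_mul_eq_one_left (lt_sq 1)]
    rw [h1]
    refine orderOf_eq_prime ?_ ?_
    · rw [← el_pw, ← el_nil]
      exact el_eq (by decide +kernel)
    · rw [← el_nil, Ne, el_eq_iff]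
      decide +kernel
  refine Kill.of_inv (z := y) (d := n) (orderOf_eq_prime (by rw [pow_two]; exact y_sq) hy1) (by rw [hn5]; decide)
    y_n ?_ ?_
  · intro x hx _ hxn
    by_cases h1 : x = 1
    · exact Or.inl h1
    · exact Or.inr (eq_y hxn hx h1)
  · refine not_nilpotent_of_commutator (q := lt 1) ?_ ?_ ?_
    · rw [mem_centralizer_singleton_iff, y, ← el_single, ← el_single, ← el_append, ← el_append]
      exact el_eq (by decide +kernel)
    · rw [hc3, hn5]
      norm_num
    · have h1 : lt 1 * n * (lt 1)⁻¹ * n⁻¹ = el ([1] ++ wn ++ [1] ++ wn.reverse) := by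
        rw [el_append, el_append, el_append, el_reverse, el_single, n,
          inv_eq_of_mul_eq_one_left (lt_sq 1)]
      rw [h1, n, ← el_append, ← el_append, Ne, el_eq_iff]
      decide +kernel

theorem kill_m12 : Kill ↥Cfsg.Spor.M12 := Kill.congr CoThreeStd.M12.equiv.symm kill_g12

theorem m12_eleven {a b : ↥Cfsg.Spor.M12} (ha : orderOf a = 11) (hb : orderOf b = 2) : a * b ≠ b * a := by
  intro hab
  obtain ⟨m, hm⟩ := conj_of_order (x := CoThreeStd.M12.equiv a) (by rw [MulEquiv.orderOf_eq]; exact ha)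
  have hb' : orderOf (m * CoThreeStd.M12.equiv b * m⁻¹) = 2 := by
    rw [← MulAut.conj_apply, MulEquiv.orderOf_eq, MulEquiv.orderOf_eq]
    exact hb
  have hcomm : Commute (m * CoThreeStd.M12.equiv b * m⁻¹) (m * CoThreeStd.M12.equiv a * m⁻¹) := by
    have h1 : CoThreeStd.M12.equiv a * CoThreeStd.M12.equiv b = CoThreeStd.M12.equiv b * CoThreeStd.M12.equiv a := by
      rw [← map_mul, hab, map_mul]
    change _ * _ = _ * _
    calc m * CoThreeStd.M12.equiv b * m⁻¹ * (m * CoThreeStd.M12.equiv a * m⁻¹)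
        = m * (CoThreeStd.M12.equiv b * CoThreeStd.M12.equiv a) * m⁻¹ := by group
      _ = m * (CoThreeStd.M12.equiv a * CoThreeStd.M12.equiv b) * m⁻¹ := by rw [h1]
      _ = _ := by group
  have hg : (m * CoThreeStd.M12.equiv b * m⁻¹) * g = g * (m * CoThreeStd.M12.equiv b * m⁻¹) := by
    rcases hm with hm | hm
    · rw [hm] at hcomm
      exact hcomm.eq
    · rw [hm] at hcomm
      exact (Commute.inv_right_iff.1 hcomm).eq
  obtain ⟨k, hk⟩ := cent_g hg
  have h2 : (m * CoThreeStd.M12.equiv b * m⁻¹) ^ 11 = 1 := by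
    rw [hk, ← pow_mul, mul_comm, pow_mul, g_pow, one_pow]
  have h3 := orderOf_dvd_of_pow_eq_one h2
  rw [hb'] at h3
  exact absurd h3 (by norm_num)

open Cfsg.Agent.CTwoTab.Co3 in
theorem kill_co3 : Kill Cfsg.Spor.Co3 := by
  obtain ⟨w, D⟩ := exists_data
  have hfin := finite_G3
  have hcard := (Cfsg.Agent.SporRec.Co3.Chain.isCo3_G3).2
  obtain ⟨f, hf, hk⟩ := D.hom
  have hsU := D.simple
  have hna : ∃ a b : Cfsg.Spor.M12, a * b ≠ b * a := by
    by_contra h
    push Not at h
    have h1 : (Nat.card ↥Cfsg.Spor.M12).Prime := by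
      let _ : CommGroup ↥Cfsg.Spor.M12 := { mul_comm := h }
      exact IsSimpleGroup.prime_card
    rw [D.card] at h1
    exact absurd h1 (by norm_num)
  have hcU : center ↥Cfsg.Spor.M12 = ⊥ := by
    rcases hsU.eq_bot_or_eq_top_of_normal (center ↥Cfsg.Spor.M12) inferInstance with h | h
    · exact h
    · exfalso
      obtain ⟨a, b, hab⟩ := hna
      have h1 : b ∈ center ↥Cfsg.Spor.M12 := by rw [h]; exact mem_top b
      exact hab (mem_center_iff.1 h1 a)
  have hw0 : w ∈ centralizer ({w} : Set SporRec.Co3.Chain.G3) := mem_centralizer_singleton_iff.2 rfl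
  have hfw : f ⟨w, hw0⟩ = 1 := by
    have h1 : f ⟨w, hw0⟩ ∈ center ↥Cfsg.Spor.M12 := by
      rw [mem_center_iff]
      intro g
      obtain ⟨c, rfl⟩ := hf g
      rw [← map_mul, ← map_mul]
      exact congrArg f (Subtype.ext (mem_centralizer_singleton_iff.1 c.2))
    rwa [hcU, mem_bot] at h1
  have hw1 : w ≠ 1 := by
    intro hw
    have hinj : Function.Injective f := by
      rw [injective_iff_map_eq_one]
      intro x hx
      rcases hk x hx with h | h
      · exact h
      · exact Subtype.ext (h.trans hw)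
    have h1 := Nat.card_le_card_of_injective f hinj
    rw [D.card] at h1
    have h2 : centralizer ({w} : Set SporRec.Co3.Chain.G3) = ⊤ := by
      rw [eq_top_iff]
      intro x _
      rw [mem_centralizer_singleton_iff, hw, mul_one, one_mul]
    rw [h2, Nat.card_congr (Subgroup.topEquiv).toEquiv, hcard] at h1
    exact absurd h1 (by norm_num)
  have hw2 : w ^ 2 = 1 := by
    have h1 : f (⟨w, hw0⟩ * ⟨w, hw0⟩) = 1 := by rw [map_mul, hfw, one_mul]
    rcases hk _ h1 with h | h
    · rw [pow_two]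
      exact congrArg Subtype.val h
    · exfalso
      apply hw1
      have h2 : w * w = w := h
      exact mul_eq_left.1 h2
  have hkill : Kill SporRec.Co3.Chain.G3 := by
    refine Kill.of_hom (z := w) (orderOf_eq_prime hw2 hw1) f hf ?_ (q := 11) (by norm_num) (by norm_num)
      (by rw [D.card]; norm_num) (fun a b ha hb => m12_eleven ha hb) ?_
    · intro x hx
      rcases hk x hx with h | h
      · left
        rw [h]
        rfl
      · exact Or.inr h
    · intro N hN h1 hnil
      have h2 : N = ⊤ := (hsU.eq_bot_or_eq_top_of_normal N hN).resolve_left h1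
      subst h2
      have h3 : Group.IsNilpotent ↥Cfsg.Spor.M12 := Group.nilpotent_of_mulEquiv (_h := hnil) Subgroup.topEquiv
      obtain ⟨a, b, hab⟩ := hna
      exact hab (IsSimpleGroup.comm_iff_isSolvable.2 inferInstance a b)
  exact Kill.congr SporRec.Co3.Model.equivCo3 hkill

end Cfsg.Agent.H480
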