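import Cfsg.Agent.H480.KillBound
import Cfsg.Agent.MonsterX.ThOneClass

/-!
# Nilpotent minimal covers: `Th` (helper480, S3925, S3926)
-/

set_option autoImplicit false

namespace Cfsg.Agent.H480

open Subgroup

section
variable {G : Type*} [Group G]

theorem comm_of_sq {x y : G} (hx : x ^ 2 = 1) (hy : y ^ 2 = 1) (h : (x * y) ^ 2 = 1) : x * y = y * x := by
  have hx' : x⁻¹ = x := inv_eq_of_mul_eq_one_left (by rw [← pow_two]; exact hx)
  have hy' : y⁻¹ = y := inv_eq_of_mul_eq_one_left (by rw [← pow_two]; exact hy)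
  have h1 : (x * y)⁻¹ = x * y := inv_eq_of_mul_eq_one_left (by rw [← pow_two]; exact h)
  rw [mul_inv_rev, hx', hy'] at h1
  exact h1.symm

/-- two involutions with product of order three -/
theorem sym3 {x y : G} (hx : x ^ 2 = 1) (hy : y ^ 2 = 1) (h : (x * y) ^ 3 = 1) (hne : x ≠ y) :
    (orderOf (y * x * y⁻¹ * x⁻¹)).Coprime 2 ∧ (y * x * y⁻¹ * x⁻¹) * x ≠ x * (y * x * y⁻¹ * x⁻¹) := by
  have hx' : x⁻¹ = x := inv_eq_of_mul_eq_one_left (by rw [← pow_two]; exact hx)
  have hy' : y⁻¹ = y := inv_eq_of_mul_eq_one_left (by rw [← pow_two]; exact hy)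
  have hxx : x * x = 1 := by rw [← pow_two]; exact hx
  have hyy : y * y = 1 := by rw [← pow_two]; exact hy
  have e : y * x * y⁻¹ * x⁻¹ = x * y := by
    rw [hx', hy']
    have h1 : x * y * (x * y) * (x * y) = 1 := by
      rw [← h, pow_succ, pow_two]
    have h2 : x * y * (x * y) = (x * y)⁻¹ := eq_inv_of_mul_eq_one_left h1
    have h3 : (x * y) = (x * y * (x * y))⁻¹ := by rw [h2, inv_inv]
    rw [h3]
    simp only [mul_inv_rev, hx', hy']
    group
  rw [e]
  constructor
  · exact Nat.Coprime.coprime_dvd_left (orderOf_dvd_of_pow_eq_one h) (by norm_num)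
  · intro h1
    apply hne
    have h2 : x * y * x = y := by
      rw [h1, ← mul_assoc, hxx, one_mul]
    have h3 : (x * y) ^ 3 = x * y := by
      calc (x * y) ^ 3 = (x * y * x) * y * (x * y) := by rw [pow_succ, pow_two]; group
        _ = x * y := by rw [h2, hyy, one_mul]
    rw [h] at h3
    exact (eq_inv_of_mul_eq_one_left h3.symm).trans hy'

end

theorem kill_th : Kill Cfsg.Spor.Th := by
  have hfin : Finite Cfsg.Spor.Th := Cfsg.Agent.Th.Main1700.final.1
  have hR := Cfsg.Agent.Th.IndexUpper.gTh_relK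
  have ha1 := Cfsg.Agent.Th.Main475.a_ne_one
  have hcard := Cfsg.Agent.MonsterX.ThOneClass.card_a
  have hord := Cfsg.Agent.MonsterX.ThOneClass.orderOf_a
  generalize Cfsg.Agent.Th.IndexUpper.gTh 1 = a at hR ha1 hcard hord
  generalize Cfsg.Agent.Th.IndexUpper.gTh 2 = b at hR
  generalize Cfsg.Agent.Th.IndexUpper.gTh 3 = c at hR
  generalize Cfsg.Agent.Th.IndexUpper.gTh 4 = d at hR
  generalize Cfsg.Agent.Th.IndexUpper.gTh 5 = e at hR
  generalize Cfsg.Agent.Th.IndexUpper.gTh 6 = s at hR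
  generalize Cfsg.Agent.Th.IndexUpper.gTh 8 = t at hR
  have hacd : a = (c * d) ^ 4 := mul_inv_eq_one.1 hR.acd
  -- `s ≠ 1`
  have hs1 : s ≠ 1 := by
    intro h
    have h1 := hR.es
    rw [h] at h1
    have he : e = 1 := by
      have h2 : (e⁻¹ * (1 : Cfsg.Spor.Th)⁻¹ * e * 1) * (((1 ^ 3)⁻¹ * e * (1 ^ 3))⁻¹) = e⁻¹ := by group
      rw [h2] at h1
      exact inv_eq_one.1 h1
    have hd : d = 1 := by
      have h3 := hR.de3
      rw [he, mul_one] at h3
      have h2 := hR.d2
      calc d = d ^ 3 := by rw [pow_succ, h2, one_mul]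
        _ = 1 := h3
    apply ha1
    rw [hacd, hd, mul_one, show (4 : ℕ) = 2 * 2 from rfl, pow_mul, hR.c2, one_pow]
  have hso : orderOf s = 7 := by
    have : Fact (Nat.Prime 7) := ⟨by norm_num⟩
    exact orderOf_eq_prime hR.s7 hs1
  -- `a ≠ b`
  have hab : a ≠ b := by
    rintro rfl
    have h1 : a * d = d * a := comm_of_sq hR.a2 hR.d2 hR.bd2
    have h2 : a * (c * d) = (c * d) * a := by
      have h0 : (c * d) ^ 4 * (c * d) = (c * d) * (c * d) ^ 4 := by rw [← pow_succ, ← pow_succ']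
      rw [← hacd] at h0
      exact h0
    have h3 : a * c = c * a := by
      have : a * c * d = c * a * d := by rw [mul_assoc, h2, mul_assoc, ← h1, mul_assoc]
      exact mul_right_cancel this
    have h4 : (a * c) ^ 3 = a * c := by
      have h5 : (a * c) ^ 2 = 1 := by
        have hc : Commute a c := h3
        rw [hc.mul_pow, hR.a2, hR.c2, one_mul]
      rw [pow_succ, h5, one_mul]
    have h5 : a * c = 1 := by rw [← h4]; exact hR.bc3
    have hc' : c⁻¹ = c := inv_eq_of_mul_eq_one_left (by rw [← pow_two]; exact hR.c2)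
    have h6 : a = c := (eq_inv_of_mul_eq_one_left h5).trans hc'
    apply ha1
    rw [hacd, ← h6, show (4 : ℕ) = 2 * 2 from rfl, pow_mul, hR.bd2, one_pow]
  have hsa : s * a = a * s := by
    have h := hR.sa
    have h1 : s * a = a * s * (s⁻¹ * a⁻¹ * s * a) := by group
    rw [h1, h, mul_one]
  have hsb : s * b = b * s := by
    have h := hR.sb
    have h1 : s * b = b * s * (s⁻¹ * b⁻¹ * s * b) := by group
    rw [h1, h, mul_one]
  obtain ⟨h3, h4⟩ := sym3 hR.a2 hR.b2 hR.ab3 hab
  refine Kill.of_inf (r := 7) (by norm_num) (z := s) (d := a) (q := b) hso (by rw [hord]; norm_num) hsa ?_ hsb.symm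
    (by rw [hord]; exact h3) h4
  intro h
  have h5 : Nat.card ↥(centralizer ({s} : Set Cfsg.Spor.Th) ⊓ centralizer ({a} : Set Cfsg.Spor.Th)) ∣ 92897280 := by
    rw [← hcard]
    exact Subgroup.card_dvd_of_le inf_le_right
  exact absurd (h.trans h5) (by norm_num)

end Cfsg.Agent.H480
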