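import Cfsg.Agent.H480.KillNil
import Cfsg.Agent.H480.KillHom

/-!
# Nilpotent minimal covers: tools for the sporadic groups (helper480, S3925, S3926)
-/

set_option autoImplicit false

namespace Cfsg.Agent.H480

open Subgroup Equiv

/-- a permutation commuting with a cycle of prime order with at most one fixed point is `1` if its order is coprime
to the order of the cycle -/
theorem eq_one_of_comm_cycle {α : Type*} [Fintype α] [DecidableEq α] {a b : Perm α} {p m : ℕ} (hp : p.Prime)
    (ha : orderOf a = p) (h1 : Fintype.card α ≤ p + 1) (hp2 : 3 ≤ p) (hb : b ^ m = 1) (hm : m.Coprime p)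
    (hab : a * b = b * a) : b = 1 := by
  have hcyc : a.IsCycle := by
    refine Equiv.Perm.isCycle_of_prime_order' (by rw [ha]; exact hp) ?_
    rw [ha]
    omega
  have hsup : a.support.card = p := by rw [← hcyc.orderOf, ha]
  obtain ⟨hc', k, hk⟩ := (hcyc.commute_iff (g := b)).1 hab.symm
  have hk1 : ∀ x ∈ a.support, b x = (a ^ k) x := by
    intro x hx
    have h2 := congrArg (fun e : Perm α => e x) hk
    simp only at h2
    rw [h2, Perm.ofSubtype_apply_of_mem _ hx]
    rfl
  have hk2 : ∀ j : ℕ, ∀ x ∈ a.support, (b ^ j) x = (a ^ (k * j)) x := by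
    intro j
    induction j with
    | zero => intro x hx; simp
    | succ j ih =>
      intro x hx
      rw [pow_succ', Perm.mul_apply, ih x hx]
      have h2 : (a ^ (k * j)) x ∈ a.support := Perm.zpow_apply_mem_support.2 hx
      rw [hk1 _ h2, ← Perm.mul_apply, ← zpow_add]
      congr 2
      push_cast
      ring
  have hkm : a ^ (k * m) = 1 := by
    ext x
    by_cases hx : x ∈ a.support
    · rw [← hk2 m x hx, hb]
    · have h2 : a x = x := Perm.notMem_support.1 hx
      rw [Perm.zpow_apply_eq_self_of_apply_eq_self h2, Perm.one_apply]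
  have hak : a ^ k = 1 := by
    rw [← orderOf_dvd_iff_zpow_eq_one, ha] at hkm ⊢
    exact (Int.isCoprime_iff_gcd_eq_one.2 (by simpa using hm.symm)).dvd_of_dvd_mul_right hkm
  have hfix : ∀ x ∈ a.support, b x = x := by
    intro x hx
    rw [hk1 x hx, hak, Perm.one_apply]
  have hcompl : (a.supportᶜ).card ≤ 1 := by
    rw [Finset.card_compl, hsup]
    omega
  ext x
  by_cases hx : x ∈ a.support
  · rw [hfix x hx, Perm.one_apply]
  · have h2 : b x ∉ a.support := fun h => hx ((hc' x).1 h)
    rw [Perm.one_apply]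
    exact Finset.card_le_one.1 hcompl _ (Finset.mem_compl.2 h2) _ (Finset.mem_compl.2 hx)

theorem alt_not_comm {n : ℕ} (hn : 5 ≤ n) : ∃ a b : ↥(alternatingGroup (Fin n)), a * b ≠ b * a := by
  by_contra h
  push Not at h
  have h1 : center ↥(alternatingGroup (Fin n)) = ⊥ := alternatingGroup.center_eq_bot (by simpa using (by omega : 4 ≤ n))
  have h2 : ∀ a : ↥(alternatingGroup (Fin n)), a = 1 := by
    intro a
    have h3 : a ∈ center ↥(alternatingGroup (Fin n)) := mem_center_iff.2 fun g => h g a
    rw [h1, mem_bot] at h3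
    exact h3
  have hs : IsSimpleGroup ↥(alternatingGroup (Fin n)) := alternatingGroup.isSimpleGroup (by simpa using hn)
  obtain ⟨a, b, hab⟩ := exists_pair_ne ↥(alternatingGroup (Fin n))
  exact hab ((h2 a).trans (h2 b).symm)

/-- the alternating group of degree at least 5 has no nontrivial nilpotent normal subgroup -/
theorem alt_normal_not_nilpotent {n : ℕ} (hn : 5 ≤ n) (N : Subgroup ↥(alternatingGroup (Fin n))) (hN : N.Normal)
    (h1 : N ≠ ⊥) : ¬ Group.IsNilpotent ↥N := by
  intro h
  have hs : IsSimpleGroup ↥(alternatingGroup (Fin n)) := alternatingGroup.isSimpleGroup (by simpa using hn)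
  rcases hs.eq_bot_or_eq_top_of_normal N hN with h2 | h2
  · exact h1 h2
  · subst h2
    have h3 : Group.IsNilpotent ↥(alternatingGroup (Fin n)) :=
      Group.nilpotent_of_mulEquiv (_h := h) (Subgroup.topEquiv)
    obtain ⟨a, b, hab⟩ := alt_not_comm hn
    exact hab (IsSimpleGroup.comm_iff_isSolvable.2 inferInstance a b)

/-- `C(z) ≅ C₂ × X` -/
theorem Kill.of_prod {S : Type*} [Group S] {z : S} (hz : orderOf z = 2) {X : Type*} [Group X] [Finite X]
    (e : ↥(centralizer ({z} : Set S)) ≃* Multiplicative (ZMod 2) × X)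
    {q : ℕ} (hq : q.Prime) (hq2 : q ≠ 2) (hqX : q ∣ Nat.card X)
    (hC : ∀ a b : X, orderOf a = q → orderOf b = 2 → a * b ≠ b * a)
    (hN : ∀ N : Subgroup X, N.Normal → N ≠ ⊥ → ¬ Group.IsNilpotent ↥N) : Kill S := by
  have hzX : center X = ⊥ := by
    by_contra h
    exact hN _ inferInstance h ((Group.isNilpotent_iff _).2 ⟨1, by
      rw [Subgroup.upperCentralSeries_one, eq_top_iff]
      intro x _
      rw [mem_center_iff]
      intro g
      exact Subtype.ext (mem_center_iff.1 x.2 _)⟩)
  refine Kill.of_hom hz ((MonoidHom.snd (Multiplicative (ZMod 2)) X).comp e.toMonoidHom) ?_ ?_ hq hq2 hqX hC hN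
  · intro x
    exact ⟨e.symm (1, x), by simp⟩
  · intro x hx
    have hx1 : (e x).2 = 1 := hx
    have hz0 : z ∈ centralizer ({z} : Set S) := mem_centralizer_singleton_iff.2 rfl
    obtain ⟨w, hw⟩ : ∃ w : ↥(centralizer ({z} : Set S)), w = ⟨z, hz0⟩ := ⟨_, rfl⟩
    have hwc : ∀ g, g * w = w * g := by
      intro g
      rw [hw]
      exact Subtype.ext (mem_centralizer_singleton_iff.1 g.2)
    have hw2 : (e w).2 = 1 := by
      have h1 : (e w).2 ∈ center X := by
        rw [mem_center_iff]
        intro g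
        have h2 := congrArg e (hwc (e.symm (1, g)))
        rw [map_mul, map_mul, MulEquiv.apply_symm_apply] at h2
        simpa using congrArg Prod.snd h2
      rwa [hzX, mem_bot] at h1
    have hw1 : (e w).1 ≠ 1 := by
      intro h1
      have h2 : e w = 1 := Prod.ext h1 hw2
      rw [MulEquiv.map_eq_one_iff] at h2
      rw [hw] at h2
      have h3 : z = 1 := congrArg Subtype.val h2
      rw [h3, orderOf_one] at hz
      exact absurd hz (by norm_num)
    have hcl : ∀ a b : Multiplicative (ZMod 2), a ≠ 1 → b = 1 ∨ b = a := by decide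
    rcases hcl (e w).1 (e x).1 hw1 with h1 | h1
    · left
      have h2 : e x = 1 := Prod.ext h1 hx1
      rw [MulEquiv.map_eq_one_iff] at h2
      rw [h2]
      rfl
    · right
      have h2 : e x = e w := Prod.ext h1 (hx1.trans hw2.symm)
      rw [e.injective h2, hw]

/-- `C(z)` is a double cover of `X` -/
theorem Kill.of_cover {S : Type*} [Group S] {z : S} (hz : orderOf z = 2) {X : Type*} [Group X] [Finite X]
    (hcard : Nat.card ↥(center ↥(centralizer ({z} : Set S))) = 2)
    (e : ↥(centralizer ({z} : Set S)) ⧸ center ↥(centralizer ({z} : Set S)) ≃* X)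
    {q : ℕ} (hq : q.Prime) (hq2 : q ≠ 2) (hqX : q ∣ Nat.card X)
    (hC : ∀ a b : X, orderOf a = q → orderOf b = 2 → a * b ≠ b * a)
    (hN : ∀ N : Subgroup X, N.Normal → N ≠ ⊥ → ¬ Group.IsNilpotent ↥N) : Kill S := by
  classical
  refine Kill.of_hom hz (e.toMonoidHom.comp (QuotientGroup.mk' _)) ?_ ?_ hq hq2 hqX hC hN
  · exact e.surjective.comp (QuotientGroup.mk'_surjective _)
  · intro x hx
    have hx1 : e (QuotientGroup.mk' (center ↥(centralizer ({z} : Set S))) x) = 1 := hx
    rw [MulEquiv.map_eq_one_iff] at hx1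
    have hx2 : x ∈ center ↥(centralizer ({z} : Set S)) := (QuotientGroup.eq_one_iff x).1 hx1
    have hz0 : z ∈ centralizer ({z} : Set S) := mem_centralizer_singleton_iff.2 rfl
    have hzc : (⟨z, hz0⟩ : ↥(centralizer ({z} : Set S))) ∈ center ↥(centralizer ({z} : Set S)) := by
      rw [mem_center_iff]
      intro g
      exact Subtype.ext (mem_centralizer_singleton_iff.1 g.2)
    have hz1 : (⟨z, hz0⟩ : ↥(centralizer ({z} : Set S))) ≠ 1 := by
      intro h1
      have h3 : z = 1 := congrArg Subtype.val h1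
      rw [h3, orderOf_one] at hz
      exact absurd hz (by norm_num)
    by_contra h
    push Not at h
    have hfin : Finite ↥(center ↥(centralizer ({z} : Set S))) := Nat.finite_of_card_ne_zero (by rw [hcard]; norm_num)
    have h3 : ({1, ⟨_, hzc⟩, ⟨x, hx2⟩} : Finset ↥(center ↥(centralizer ({z} : Set S)))).card ≤ 2 := by
      have := Fintype.ofFinite ↥(center ↥(centralizer ({z} : Set S)))
      rw [← hcard, Nat.card_eq_fintype_card]
      exact Finset.card_le_univ _
    rw [Finset.card_eq_three.2 ⟨_, _, _, ?_, ?_, ?_, rfl⟩] at h3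
    · omega
    · intro h4
      exact hz1 (congrArg Subtype.val h4).symm
    · intro h4
      exact h.1 (congrArg Subtype.val (congrArg Subtype.val h4)).symm
    · intro h4
      exact h.2 (congrArg Subtype.val (congrArg Subtype.val h4)).symm

/-- elements of order `p` and `2` of the alternating group of degree `n ≤ p + 1` do not commute -/
theorem alt_not_comm_two {n p : ℕ} (hp : p.Prime) (hp2 : 3 ≤ p) (hn : n ≤ p + 1) (a b : ↥(alternatingGroup (Fin n)))
    (ha : orderOf a = p) (hb : orderOf b = 2) : a * b ≠ b * a := by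
  intro hab
  have h1 : ((b : Perm (Fin n))) = 1 := by
    refine eq_one_of_comm_cycle (a := (a : Perm (Fin n))) (m := 2) hp (by rw [orderOf_coe]; exact ha)
      (by simpa using hn) hp2 ?_ ?_ (congrArg Subtype.val hab)
    · have h2 : b ^ 2 = 1 := by rw [← hb, pow_orderOf_eq_one]
      exact congrArg Subtype.val h2
    · exact (Nat.coprime_primes Nat.prime_two hp).2 (by omega)
  have h2 : b = 1 := Subtype.ext h1
  rw [h2, orderOf_one] at hb
  exact absurd hb (by norm_num)

/-- noncommuting elements of coprime orders -/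
theorem not_nil_of_coprime_pow {G : Type*} [Group G] {X : Subgroup G} {a b : G} (ha : a ∈ X) (hb : b ∈ X)
    {m n : ℕ} (hmn : m.Coprime n) (ham : a ^ m = 1) (hbn : b ^ n = 1) (hab : a * b ≠ b * a) :
    ¬ Group.IsNilpotent ↥X := by
  intro h
  apply hab
  have h1 : Commute (⟨a, ha⟩ : ↥X) ⟨b, hb⟩ :=
    Lib.NilpotentCoprime.commute_of_pow_eq_one hmn (Subtype.ext (by simpa using ham)) (Subtype.ext (by simpa using hbn))
  exact congrArg Subtype.val h1.eq

/-- a prime dividing the order once, two noncommuting elements of coprime orders in the centralizer -/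
theorem Kill.of_noncomm {S : Type*} [Group S] [Finite S] {r : ℕ} (hr : r.Prime) (h2 : ¬ r ^ 2 ∣ Nat.card S) {z : S}
    (hz : orderOf z = r) {a b : S} (haz : a * z = z * a) (hbz : b * z = z * b) {m n : ℕ} (hmn : m.Coprime n)
    (ham : a ^ m = 1) (hbn : b ^ n = 1) (hab : a * b ≠ b * a) : Kill S :=
  Kill.of_nonnil hr h2 hz (not_nil_of_coprime_pow (mem_centralizer_singleton_iff.2 haz)
    (mem_centralizer_singleton_iff.2 hbz) hmn ham hbn hab)

/-- `C(z) ≅ C_r × X` -/
theorem Kill.of_prod' {S : Type*} [Group S] [Finite S] {r : ℕ} (hr : r.Prime) {z : S} (hz : orderOf z = r)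
    {X : Type*} [Group X] (e : ↥(centralizer ({z} : Set S)) ≃* Multiplicative (ZMod r) × X)
    {σ : X} (hσ : (orderOf σ).Coprime r) (hC : ∀ y : X, y ^ r = 1 → y * σ = σ * y → y = 1)
    (hN : ∀ N : Subgroup X, N.Normal → N ≠ ⊥ → ¬ Group.IsNilpotent ↥N) (hσ1 : σ ≠ 1) : Kill S := by
  have hfr : Fact r.Prime := ⟨hr⟩
  have hzX : center X = ⊥ := by
    by_contra h
    exact hN _ inferInstance h ((Group.isNilpotent_iff _).2 ⟨1, by
      rw [Subgroup.upperCentralSeries_one, eq_top_iff]
      intro x _
      rw [mem_center_iff]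
      intro g
      exact Subtype.ext (mem_center_iff.1 x.2 _)⟩)
  have hz0 : z ∈ centralizer ({z} : Set S) := mem_centralizer_singleton_iff.2 rfl
  obtain ⟨w, hw⟩ : ∃ w : ↥(centralizer ({z} : Set S)), w = ⟨z, hz0⟩ := ⟨_, rfl⟩
  have hwc : ∀ g, g * w = w * g := by
    intro g
    rw [hw]
    exact Subtype.ext (mem_centralizer_singleton_iff.1 g.2)
  have hw2 : (e w).2 = 1 := by
    have h1 : (e w).2 ∈ center X := by
      rw [mem_center_iff]
      intro g
      have h2 := congrArg e (hwc (e.symm (1, g)))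
      rw [map_mul, map_mul, MulEquiv.apply_symm_apply] at h2
      simpa using congrArg Prod.snd h2
    rwa [hzX, mem_bot] at h1
  have hw1 : (e w).1 ≠ 1 := by
    intro h1
    have h2 : e w = 1 := Prod.ext h1 hw2
    rw [MulEquiv.map_eq_one_iff] at h2
    rw [hw] at h2
    have h3 : z = 1 := congrArg Subtype.val h2
    rw [h3, orderOf_one] at hz
    exact hr.one_lt.ne hz
  refine Kill.of_quot hr hz ((MonoidHom.snd (Multiplicative (ZMod r)) X).comp e.toMonoidHom) ?_ (σ := σ) ?_ hσ hC ?_
  · intro x hx
    have hx1 : (e x).2 = 1 := hx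
    have h3 : (e x).1 ∈ zpowers (e w).1 := by
      have h4 : zpowers (e w).1 = ⊤ := by
        have h5 : Nat.card (Multiplicative (ZMod r)) = r := by
          rw [Nat.card_congr Multiplicative.toAdd, Nat.card_zmod]
        rw [← card_eq_iff_eq_top, h5]
        have h6 : Nat.card ↥(zpowers (e w).1) ∣ r := (card_subgroup_dvd_card _).trans (dvd_of_eq h5)
        rcases (Nat.dvd_prime hr).1 h6 with h7 | h7
        · exfalso
          apply hw1
          rw [card_eq_one, zpowers_eq_bot] at h7
          exact h7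
        · exact h7
      rw [h4]
      exact mem_top _
    obtain ⟨i, hi⟩ := mem_zpowers_iff.1 h3
    refine mem_zpowers_iff.2 ⟨i, ?_⟩
    have h5 : w ^ i = x := by
      apply e.injective
      rw [map_zpow]
      exact Prod.ext hi (by rw [Prod.pow_snd, hw2, one_zpow, hx1])
    rw [← h5, hw]
    rfl
  · exact ⟨e.symm (1, σ), by simp⟩
  · have hr1 : ((MonoidHom.snd (Multiplicative (ZMod r)) X).comp e.toMonoidHom).range = ⊤ := by
      rw [MonoidHom.range_eq_top]
      intro y
      exact ⟨e.symm (1, y), by simp⟩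
    rw [hr1]
    refine hN _ ⟨?_⟩ ?_
    · intro a ha g
      have h1 : closure (cjs (⊤ : Subgroup X) σ) ≤
          (closure (cjs (⊤ : Subgroup X) σ)).comap (MulAut.conj g).toMonoidHom := by
        rw [closure_le]
        rintro _ ⟨m, -, rfl⟩
        exact subset_closure ⟨g * m, mem_top _, by simp [MulAut.conj_apply, mul_assoc]⟩
      exact h1 ha
    · intro h1
      apply hσ1
      rw [← mem_bot, ← h1]
      exact subset_closure (mem_cjs_self _ σ)

theorem dvd_card_alt {n p : ℕ} (hp : p.Prime) (hp2 : 3 ≤ p) (hn : p ≤ n) : p ∣ Nat.card ↥(alternatingGroup (Fin n)) := by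
  have hnt : Nontrivial (Fin n) := Fin.nontrivial_iff_two_le.2 (by omega)
  have h1 : 2 * Nat.card ↥(alternatingGroup (Fin n)) = n.factorial := by
    rw [two_mul_nat_card_alternatingGroup, Nat.card_perm, Nat.card_fin]
  have h2 : p ∣ 2 * Nat.card ↥(alternatingGroup (Fin n)) := by
    rw [h1]
    exact hp.dvd_factorial.2 hn
  rcases hp.dvd_mul.1 h2 with h3 | h3
  · have := Nat.le_of_dvd (by norm_num) h3
    omega
  · exact h3

end Cfsg.Agent.H480
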